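import Mathlib

/-! The automorphisms of the alternating groups of degree other than six. -/

set_option autoImplicit false

open Equiv Equiv.Perm

namespace Cfsg.Lib.PermGroup.AltAut

theorem six_bound : ∀ σ : Perm (Fin 6), sign σ = 1 → σ ^ 2 = 1 ∨ σ ^ 3 = 1 ∨ σ ^ 4 = 1 ∨ σ ^ 5 = 1 := by
  decide +kernel

variable {α : Type*} [Fintype α] [DecidableEq α]

theorem orderOf_le_five {σ : Perm α} (hs : sign σ = 1) (hc : σ.support.card ≤ 6) : orderOf σ ≤ 5 := by
  set σ' : Perm {x // x ∈ σ.support} := σ.subtypePerm (fun x => apply_mem_support) with hσ'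
  have e : Nonempty ({x // x ∈ σ.support} ↪ Fin 6) :=
    Function.Embedding.nonempty_of_card_le (by rw [Fintype.card_coe, Fintype.card_fin]; exact hc)
  obtain ⟨e⟩ := e
  have h1 : ofSubtype σ' = σ := ofSubtype_subtypePerm _ fun x hx => mem_support.2 hx
  have hord : orderOf σ = orderOf (viaEmbeddingHom e σ') := by
    rw [orderOf_injective _ (viaEmbeddingHom_injective e), ← orderOf_injective _ ofSubtype_injective σ', h1]
  have hsign : sign (viaEmbeddingHom e σ') = 1 := by
    rw [viaEmbeddingHom_apply, viaEmbedding, sign_extendDomain, ← sign_ofSubtype, h1, hs]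
  rw [hord]
  rcases six_bound _ hsign with h | h | h | h <;>
    exact le_trans (orderOf_le_of_pow_eq_one (by norm_num) h) (by norm_num)

/-- The property singling out the three cycles. -/
def SmallCommutators (x : alternatingGroup α) : Prop :=
  orderOf x = 3 ∧ ∀ g : alternatingGroup α, orderOf (x * g * x⁻¹ * g⁻¹) ≤ 5

theorem smallCommutators_of_isThreeCycle {x : alternatingGroup α} (hx : (x : Perm α).IsThreeCycle) :
    SmallCommutators x := by
  refine ⟨by rw [← Subgroup.orderOf_coe]; exact hx.orderOf, fun g => ?_⟩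
  rw [← Subgroup.orderOf_coe]
  refine orderOf_le_five (mem_alternatingGroup.1 (x * g * x⁻¹ * g⁻¹).2) ?_
  have h1 : ((x * g * x⁻¹ * g⁻¹ : alternatingGroup α) : Perm α) =
      (x : Perm α) * ((g : Perm α) * (x : Perm α)⁻¹ * (g : Perm α)⁻¹) := by
    simp [mul_assoc]
  rw [h1]
  refine le_trans (Finset.card_le_card (support_mul_le _ _)) ((Finset.card_union_le _ _).trans ?_)
  rw [support_conj, Finset.card_map, support_inv, hx.card_support]

theorem orderOf_commutator_witness {m : ℕ} (x : Perm α) (f : Fin m ↪ α) (x₀ g₀ : Perm (Fin m))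
    (hf : ∀ i, x (f i) = f (x₀ i)) (hg : sign g₀ = 1) :
    ∃ g : alternatingGroup α, orderOf (x * (g : Perm α) * x⁻¹ * (g : Perm α)⁻¹) =
      orderOf (x₀ * g₀ * x₀⁻¹ * g₀⁻¹) := by
  refine ⟨⟨viaEmbeddingHom f g₀, mem_alternatingGroup.2 (by
    rw [viaEmbeddingHom_apply, viaEmbedding, sign_extendDomain, hg])⟩, ?_⟩
  have hinv : ∀ i, x⁻¹ (f i) = f (x₀⁻¹ i) := fun i => by
    rw [Equiv.Perm.inv_eq_iff_eq, hf]; simp
  have h : x * viaEmbeddingHom f g₀ * x⁻¹ = viaEmbeddingHom f (x₀ * g₀ * x₀⁻¹) := by
    ext y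
    simp only [viaEmbeddingHom_apply, Perm.mul_apply]
    by_cases hy : y ∈ Set.range f
    · obtain ⟨i, rfl⟩ := hy
      simp [hinv, hf, viaEmbedding_apply]
    · have hy' : x⁻¹ y ∉ Set.range f := fun ⟨i, hi⟩ => hy ⟨x₀ i, by rw [← hf, hi]; simp⟩
      rw [viaEmbedding_apply_of_notMem _ _ _ hy', viaEmbedding_apply_of_notMem _ _ _ hy]
      simp
  show orderOf (x * viaEmbeddingHom f g₀ * x⁻¹ * (viaEmbeddingHom f g₀)⁻¹) = _
  rw [h, ← map_inv, ← map_mul, orderOf_injective _ (viaEmbeddingHom_injective f)]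

theorem orderOf_eq_six : orderOf (([1, 2, 0] : List (Fin 9)).formPerm * ([4, 5, 3] : List (Fin 9)).formPerm *
    ([7, 8, 6] : List (Fin 9)).formPerm * (swap 0 1 * swap 3 6) *
    (([1, 2, 0] : List (Fin 9)).formPerm * ([4, 5, 3] : List (Fin 9)).formPerm *
    ([7, 8, 6] : List (Fin 9)).formPerm)⁻¹ * (swap 0 1 * swap 3 6)⁻¹) = 6 := by
  rw [orderOf_eq_iff (by norm_num)]
  decide +kernel

theorem orderOf_eq_seven : orderOf (([1, 2, 0] : List (Fin 7)).formPerm * ([4, 5, 3] : List (Fin 7)).formPerm *
    (([1, 2, 3] : List (Fin 7)).formPerm * ([4, 5, 6] : List (Fin 7)).formPerm) *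
    (([1, 2, 0] : List (Fin 7)).formPerm * ([4, 5, 3] : List (Fin 7)).formPerm)⁻¹ *
    (([1, 2, 3] : List (Fin 7)).formPerm * ([4, 5, 6] : List (Fin 7)).formPerm)⁻¹) = 7 := by
  rw [orderOf_eq_iff (by norm_num)]
  decide +kernel

theorem isThreeCycle_of_smallCommutators (h4 : 4 ≤ Fintype.card α) (h6 : Fintype.card α ≠ 6)
    {x : alternatingGroup α} (hx : SmallCommutators x) : (x : Perm α).IsThreeCycle := by
  obtain ⟨hord, hsmall⟩ := hx
  rw [← Subgroup.orderOf_coe] at hord
  set y : Perm α := (x : Perm α) with hy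
  have h3 : ∀ z, y (y (y z)) = z := fun z => by
    have h := pow_orderOf_eq_one y
    rw [hord] at h
    simpa [pow_succ, Perm.mul_apply] using DFunLike.congr_fun h z
  have hne2 : ∀ z, y z ≠ z → y (y z) ≠ z ∧ y (y z) ≠ y z := fun z hz =>
    ⟨fun e => hz (by have := h3 z; rwa [e] at this), fun e => hz (y.injective e)⟩
  by_contra hnot
  have hy1 : y ≠ 1 := fun e => by rw [e, orderOf_one] at hord; omega
  obtain ⟨a, ha⟩ : ∃ a, y a ≠ a := by
    by_contra h
    push Not at h
    exact hy1 (Equiv.ext h)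
  obtain ⟨b, hb, hba, hba', hba''⟩ : ∃ b, y b ≠ b ∧ b ≠ a ∧ b ≠ y a ∧ b ≠ y (y a) := by
    by_contra h
    push Not at h
    refine hnot (card_support_eq_three_iff.1 ?_)
    rw [show y.support = {a, y a, y (y a)} by
      ext z
      simp only [mem_support, Finset.mem_insert, Finset.mem_singleton]
      constructor
      · intro hz
        by_contra hh
        push Not at hh
        exact hh.2.2 (h z hz hh.1 hh.2.1)
      · rintro (rfl | rfl | rfl)
        · exact ha
        · exact fun e => ha (y.injective e)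
        · exact fun e => ha (y.injective (y.injective e))]
    rw [Finset.card_eq_three]
    exact ⟨a, y a, y (y a), (Ne.symm ha), (hne2 a ha).1.symm, (hne2 a ha).2.symm, rfl⟩
  have hsep : ∀ u v : α, v ≠ u → v ≠ y u → v ≠ y (y u) →
      y v ≠ u ∧ y v ≠ y u ∧ y v ≠ y (y u) ∧ y (y v) ≠ u ∧ y (y v) ≠ y u ∧ y (y v) ≠ y (y u) := by
    intro u v h1 h2 h3'
    refine ⟨fun e => h3' ?_, fun e => h1 (y.injective e), fun e => h2 (y.injective e), fun e => h2 ?_,
      fun e => h3' ?_, fun e => h1 (y.injective (y.injective e))⟩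
    · rw [← h3 v, e]
    · rw [← h3 v, e]
    · rw [← h3 v, e]
  obtain ⟨s1, s2, s3, s4, s5, s6⟩ := hsep a b hba hba' hba''
  have h7 : 7 ≤ Fintype.card α := by
    have : ({a, y a, y (y a), b, y b, y (y b)} : Finset α).card = 6 := by
      simp [Ne.symm ha, (hne2 a ha).1.symm, (hne2 a ha).2.symm, Ne.symm hb, (hne2 b hb).1.symm,
        (hne2 b hb).2.symm, hba.symm, hba'.symm, hba''.symm, s1.symm, s2.symm, s3.symm, s4.symm, s5.symm,
        s6.symm]
    have := Finset.card_le_univ ({a, y a, y (y a), b, y b, y (y b)} : Finset α)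
    omega
  obtain ⟨c, -, hc⟩ := Finset.exists_mem_notMem_of_card_lt_card
    (t := (Finset.univ : Finset α)) (s := {a, y a, y (y a), b, y b, y (y b)}) (by
      refine lt_of_le_of_lt (Finset.card_le_six) ?_
      rw [Finset.card_univ]; omega)
  simp only [Finset.mem_insert, Finset.mem_singleton, not_or] at hc
  obtain ⟨c1, c2, c3, c4, c5, c6⟩ := hc
  by_cases hcf : y c = c
  · let f : Fin 7 ↪ α := ⟨![a, y a, y (y a), b, y b, y (y b), c], by
      rw [← List.nodup_ofFn]
      simp [Ne.symm ha, (hne2 a ha).1.symm, (hne2 a ha).2.symm, Ne.symm hb, (hne2 b hb).1.symm,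
        (hne2 b hb).2.symm, hba.symm, hba'.symm, hba''.symm, s1.symm, s2.symm, s3.symm, s4.symm, s5.symm,
        s6.symm, Ne.symm c1, Ne.symm c2, Ne.symm c3, Ne.symm c4, Ne.symm c5, Ne.symm c6]⟩
    obtain ⟨g, hg⟩ := orderOf_commutator_witness y f
      (([1, 2, 0] : List (Fin 7)).formPerm * ([4, 5, 3] : List (Fin 7)).formPerm)
      (([1, 2, 3] : List (Fin 7)).formPerm * ([4, 5, 6] : List (Fin 7)).formPerm) (fun i => by
        fin_cases i <;> simp [f, h3, hcf, List.formPerm, Equiv.swap_apply_def]) (by decide +kernel)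
    rw [orderOf_eq_seven] at hg
    have := hsmall g
    rw [← Subgroup.orderOf_coe] at this
    simp only [Subgroup.coe_mul, Subgroup.coe_inv, ← hy] at this
    omega
  · obtain ⟨t1, t2, t3, t4, t5, t6⟩ := hsep a c c1 c2 c3
    obtain ⟨u1, u2, u3, u4, u5, u6⟩ := hsep b c c4 c5 c6
    let f : Fin 9 ↪ α := ⟨![a, y a, y (y a), b, y b, y (y b), c, y c, y (y c)], by
      rw [← List.nodup_ofFn]
      simp [Ne.symm ha, (hne2 a ha).1.symm, (hne2 a ha).2.symm, Ne.symm hb, (hne2 b hb).1.symm,
        (hne2 b hb).2.symm, hba.symm, hba'.symm, hba''.symm, s1.symm, s2.symm, s3.symm, s4.symm, s5.symm,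
        s6.symm, Ne.symm c1, Ne.symm c2, Ne.symm c3, Ne.symm c4, Ne.symm c5, Ne.symm c6, Ne.symm hcf,
        (hne2 c hcf).1.symm, (hne2 c hcf).2.symm, t1.symm, t2.symm, t3.symm, t4.symm, t5.symm, t6.symm,
        u1.symm, u2.symm, u3.symm, u4.symm, u5.symm, u6.symm]⟩
    obtain ⟨g, hg⟩ := orderOf_commutator_witness y f
      (([1, 2, 0] : List (Fin 9)).formPerm * ([4, 5, 3] : List (Fin 9)).formPerm *
        ([7, 8, 6] : List (Fin 9)).formPerm) (swap 0 1 * swap 3 6) (fun i => by
        fin_cases i <;> simp [f, h3, List.formPerm, Equiv.swap_apply_def]) (by decide +kernel)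
    rw [orderOf_eq_six] at hg
    have := hsmall g
    rw [← Subgroup.orderOf_coe] at this
    simp only [Subgroup.coe_mul, Subgroup.coe_inv, ← hy] at this
    omega

theorem eq_one_of_centralizes (h4 : 4 ≤ Fintype.card α) {σ : Perm α}
    (h : ∀ g : alternatingGroup α, σ * g * σ⁻¹ = g) : σ = 1 := by
  ext a
  rw [Perm.one_apply]
  by_contra ha
  obtain ⟨b, -, hb⟩ := Finset.exists_mem_notMem_of_card_lt_card
    (t := (Finset.univ : Finset α)) (s := {a, σ a}) (lt_of_le_of_lt Finset.card_le_two
      (by rw [Finset.card_univ]; omega))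
  obtain ⟨c, -, hc⟩ := Finset.exists_mem_notMem_of_card_lt_card
    (t := (Finset.univ : Finset α)) (s := {a, σ a, b}) (lt_of_le_of_lt Finset.card_le_three
      (by rw [Finset.card_univ]; omega))
  simp only [Finset.mem_insert, Finset.mem_singleton, not_or] at hb hc
  have hcyc : (swap a b * swap a c).IsThreeCycle :=
    isThreeCycle_swap_mul_swap_same (Ne.symm hb.1) (Ne.symm hc.1) (Ne.symm hc.2.2)
  have hsupp : (swap a b * swap a c) (σ a) = σ a := by
    simp [Perm.mul_apply, swap_apply_of_ne_of_ne, ha, Ne.symm hb.2, Ne.symm hc.2.1]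
  have h1 := h ⟨swap a b * swap a c, hcyc.mem_alternatingGroup⟩
  have h2 := DFunLike.congr_fun h1 (σ a)
  simp only [Perm.mul_apply, Perm.inv_def, Equiv.symm_apply_apply] at h2
  rw [show swap a b (swap a c (σ a)) = σ a from hsupp] at h2
  have h3 := σ.injective h2
  simp [swap_apply_of_ne_of_ne hc.1 hc.2.2] at h3
  exact hc.1 h3

/-- Two three cycles whose product is an involution share exactly one oriented edge. -/
theorem common_edge {x y : Perm α} (hx : x ^ 3 = 1) (hy : y.IsThreeCycle) (hyx : x.IsThreeCycle)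
    (h : (x * y) ^ 2 = 1) (hne : x ≠ y) (hne' : x * y ≠ 1) :
    ∃ q, x q ≠ q ∧ x q = y q := by
  have hyxy : ∀ p, y (x (y p)) = x⁻¹ p := fun p => by
    have h1 : y * x * y = x⁻¹ := by
      rw [pow_two] at h
      exact eq_inv_of_mul_eq_one_right (by rw [← h]; group)
    exact DFunLike.congr_fun h1 p
  have hy3 : ∀ z, y (y (y z)) = z := fun z => by
    have h1 := pow_orderOf_eq_one y
    rw [hy.orderOf] at h1
    simpa [pow_succ, Perm.mul_apply] using DFunLike.congr_fun h1 z
  by_cases hsub : y.support ⊆ x.support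
  · exfalso
    have heq : y.support = x.support := Finset.eq_of_subset_of_card_le hsub
      (by rw [hy.card_support, hyx.card_support])
    obtain ⟨a, ha⟩ : ∃ a, a ∈ x.support := Finset.card_pos.1 (by rw [hyx.card_support]; omega)
    have hxs := (hyx.support_eq_iff_mem_support).2 ha
    have hya : y a ∈ x.support := heq ▸ (apply_mem_support.2 (heq.symm ▸ ha))
    have hxa : a ∈ y.support := heq.symm ▸ ha
    have hys := (hy.support_eq_iff_mem_support).2 hxa
    rw [hxs] at hya
    simp only [Finset.mem_insert, Finset.mem_singleton] at hya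
    have hxe := (hyx.eq_swap_mul_swap_iff_mem_support).2 ha
    have hye := (hy.eq_swap_mul_swap_iff_mem_support).2 hxa
    rcases hya with h1 | h1 | h1
    · exact (mem_support.1 hxa) h1
    · have h2 : y (y a) = x (x a) := by
        have hm : y (y a) ∈ x.support := heq ▸ apply_mem_support.2 (apply_mem_support.2 hxa)
        rw [hxs] at hm
        simp only [Finset.mem_insert, Finset.mem_singleton] at hm
        rcases hm with h3 | h3 | h3
        · exact absurd (by have := hy3 a; rwa [h3] at this) (mem_support.1 hxa)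
        · exact absurd (y.injective (h3.trans h1.symm)) (mem_support.1 hxa)
        · exact h3
      rw [h1] at h2 hye
      rw [h2] at hye
      exact hne (hxe.trans hye.symm)
    · refine hne' ?_
      have h2 : y (y a) = x a := by
        have hm : y (y a) ∈ x.support := heq ▸ apply_mem_support.2 (apply_mem_support.2 hxa)
        rw [hxs] at hm
        simp only [Finset.mem_insert, Finset.mem_singleton] at hm
        rcases hm with h3 | h3 | h3
        · exact absurd (by have := hy3 a; rwa [h3] at this) (mem_support.1 hxa)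
        · exact h3
        · exact absurd (y.injective (h3.trans h1.symm)) (mem_support.1 hxa)
      have hx3 : ∀ z, x (x (x z)) = z := fun z => by
        simpa [pow_succ, Perm.mul_apply] using DFunLike.congr_fun hx z
      have v1 : y (x (x a)) = x a := by rw [← h1]; exact h2
      have v2 : y (x a) = a := by rw [← h2]; exact hy3 a
      refine Equiv.ext fun z => ?_
      rw [Perm.mul_apply, Perm.one_apply]
      by_cases hz : z ∈ x.support
      · rw [hxs] at hz
        simp only [Finset.mem_insert, Finset.mem_singleton] at hz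
        rcases hz with hz | hz | hz <;> subst hz
        · rw [h1, hx3]
        · rw [v2]
        · rw [v1]
      · have hzy : y z = z := notMem_support.1 (heq ▸ hz)
        rw [hzy, notMem_support.1 hz]
  · obtain ⟨p, hp, hpx⟩ := Finset.not_subset.1 hsub
    have hxp : x p = p := notMem_support.1 hpx
    have hyp : y p ≠ p := mem_support.1 hp
    have h1 := hyxy p
    rw [Perm.inv_eq_iff_eq.2 hxp.symm] at h1
    have h2 : x (y p) = y (y p) := y.injective (by rw [h1, hy3])
    refine ⟨y p, ?_, h2⟩
    rw [h2]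
    exact fun e => hyp (y.injective e)

/-- A set of even permutations containing the three cycles on a fixed edge generates. -/
theorem eq_top_of_edge_cycles {p₀ p₁ : α} (h01 : p₀ ≠ p₁) (K : Subgroup (Perm α))
    (hK : ∀ i, i ≠ p₀ → i ≠ p₁ → swap p₀ i * swap p₀ p₁ ∈ K) : alternatingGroup α ≤ K := by
  set s : Perm α := swap p₀ p₁
  have hall : ∀ i, i ≠ p₀ → swap p₀ i * s ∈ K := fun i hi => by
    by_cases h : i = p₁
    · rw [h, show swap p₀ p₁ * s = 1 from swap_mul_self _ _]; exact K.one_mem
    · exact hK i hi h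
  have hall' : ∀ i, i ≠ p₀ → s * swap p₀ i ∈ K := fun i hi => by
    have := K.inv_mem (hall i hi)
    rwa [mul_inv_rev, swap_inv, swap_inv] at this
  have hpair : ∀ i j, i ≠ p₀ → j ≠ p₀ → swap p₀ i * swap p₀ j ∈ K := fun i j hi hj => by
    have := K.mul_mem (hall i hi) (hall' j hj)
    rwa [mul_assoc, swap_mul_self_mul] at this
  let K₁ : Subgroup (Perm α) := {
    carrier := {g | g ∈ K ∧ s * g * s ∈ K}
    one_mem' := ⟨K.one_mem, by simp [s, K.one_mem]⟩
    mul_mem' := fun {a b} ha hb => ⟨K.mul_mem ha.1 hb.1, by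
      have e : s * (a * b) * s = (s * a * s) * (s * b * s) := by
        simp [s, mul_assoc, swap_mul_self_mul]
      rw [e]; exact K.mul_mem ha.2 hb.2⟩
    inv_mem' := fun {a} ha => ⟨K.inv_mem ha.1, by
      have := K.inv_mem ha.2
      simpa [s, mul_assoc] using this⟩ }
  have hall₁ : ∀ i, i ≠ p₀ → swap p₀ i * s ∈ K₁ := fun i hi => ⟨hall i hi, by
    rw [show s * (swap p₀ i * s) * s = s * swap p₀ i by simp [s, mul_assoc]]
    exact hall' i hi⟩
  have hswap : ∀ x y, x ≠ y → swap x y * s ∈ K₁ := by
    intro x y hxy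
    by_cases hx : x = p₀
    · subst hx; exact hall₁ y hxy.symm
    by_cases hy : y = p₀
    · subst hy; rw [swap_comm]; exact hall₁ x hxy
    have e : swap x y * s = (swap p₀ x * s) * (swap p₀ y * s)⁻¹ * (swap p₀ x * s) := by
      rw [mul_inv_rev, show (swap p₀ y)⁻¹ = swap p₀ y from swap_inv _ _, show s⁻¹ = s from swap_inv _ _,
        show swap p₀ x * s * (s * swap p₀ y) * (swap p₀ x * s) =
          swap p₀ x * swap p₀ y * swap p₀ x * s by simp [s, mul_assoc],
        swap_comm p₀ y, swap_mul_swap_mul_swap hy (Ne.symm hxy)]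
    rw [e]
    exact K₁.mul_mem (K₁.mul_mem (hall₁ x hx) (K₁.inv_mem (hall₁ y hy))) (hall₁ x hx)
  have key : ∀ g : Perm α, (sign g = 1 → g ∈ K₁) ∧ (sign g ≠ 1 → g * s ∈ K₁) := by
    intro g
    induction g using swap_induction_on with
    | one => exact ⟨fun _ => K₁.one_mem, fun h => absurd (map_one _) h⟩
    | swap_mul g x y hxy ih =>
      have hss : sign (swap x y * g) = -sign g := by rw [map_mul, sign_swap hxy, neg_one_mul]
      constructor
      · intro h
        have hg : sign g ≠ 1 := fun e => by rw [hss, e] at h; exact absurd h (by decide)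
        have := K₁.mul_mem (hswap x y hxy) (show s * g ∈ K₁ from by
          have h2 : g * s ∈ K₁ := ih.2 hg
          exact ⟨by simpa [s, mul_assoc] using h2.2, by simpa [s, mul_assoc] using h2.1⟩)
        rwa [show swap x y * s * (s * g) = swap x y * g by simp [s, mul_assoc]] at this
      · intro h
        have hg : sign g = 1 := by
          rcases Int.units_eq_one_or (sign g) with e | e
          · exact e
          · exact absurd (by rw [hss, e]; decide) h
        have := K₁.mul_mem (hswap x y hxy) (show s * g * s ∈ K₁ from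
          ⟨(ih.1 hg).2, by simpa [s, mul_assoc] using (ih.1 hg).1⟩)
        rwa [show swap x y * s * (s * g * s) = swap x y * g * s by simp [s, mul_assoc]] at this
  exact fun g hg => ((key g).1 (mem_alternatingGroup.1 hg)).1

theorem bijective_conjNormal (h4 : 4 ≤ Fintype.card α) (h6 : Fintype.card α ≠ 6) :
    Function.Bijective (MulAut.conjNormal : Perm α →* MulAut ↥(alternatingGroup α)) := by
  refine ⟨fun σ τ h => ?_, fun φ => ?_⟩
  · refine inv_mul_eq_one.1 (eq_one_of_centralizes h4 (σ := σ⁻¹ * τ) fun g => ?_)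
    have e := congrArg (fun ψ : MulAut ↥(alternatingGroup α) => ((ψ g : alternatingGroup α) : Perm α)) h
    simp only [MulAut.conjNormal_apply] at e
    rw [mul_inv_rev, inv_inv, show σ⁻¹ * τ * (g : Perm α) * (τ⁻¹ * σ) =
      σ⁻¹ * (τ * (g : Perm α) * τ⁻¹) * σ by group, ← e]
    group
  -- images of three cycles
  have himg : ∀ x : alternatingGroup α, (x : Perm α).IsThreeCycle → (φ x : Perm α).IsThreeCycle := by
    intro x hx
    obtain ⟨h1, h2⟩ := smallCommutators_of_isThreeCycle hx
    refine isThreeCycle_of_smallCommutators h4 h6 ⟨by rw [MulEquiv.orderOf_eq, h1], fun g => ?_⟩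
    obtain ⟨g', rfl⟩ := φ.surjective g
    rw [← map_inv, ← map_inv, ← map_mul, ← map_mul, ← map_mul, MulEquiv.orderOf_eq]
    exact h2 g'
  obtain ⟨p₀, p₁, h01⟩ := Fintype.exists_pair_of_one_lt_card (show 1 < Fintype.card α by omega)
  set I := {i : α // i ≠ p₀ ∧ i ≠ p₁}
  have hcyc : ∀ i : I, (swap p₀ i.1 * swap p₀ p₁).IsThreeCycle := fun i =>
    isThreeCycle_swap_mul_swap_same (Ne.symm i.2.1) h01 i.2.2
  let t : I → alternatingGroup α := fun i => ⟨_, (hcyc i).mem_alternatingGroup⟩
  let u : I → Perm α := fun i => (φ (t i) : Perm α)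
  have hu : ∀ i, (u i).IsThreeCycle := fun i => himg _ (hcyc i)
  have ht : ∀ i : I, (t i : Perm α) p₀ = p₁ ∧ (t i : Perm α) p₁ = i.1 := fun i => by
    simp [t, Perm.mul_apply, swap_apply_of_ne_of_ne h01.symm (Ne.symm i.2.2), swap_apply_of_ne_of_ne]
  have hinjt : Function.Injective t := fun i j h => Subtype.ext (by
    rw [← (ht i).2, ← (ht j).2, h])
  have hinju : Function.Injective u := fun i j h => hinjt (φ.injective (Subtype.ext h))
  have hsq : ∀ i j : I, i ≠ j → (u i * u j) ^ 2 = 1 ∧ u i * u j ≠ 1 := by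
    intro i j hij
    have hij' : i.1 ≠ j.1 := fun e => hij (Subtype.ext e)
    have h1 : (t i * t j) ^ 2 = 1 := by
      refine Subtype.ext ?_
      show (swap p₀ i.1 * swap p₀ p₁ * (swap p₀ j.1 * swap p₀ p₁)) ^ 2 = 1
      have e : swap p₀ p₁ * swap p₀ j.1 * swap p₀ p₁ = swap p₁ j.1 := by
        have := Equiv.swap_apply_apply (swap p₀ p₁) p₀ j.1
        rw [swap_apply_left, swap_apply_of_ne_of_ne j.2.1 j.2.2, swap_inv] at this
        exact this.symm
      have hc : Commute (swap p₀ i.1) (swap p₁ j.1) := by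
        refine Perm.Disjoint.commute (disjoint_iff_disjoint_support.2 ?_)
        rw [support_swap (Ne.symm i.2.1), support_swap (Ne.symm j.2.2)]
        simp [h01.symm, j.2.1, i.2.2.symm, hij'.symm, h01, i.2.2, hij', Ne.symm j.2.1]
      rw [show swap p₀ i.1 * swap p₀ p₁ * (swap p₀ j.1 * swap p₀ p₁) = swap p₀ i.1 * swap p₁ j.1 by
        rw [← e]; simp [mul_assoc], hc.mul_pow, pow_two, pow_two, swap_mul_self, swap_mul_self, one_mul]
    have h2 : t i * t j ≠ 1 := fun h => by
      have h' := DFunLike.congr_fun (congrArg Subtype.val h) p₀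
      simp only [Subgroup.coe_mul, Perm.mul_apply, OneMemClass.coe_one, Perm.one_apply, (ht j).1, (ht i).2] at h'
      exact i.2.1 h'
    constructor
    · have := congrArg (fun z : alternatingGroup α => ((φ z : alternatingGroup α) : Perm α)) h1
      simpa [u] using this
    · intro h
      exact h2 (φ.injective (Subtype.ext (by simpa [u] using h)))
  have hex : ∀ i j : I, i ≠ j → ∃ q, u i q ≠ q ∧ u i q = u j q := fun i j hij =>
    common_edge (by rw [← (hu i).orderOf]; exact pow_orderOf_eq_one _) (hu j) (hu i)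
      (hsq i j hij).1 (fun h => hij (hinju h)) (hsq i j hij).2
  have huniq : ∀ i j : I, i ≠ j → ∀ q, u i q ≠ q → u i q = u j q → u i (u i q) ≠ u j (u i q) := by
    intro i j hij q hq e h
    refine hij (hinju ?_)
    have hqi := mem_support.2 hq
    have hqj : q ∈ (u j).support := mem_support.2 (e ▸ hq)
    rw [((hu i).eq_swap_mul_swap_iff_mem_support).2 hqi, ((hu j).eq_swap_mul_swap_iff_mem_support).2 hqj,
      ← e, h]
  have h3 : ∀ (i : I) (z : α), u i (u i (u i z)) = z := fun i z => by
    have h := pow_orderOf_eq_one (u i)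
    rw [(hu i).orderOf] at h
    simpa [pow_succ, Perm.mul_apply] using DFunLike.congr_fun h z
  obtain ⟨i₀, j₀, hij₀⟩ : ∃ i j : I, i ≠ j := by
    have hc : 1 < Fintype.card I := by
      have : Fintype.card I = ((Finset.univ : Finset α) \ {p₀, p₁}).card := by
        rw [Fintype.card_subtype]; congr 1; ext; simp
      rw [this, Finset.card_univ_diff, Finset.card_pair h01]
      omega
    exact Fintype.exists_pair_of_one_lt_card hc
  obtain ⟨a, ha, hae⟩ := hex i₀ j₀ hij₀
  set b := u i₀ a
  -- every image passes through the edge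
  have hedge : ∀ i, u i a = b := by
    intro i
    by_contra hne
    have hii₀ : i₀ ≠ i := fun e => hne (e ▸ rfl)
    have hij : j₀ ≠ i := fun e => hne (e ▸ hae.symm)
    obtain ⟨q, hq, hqe⟩ := hex i₀ i hii₀
    obtain ⟨r, hr, hre⟩ := hex j₀ i hij
    have hqa : q ≠ a := fun e => hne (by subst e; exact hqe.symm)
    have hra : r ≠ a := fun e => hne (by subst e; exact hre.symm.trans hae.symm)
    have ha' : u j₀ a ≠ a := hae ▸ ha
    have n1 : u i₀ b ≠ u j₀ b := huniq i₀ j₀ hij₀ a ha hae
    have hqm := mem_support.2 hq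
    have hrm := mem_support.2 hr
    rw [((hu i₀).support_eq_iff_mem_support).2 (mem_support.2 ha)] at hqm
    rw [((hu j₀).support_eq_iff_mem_support).2 (mem_support.2 ha'), ← hae] at hrm
    simp only [Finset.mem_insert, Finset.mem_singleton] at hqm hrm
    set w := u i₀ b
    set w' := u j₀ b
    have ew : u i₀ w = a := h3 i₀ a
    have ew' : u j₀ w' = a := by
      have := h3 j₀ a
      rwa [← hae] at this
    have hq' : q = b ∨ q = w := hqm.resolve_left hqa
    have hr' : r = b ∨ r = w' := hrm.resolve_left hra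
    have hwb : w ≠ b := fun e => ha (u i₀ |>.injective e)
    have hw'b : w' ≠ b := fun e => ha ((u j₀).injective (e.trans hae) : b = a)
    have horbit : ∀ z v, u i z ≠ z → u i v ≠ v → v = z ∨ v = u i z ∨ v = u i (u i z) := by
      intro z v hz hv
      have := mem_support.2 hv
      rw [((hu i).support_eq_iff_mem_support).2 (mem_support.2 hz)] at this
      simpa using this
    have hqmv : u i q ≠ q := hqe ▸ hq
    have hrmv : u i r ≠ r := hre ▸ hr
    rcases hq' with hq' | hq' <;> rcases hr' with hr' | hr' <;> subst hq' <;> subst hr'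
    · exact n1 (hqe.trans hre.symm)
    · have k1 : u i b = w := hqe.symm
      have k2 : u i w' = a := hre.symm.trans ew'
      rcases horbit b w' hqmv hrmv with h | h | h
      · exact hw'b h
      · exact n1 (k1.symm.trans h.symm)
      · rw [h, h3] at k2
        exact ha k2
    · have k1 : u i w = a := hqe.symm.trans ew
      have k2 : u i b = w' := hre.symm
      rcases horbit b w hrmv hqmv with h | h | h
      · exact hwb h
      · exact n1 (h.trans k2)
      · rw [h, h3] at k1
        exact ha k1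
    · exact n1 ((u i).injective ((hqe.symm.trans ew).trans (hre.symm.trans ew').symm))
  let c : I → α := fun i => u i b
  have hba : b ≠ a := ha
  have hua : ∀ i, a ∈ (u i).support := fun i => mem_support.2 (by rw [hedge i]; exact hba)
  have hnd : ∀ i, c i ≠ a ∧ c i ≠ b := fun i => by
    have := ((hu i).nodup_iff_mem_support).2 (hua i)
    rw [hedge i] at this
    simp at this
    exact ⟨fun e => this.1.2 e.symm, fun e => this.2 e.symm⟩
  have hcu : ∀ i, u i = swap a (c i) * swap a b := fun i => by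
    have e := ((hu i).eq_swap_mul_swap_iff_mem_support).2 (hua i)
    rw [hedge i] at e
    obtain ⟨na, nb⟩ := hnd i
    have k := Equiv.swap_apply_apply (swap a b) b (c i)
    rw [swap_apply_right, swap_apply_of_ne_of_ne na nb, swap_inv] at k
    rw [e, k]
    simp [mul_assoc, c]
  have hcinj : Function.Injective c := fun i j h => hinju (by rw [hcu i, hcu j, h])
  -- the permutation
  let f : α → α := fun z => if z = p₀ then a else if z = p₁ then b else
    if h : z ≠ p₀ ∧ z ≠ p₁ then c ⟨z, h⟩ else z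
  have hf : Function.Injective f := by
    intro z w hzw
    simp only [f] at hzw
    split_ifs at hzw <;> first
      | (subst_vars; rfl)
      | exact congrArg Subtype.val (hcinj hzw)
      | (exfalso; first
          | exact hba hzw
          | exact hba hzw.symm
          | exact (hnd _).1 hzw
          | exact (hnd _).1 hzw.symm
          | exact (hnd _).2 hzw
          | exact (hnd _).2 hzw.symm
          | tauto)
  let σ : Perm α := Equiv.ofBijective f (Finite.injective_iff_bijective.1 hf)
  refine ⟨σ, MulEquiv.ext fun g => ?_⟩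
  let E : Subgroup ↥(alternatingGroup α) :=
    MonoidHom.eqLocus (MulAut.conjNormal σ : ↥(alternatingGroup α) ≃* ↥(alternatingGroup α)).toMonoidHom
      φ.toMonoidHom
  have hle : alternatingGroup α ≤ E.map (alternatingGroup α).subtype := by
    refine eq_top_of_edge_cycles h01 _ fun i hi hi' => ⟨t ⟨i, hi, hi'⟩, ?_, rfl⟩
    refine Subtype.ext ?_
    show ((MulAut.conjNormal σ (t ⟨i, hi, hi'⟩) : alternatingGroup α) : Perm α) = u ⟨i, hi, hi'⟩
    rw [MulAut.conjNormal_apply, hcu]
    show σ * (swap p₀ i * swap p₀ p₁) * σ⁻¹ = _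
    rw [show σ * (swap p₀ i * swap p₀ p₁) * σ⁻¹ = (σ * swap p₀ i * σ⁻¹) * (σ * swap p₀ p₁ * σ⁻¹) by group]
    simp only [← Equiv.swap_apply_apply]
    have e0 : σ p₀ = a := by simp [σ, f]
    have e1 : σ p₁ = b := by simp [σ, f, h01.symm]
    have e2 : σ i = c ⟨i, hi, hi'⟩ := by simp [σ, f, hi, hi']
    rw [e0, e1, e2]
  obtain ⟨g', hg', hgg⟩ := hle g.2
  have : g' = g := Subtype.ext hgg
  subst this
  exact hg'

end Cfsg.Lib.PermGroup.AltAut
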