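import Mathlib

/-!
# The largest abelian subgroups of the symmetric group
-/

set_option autoImplicit false

namespace Cfsg.Lib.MaxAbelian

/-- `g n` -/
def bound (n : ℕ) : ℕ :=
  if n ≤ 1 then 1 else if n % 3 = 0 then 3 ^ (n / 3) else if n % 3 = 1 then 4 * 3 ^ (n / 3 - 1)
  else 2 * 3 ^ (n / 3)

theorem bound_add_three {n : ℕ} (hn : 2 ≤ n) : bound (n + 3) = 3 * bound n := by
  have h1 : (n + 3) % 3 = n % 3 := Nat.add_mod_right n 3
  have h2 : (n + 3) / 3 = n / 3 + 1 := Nat.add_div_right n (by norm_num)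
  simp only [bound, h1, h2, show ¬ n + 3 ≤ 1 by omega, show ¬ n ≤ 1 by omega, if_false]
  split_ifs with a b
  · rw [pow_succ]; ring
  · obtain ⟨j, hj⟩ : ∃ j, n / 3 = j + 1 := ⟨n / 3 - 1, by omega⟩
    rw [hj, show j + 1 + 1 - 1 = j + 1 by omega, show j + 1 - 1 = j by omega, pow_succ]; ring
  · rw [pow_succ]; ring

theorem small : ∀ n : ℕ, ∀ m : ℕ, 1 ≤ m → m ≤ 4 → m * bound n ≤ bound (n + m) := by
  intro n
  induction n using Nat.strong_induction_on with
  | _ n ih =>
    intro m h1 h4
    rcases Nat.lt_or_ge n 5 with h | h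
    · interval_cases n <;> interval_cases m <;> decide
    · obtain ⟨j, rfl⟩ : ∃ j, n = j + 3 := ⟨n - 3, by omega⟩
      rw [bound_add_three (by omega), show j + 3 + m = j + m + 3 by omega, bound_add_three (by omega)]
      have := ih j (by omega) m h1 h4
      calc m * (3 * bound j) = 3 * (m * bound j) := by ring
        _ ≤ 3 * bound (j + m) := by omega

theorem mul_le : ∀ m : ℕ, 1 ≤ m → ∀ n : ℕ, m * bound n ≤ bound (n + m) := by
  intro m
  induction m using Nat.strong_induction_on with
  | _ m ih =>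
    intro h1 n
    rcases Nat.lt_or_ge m 5 with h | h
    · exact small n m h1 (by omega)
    · obtain ⟨j, rfl⟩ : ∃ j, m = j + 3 := ⟨m - 3, by omega⟩
      rw [show n + (j + 3) = n + j + 3 by omega, bound_add_three (by omega)]
      have := ih j (by omega) (by omega) n
      calc (j + 3) * bound n ≤ (3 * j) * bound n := Nat.mul_le_mul_right _ (by omega)
        _ = 3 * (j * bound n) := by ring
        _ ≤ _ := by omega

theorem card_le (α : Type*) [Fintype α] (A : Subgroup (Equiv.Perm α)) (hA : IsMulCommutative A) :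
    Nat.card A ≤ bound (Fintype.card α) := by
  classical
  induction hn : Fintype.card α using Nat.strong_induction_on generalizing α with
  | _ n ih =>
    rcases Nat.eq_zero_or_pos n with h0 | hpos
    · haveI : IsEmpty α := Fintype.card_eq_zero_iff.mp (hn.trans h0)
      haveI : Subsingleton (Equiv.Perm α) := ⟨fun a b => Equiv.ext fun x => (IsEmpty.false x).elim⟩
      have : Nat.card A ≤ 1 := Finite.card_le_one_iff_subsingleton.mpr inferInstance
      have hb : 1 ≤ bound n := by subst h0; decide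
      omega
    obtain ⟨a⟩ := Fintype.card_pos_iff.mp (hn ▸ hpos)
    set O : Set α := MulAction.orbit A a with hO
    set S : Subgroup A := MulAction.stabilizer A a with hS
    have hfix : ∀ s ∈ S, ∀ x : α, x ∈ O → (s : Equiv.Perm α) x = x := by
      intro s hs x hx
      obtain ⟨t, rfl⟩ := hx
      have hst : s * t = t * s := hA.is_comm.comm s t
      calc (s : Equiv.Perm α) (t • a) = ((s * t : A) : Equiv.Perm α) a := rfl
        _ = ((t * s : A) : Equiv.Perm α) a := by rw [hst]
        _ = (t : Equiv.Perm α) ((s : Equiv.Perm α) a) := rfl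
        _ = t • a := by rw [show (s : Equiv.Perm α) a = a from hs]; rfl
    have hinv : ∀ (s : A) (x : α), x ∉ O ↔ (s : Equiv.Perm α) x ∉ O := by
      intro s x
      rw [not_iff_not]
      constructor
      · rintro ⟨t, rfl⟩
        exact ⟨s * t, mul_smul s t a⟩
      · rintro ⟨t, ht⟩
        refine ⟨s⁻¹ * t, ?_⟩
        show (s⁻¹ * t) • a = x
        rw [mul_smul, show t • a = s • x from ht, inv_smul_smul]
    let ρ : S →* Equiv.Perm {x : α // x ∉ O} :=
      { toFun := fun s => ((s : A) : Equiv.Perm α).subtypePerm fun x => (hinv (s : A) x).symm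
        map_one' := by ext; rfl
        map_mul' := fun s t => by ext; rfl }
    have hinj : Function.Injective ρ := by
      intro s t hst
      apply Subtype.ext; apply Subtype.ext
      ext x
      by_cases hx : x ∈ O
      · rw [hfix s s.2 x hx, hfix t t.2 x hx]
      · exact congrArg Subtype.val (Equiv.ext_iff.mp hst ⟨x, hx⟩)
    have hcomm : IsMulCommutative ρ.range := ⟨⟨by
      rintro ⟨_, s, rfl⟩ ⟨_, t, rfl⟩
      apply Subtype.ext
      show ρ s * ρ t = ρ t * ρ s
      rw [← map_mul, ← map_mul]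
      exact congrArg ρ (Subtype.ext (hA.is_comm.comm (s : A) (t : A)))⟩⟩
    have hpos' : 1 ≤ Nat.card O := Nat.card_pos_iff.mpr ⟨⟨⟨a, MulAction.mem_orbit_self a⟩⟩, inferInstance⟩
    have hc : Fintype.card {x : α // x ∉ O} + Nat.card O = n := by
      rw [← hn, Nat.card_eq_fintype_card, Fintype.card_subtype_compl]
      have := Fintype.card_subtype_le (fun x => x ∈ O)
      have e : Fintype.card O = Fintype.card {x : α // x ∈ O} := rfl
      omega
    have h1 := ih _ (by omega) {x : α // x ∉ O} ρ.range hcomm rfl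
    rw [← Nat.card_congr (MonoidHom.ofInjective hinj).toEquiv] at h1
    have h2 : Nat.card A = Nat.card O * Nat.card S := by
      rw [← S.index_mul_card, hS, MulAction.index_stabilizer, hO, Nat.card_coe_set_eq]
    rw [h2, ← hc]
    exact (Nat.mul_le_mul_left _ h1).trans (mul_le _ hpos' _)

/-- realisable pairs -/
def Real' (n c : ℕ) : Prop :=
  ∃ A : Subgroup (Equiv.Perm (Fin n)), IsMulCommutative A ∧ Nat.card A = c

theorem real_one {n : ℕ} : Real' n 1 :=
  ⟨⊥, ⟨⟨fun a b => Subsingleton.elim _ _⟩⟩, Subgroup.card_bot⟩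

theorem real_of_hom {n : ℕ} {B : Type*} [CommGroup B] (ρ : B →* Equiv.Perm (Fin n))
    (hρ : Function.Injective ρ) : Real' n (Nat.card B) :=
  ⟨ρ.range, ⟨⟨by
    rintro ⟨_, s, rfl⟩ ⟨_, t, rfl⟩
    apply Subtype.ext
    show ρ s * ρ t = ρ t * ρ s
    rw [← map_mul, ← map_mul, mul_comm]⟩⟩, (Nat.card_congr (MonoidHom.ofInjective hρ).toEquiv).symm⟩

theorem real_self {m : ℕ} [NeZero m] : Real' m m := by
  let e : Multiplicative (ZMod m) ≃ Fin m := Multiplicative.toAdd.trans (ZMod.finEquiv m).toEquiv.symm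
  have h := real_of_hom ((e.permCongrHom).toMonoidHom.comp
    (MulAction.toPermHom (Multiplicative (ZMod m)) (Multiplicative (ZMod m))))
    (e.permCongrHom.injective.comp MulAction.toPerm_injective)
  simpa using h

theorem real_add {n m a b : ℕ} (ha : Real' n a) (hb : Real' m b) : Real' (n + m) (a * b) := by
  obtain ⟨A, hA, rfl⟩ := ha
  obtain ⟨B, hB, rfl⟩ := hb
  rw [← Nat.card_prod]
  open scoped IsMulCommutative in
  exact real_of_hom (B := A × B)
    ((finSumFinEquiv.permCongrHom).toMonoidHom.comp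
      ((Equiv.Perm.sumCongrHom (Fin n) (Fin m)).comp (A.subtype.prodMap B.subtype)))
    (finSumFinEquiv.permCongrHom.injective.comp
      (Equiv.Perm.sumCongrHom_injective.comp (A.subtype_injective.prodMap B.subtype_injective)))

theorem real_pow (k : ℕ) : Real' (3 * k) (3 ^ k) := by
  induction k with
  | zero => exact real_one
  | succ k ih =>
    have h := real_add ih (real_self (m := 3))
    rwa [pow_succ, Nat.mul_succ]

theorem main (k : ℕ) (hk : 1 ≤ k) :
    IsGreatest {c : ℕ | Real' (3 * k) c} (3 ^ k) ∧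
    IsGreatest {c : ℕ | Real' (3 * k + 1) c} (4 * 3 ^ (k - 1)) ∧
    IsGreatest {c : ℕ | Real' (3 * k + 2) c} (2 * 3 ^ k) := by
  obtain ⟨j, rfl⟩ : ∃ j, k = j + 1 := ⟨k - 1, by omega⟩
  have up : ∀ n c, Real' n c → c ≤ bound n := by
    rintro n c ⟨A, hA, rfl⟩
    simpa using card_le (Fin n) A hA
  refine ⟨⟨real_pow _, fun c hc => (up _ c hc).trans_eq ?_⟩,
    ⟨?_, fun c hc => (up _ c hc).trans_eq ?_⟩, ⟨?_, fun c hc => (up _ c hc).trans_eq ?_⟩⟩
  · simp [bound, show ¬ 3 * (j + 1) ≤ 1 by omega, show 3 * (j + 1) / 3 = j + 1 by omega]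
  · have h := real_add (real_pow j) (real_self (m := 4))
    rw [show 3 * (j + 1) + 1 = 3 * j + 4 by omega, show j + 1 - 1 = j by omega, mul_comm 4]
    exact h
  · simp [bound, show (3 * (j + 1) + 1) % 3 = 1 by omega,
      show (3 * (j + 1) + 1) / 3 = j + 1 by omega]
  · have h := real_add (real_pow (j + 1)) (real_self (m := 2))
    rw [mul_comm 2]
    exact h
  · simp [bound, show (3 * (j + 1) + 2) % 3 = 2 by omega,
      show (3 * (j + 1) + 2) / 3 = j + 1 by omega]

end Cfsg.Lib.MaxAbelian
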