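import Mathlib
import Cfsg.Agent.Lib.PermGroup.MaxAbelian

/-!
# The largest abelian subgroups of the alternating group
-/

set_option autoImplicit false

namespace Cfsg.Lib.MaxAbelian

open Equiv

/-- `B n` -/
def boundA (n : ℕ) : ℕ :=
  if n = 2 then 1 else if n = 5 then 5 else if n % 3 = 2 then 16 * 3 ^ (n / 3 - 2) else bound n

theorem boundA_add_three {n : ℕ} (hn : 6 ≤ n) : boundA (n + 3) = 3 * boundA n := by
  have h1 : (n + 3) % 3 = n % 3 := Nat.add_mod_right n 3
  have h2 : (n + 3) / 3 = n / 3 + 1 := Nat.add_div_right n (by norm_num)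
  simp only [boundA, h1, h2, bound_add_three (show 2 ≤ n by omega),
    show ¬ n + 3 = 2 by omega, show ¬ n + 3 = 5 by omega, show ¬ n = 2 by omega, show ¬ n = 5 by omega,
    if_false]
  split_ifs with a
  · obtain ⟨j, hj⟩ : ∃ j, n / 3 = j + 2 := ⟨n / 3 - 2, by omega⟩
    rw [hj, show j + 2 + 1 - 2 = j + 1 by omega, show j + 2 - 2 = j by omega, pow_succ]
    ring
  · rfl

theorem smallA : ∀ n : ℕ, ∀ m : ℕ, 1 ≤ m → m ≤ 5 → m ≠ 2 → m * boundA n ≤ boundA (n + m) := by
  intro n
  induction n using Nat.strong_induction_on with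
  | _ n ih =>
    intro m h1 h5 h2
    rcases Nat.lt_or_ge n 9 with h | h
    · interval_cases n <;> interval_cases m <;> first | exact absurd rfl h2 | decide
    · obtain ⟨j, rfl⟩ : ∃ j, n = j + 3 := ⟨n - 3, by omega⟩
      rw [boundA_add_three (by omega), show j + 3 + m = j + m + 3 by omega, boundA_add_three (by omega)]
      have := ih j (by omega) m h1 h5 h2
      calc m * (3 * boundA j) = 3 * (m * boundA j) := by ring
        _ ≤ 3 * boundA (j + m) := by omega

theorem mul_leA : ∀ m : ℕ, 1 ≤ m → m ≠ 2 → ∀ n : ℕ, m * boundA n ≤ boundA (n + m) := by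
  intro m
  induction m using Nat.strong_induction_on with
  | _ m ih =>
    intro h1 h2 n
    rcases Nat.lt_or_ge m 6 with h | h
    · exact smallA n m h1 (by omega) h2
    · obtain ⟨j, rfl⟩ : ∃ j, m = j + 3 := ⟨m - 3, by omega⟩
      have := ih j (by omega) (by omega) (by omega) n
      calc (j + 3) * boundA n ≤ (3 * j) * boundA n := Nat.mul_le_mul_right _ (by omega)
        _ = 3 * (j * boundA n) := by ring
        _ ≤ 3 * boundA (n + j) := by omega
        _ ≤ boundA (n + j + 3) := smallA (n + j) 3 (by omega) (by omega) (by omega)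
        _ = boundA (n + (j + 3)) := by rw [add_assoc]

theorem bound_le_boundA : ∀ n : ℕ, bound n ≤ boundA (n + 2) := by
  intro n
  induction n using Nat.strong_induction_on with
  | _ n ih =>
    rcases Nat.lt_or_ge n 7 with h | h
    · interval_cases n <;> decide
    · obtain ⟨j, rfl⟩ : ∃ j, n = j + 3 := ⟨n - 3, by omega⟩
      rw [bound_add_three (by omega), show j + 3 + 2 = j + 2 + 3 by omega, boundA_add_three (by omega)]
      have := ih j (by omega)
      omega

theorem card_le_even (α : Type*) [Fintype α] [DecidableEq α] (A : Subgroup (Equiv.Perm α))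
    (hA : IsMulCommutative A) (he : ∀ g ∈ A, Perm.sign g = 1) :
    Nat.card A ≤ boundA (Fintype.card α) := by
  classical
  induction hn : Fintype.card α using Nat.strong_induction_on generalizing α with
  | _ n ih =>
    rcases Nat.eq_zero_or_pos n with h0 | hpos
    · haveI : IsEmpty α := Fintype.card_eq_zero_iff.mp (hn.trans h0)
      haveI : Subsingleton (Equiv.Perm α) := ⟨fun a b => Equiv.ext fun x => (IsEmpty.false x).elim⟩
      have : Nat.card A ≤ 1 := Finite.card_le_one_iff_subsingleton.mpr inferInstance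
      have hb : 1 ≤ boundA n := by subst h0; decide
      omega
    obtain ⟨a⟩ := Fintype.card_pos_iff.mp (hn ▸ hpos)
    set O : Set α := MulAction.orbit A a with hO
    set S : Subgroup A := MulAction.stabilizer A a with hS
    have hfix : ∀ s ∈ S, ∀ x : α, x ∈ O → (s : Equiv.Perm α) x = x := by
      intro s hs x hx
      obtain ⟨t, rfl⟩ := hx
      have hst : s * t = t * s := hA.is_comm.comm s t
      calc (s : Equiv.Perm α) (t • a) = ((s * t : A) : Equiv.Perm α) a := rfl
        _ = ((t * s : A) : Equiv.Perm α) a := by rw [hst]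
        _ = (t : Equiv.Perm α) ((s : Equiv.Perm α) a) := rfl
        _ = t • a := by rw [show (s : Equiv.Perm α) a = a from hs]; rfl
    have hinv : ∀ (s : A) (x : α), x ∉ O ↔ (s : Equiv.Perm α) x ∉ O := by
      intro s x
      rw [not_iff_not]
      constructor
      · rintro ⟨t, rfl⟩
        exact ⟨s * t, mul_smul s t a⟩
      · rintro ⟨t, ht⟩
        refine ⟨s⁻¹ * t, ?_⟩
        show (s⁻¹ * t) • a = x
        rw [mul_smul, show t • a = s • x from ht, inv_smul_smul]
    let σ : A →* Equiv.Perm {x : α // x ∉ O} :=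
      { toFun := fun s => (s : Equiv.Perm α).subtypePerm fun x => (hinv s x).symm
        map_one' := by ext; rfl
        map_mul' := fun s t => by ext; rfl }
    have hc : Fintype.card {x : α // x ∉ O} + Nat.card O = n := by
      rw [← hn, Nat.card_eq_fintype_card, Fintype.card_subtype_compl]
      have := Fintype.card_subtype_le (fun x => x ∈ O)
      have e : Fintype.card O = Fintype.card {x : α // x ∈ O} := rfl
      omega
    have hpos' : 1 ≤ Nat.card O := Nat.card_pos_iff.mpr ⟨⟨⟨a, MulAction.mem_orbit_self a⟩⟩, inferInstance⟩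
    have hab : ∀ (H : Subgroup A), IsMulCommutative (H.map σ) := fun H => ⟨⟨by
      rintro ⟨_, s, _, rfl⟩ ⟨_, t, _, rfl⟩
      apply Subtype.ext
      show σ s * σ t = σ t * σ s
      rw [← map_mul, ← map_mul, hA.is_comm.comm s t]⟩⟩
    by_cases h2 : Nat.card O = 2
    · have hinj : Function.Injective σ := by
        rw [← MonoidHom.ker_eq_bot_iff, Subgroup.eq_bot_iff_forall]
        intro s hs
        apply Subtype.ext
        have hout : ∀ x, x ∉ O → (s : Equiv.Perm α) x = x := fun x hx =>
          congrArg Subtype.val (Equiv.ext_iff.mp hs ⟨x, hx⟩)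
        have hsupp : (s : Equiv.Perm α).support.card ≤ 2 := by
          rw [← h2, Nat.card_coe_set_eq, Set.ncard_eq_toFinset_card' O]
          exact Finset.card_le_card fun x hx =>
            Set.mem_toFinset.mpr (by_contra fun h => (Perm.mem_support.mp hx) (hout x h))
        rcases (Nat.lt_or_eq_of_le hsupp) with h | h
        · exact Perm.card_support_le_one.mp (by omega)
        · have h1 := (Perm.card_support_eq_two.mp h).sign_eq
          rw [he _ s.2] at h1
          exact absurd h1 (by decide)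
      have h1 := card_le {x : α // x ∉ O} ((⊤ : Subgroup A).map σ) (hab ⊤)
      rw [← Nat.card_congr ((⊤ : Subgroup A).equivMapOfInjective σ hinj).toEquiv, Subgroup.card_top] at h1
      rw [← hc, h2]
      exact h1.trans (bound_le_boundA _)
    · have hinj : Function.Injective (σ.comp S.subtype) := by
        intro s t hst
        apply Subtype.ext; apply Subtype.ext
        ext x
        by_cases hx : x ∈ O
        · rw [hfix s s.2 x hx, hfix t t.2 x hx]
        · exact congrArg Subtype.val (Equiv.ext_iff.mp hst ⟨x, hx⟩)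
      have heven : ∀ g ∈ S.map σ, Perm.sign g = 1 := by
        rintro _ ⟨s, hs, rfl⟩
        show Perm.sign ((s : Equiv.Perm α).subtypePerm fun x => (hinv s x).symm) = 1
        refine Eq.trans ?_ ((Perm.sign_subtypePerm (s : Equiv.Perm α) (fun x => (hinv s x).symm) (fun x hx h => hx (hfix s hs x h))).trans (he _ s.2))
        congr!
      have h1 := ih _ (by omega) {x : α // x ∉ O} (S.map σ) (hab S) heven rfl
      have hcard : Nat.card (S.map σ) = Nat.card S := by
        have e : S.map σ = (σ.comp S.subtype).range := by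
          ext y; simp [Subgroup.mem_map]
        rw [e, ← Nat.card_congr (MonoidHom.ofInjective hinj).toEquiv]
      rw [hcard] at h1
      have h3 : Nat.card A = Nat.card O * Nat.card S := by
        rw [← S.index_mul_card, hS, MulAction.index_stabilizer, hO, Nat.card_coe_set_eq]
      rw [h3, ← hc]
      exact (Nat.mul_le_mul_left _ h1).trans (mul_leA _ hpos' h2 _)

/-- realisable pairs inside the alternating group -/
def RealA (n c : ℕ) : Prop :=
  ∃ A : Subgroup (Equiv.Perm (Fin n)), IsMulCommutative A ∧ (∀ g ∈ A, Perm.sign g = 1) ∧ Nat.card A = c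

theorem realA_of_hom {n : ℕ} {B : Type*} [CommGroup B] (ρ : B →* Equiv.Perm (Fin n))
    (hρ : Function.Injective ρ) (he : ∀ b, Perm.sign (ρ b) = 1) : RealA n (Nat.card B) :=
  ⟨ρ.range, ⟨⟨by
    rintro ⟨_, s, rfl⟩ ⟨_, t, rfl⟩
    apply Subtype.ext
    show ρ s * ρ t = ρ t * ρ s
    rw [← map_mul, ← map_mul, mul_comm]⟩⟩, by rintro _ ⟨s, rfl⟩; exact he s,
    (Nat.card_congr (MonoidHom.ofInjective hρ).toEquiv).symm⟩

theorem realA_three : RealA 3 3 := by
  let e : Multiplicative (ZMod 3) ≃ Fin 3 := Multiplicative.toAdd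
  have h := realA_of_hom ((e.permCongrHom).toMonoidHom.comp
    (MulAction.toPermHom (Multiplicative (ZMod 3)) (Multiplicative (ZMod 3))))
    (e.permCongrHom.injective.comp MulAction.toPerm_injective) (by decide)
  simpa using h

theorem realA_four : RealA 4 4 := by
  let e : Multiplicative (ZMod 2) × Multiplicative (ZMod 2) ≃ Fin 4 :=
    (Equiv.prodCongr Multiplicative.toAdd Multiplicative.toAdd).trans finProdFinEquiv
  have h := realA_of_hom ((e.permCongrHom).toMonoidHom.comp
    (MulAction.toPermHom (Multiplicative (ZMod 2) × Multiplicative (ZMod 2)) (Multiplicative (ZMod 2) × Multiplicative (ZMod 2))))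
    (e.permCongrHom.injective.comp MulAction.toPerm_injective) (by decide)
  simpa using h

theorem realA_add {n m a b : ℕ} (ha : RealA n a) (hb : RealA m b) : RealA (n + m) (a * b) := by
  obtain ⟨A, hA, heA, rfl⟩ := ha
  obtain ⟨B, hB, heB, rfl⟩ := hb
  rw [← Nat.card_prod]
  open scoped IsMulCommutative in
  exact realA_of_hom (B := A × B)
    ((finSumFinEquiv.permCongrHom).toMonoidHom.comp
      ((Equiv.Perm.sumCongrHom (Fin n) (Fin m)).comp (A.subtype.prodMap B.subtype)))
    (finSumFinEquiv.permCongrHom.injective.comp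
      (Equiv.Perm.sumCongrHom_injective.comp (A.subtype_injective.prodMap B.subtype_injective)))
    (fun x => by
      show Perm.sign (finSumFinEquiv.permCongr (Equiv.Perm.sumCongr (x.1 : Perm (Fin n)) (x.2 : Perm (Fin m)))) = 1
      rw [Perm.sign_permCongr, Perm.sign_sumCongr, heA _ x.1.2, heB _ x.2.2, one_mul])

theorem realA_pow (k : ℕ) : RealA (3 * k) (3 ^ k) := by
  induction k with
  | zero => exact ⟨⊥, ⟨⟨fun a b => Subsingleton.elim _ _⟩⟩, by simp, Subgroup.card_bot⟩
  | succ k ih =>
    have h := realA_add ih realA_three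
    rwa [pow_succ, Nat.mul_succ]

theorem mem_set_iff {n c : ℕ} :
    c ∈ {c : ℕ | ∃ A : Subgroup (alternatingGroup (Fin n)), IsMulCommutative A ∧ Nat.card A = c} ↔ RealA n c := by
  constructor
  · rintro ⟨A, hA, rfl⟩
    refine ⟨A.map (alternatingGroup (Fin n)).subtype, inferInstance, ?_,
      (Nat.card_congr (A.equivMapOfInjective _ (Subgroup.subtype_injective _)).toEquiv).symm⟩
    rintro _ ⟨g, -, rfl⟩
    exact g.2
  · rintro ⟨A, hA, he, rfl⟩
    refine ⟨A.subgroupOf (alternatingGroup (Fin n)), inferInstance, ?_⟩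
    exact Nat.card_congr (Subgroup.subgroupOfEquivOfLe (fun g hg => Perm.mem_alternatingGroup.mpr (he g hg))).toEquiv

theorem mainA (k : ℕ) (hk : 2 ≤ k) :
    IsGreatest {c : ℕ | ∃ A : Subgroup (alternatingGroup (Fin (3 * k))), IsMulCommutative A ∧ Nat.card A = c} (3 ^ k) ∧
    IsGreatest {c : ℕ | ∃ A : Subgroup (alternatingGroup (Fin (3 * k + 1))), IsMulCommutative A ∧ Nat.card A = c}
      (4 * 3 ^ (k - 1)) ∧
    IsGreatest {c : ℕ | ∃ A : Subgroup (alternatingGroup (Fin (3 * k + 2))), IsMulCommutative A ∧ Nat.card A = c}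
      (16 * 3 ^ (k - 2)) := by
  obtain ⟨j, rfl⟩ : ∃ j, k = j + 2 := ⟨k - 2, by omega⟩
  have up : ∀ n c, RealA n c → c ≤ boundA n := by
    rintro n c ⟨A, hA, he, rfl⟩
    simpa using card_le_even (Fin n) A hA he
  refine ⟨⟨mem_set_iff.mpr (realA_pow _), fun c hc => (up _ c (mem_set_iff.mp hc)).trans_eq ?_⟩,
    ⟨mem_set_iff.mpr ?_, fun c hc => (up _ c (mem_set_iff.mp hc)).trans_eq ?_⟩,
    ⟨mem_set_iff.mpr ?_, fun c hc => (up _ c (mem_set_iff.mp hc)).trans_eq ?_⟩⟩
  · simp [boundA, bound, show 3 * (j + 2) ≠ 2 by omega, show 3 * (j + 2) ≠ 5 by omega,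
      show ¬ 3 * (j + 2) ≤ 1 by omega, show 3 * (j + 2) / 3 = j + 2 by omega]
  · have h := realA_add (realA_pow (j + 1)) realA_four
    rw [show 3 * (j + 2) + 1 = 3 * (j + 1) + 4 by omega, show j + 2 - 1 = j + 1 by omega, mul_comm 4]
    exact h
  · simp [boundA, bound, show 3 * (j + 2) + 1 ≠ 2 by omega, show 3 * (j + 2) + 1 ≠ 5 by omega,
      show (3 * (j + 2) + 1) % 3 = 1 by omega, show (3 * (j + 2) + 1) / 3 = j + 2 by omega]
  · have h := realA_add (realA_pow j) (realA_add realA_four realA_four)
    rw [show 3 * (j + 2) + 2 = 3 * j + (4 + 4) by omega, show j + 2 - 2 = j by omega, mul_comm 16]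
    exact h
  · simp [boundA, show 3 * (j + 2) + 2 ≠ 2 by omega, show 3 * (j + 2) + 2 ≠ 5 by omega,
      show (3 * (j + 2) + 2) % 3 = 2 by omega, show (3 * (j + 2) + 2) / 3 = j + 2 by omega]

end Cfsg.Lib.MaxAbelian
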