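import Mathlib

/-! A minimal normal subgroup of a finite group is a power of a simple group. -/

namespace Cfsg.Agent.MinNormalPower

universe u

variable {H : Type u} [Group H] [Finite H]

theorem exists_power (N : Subgroup H) [N.Normal] (hN : N ≠ ⊥)
    (hmin : ∀ M : Subgroup H, M.Normal → M ≤ N → M = ⊥ ∨ M = N) :
    ∃ (T : Type) (_ : Group T) (m : ℕ), IsSimpleGroup T ∧ 0 < m ∧ Nonempty (N ≃* (Fin m → T)) := by
  classical
  haveI := Fintype.ofFinite H
  have : Nontrivial N := (Subgroup.nontrivial_iff_ne_bot N).mpr hN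
  -- a minimal normal subgroup of `N`
  obtain ⟨M, ⟨hMn, hMne⟩, hMmin⟩ :=
    (wellFounded_lt (α := Subgroup N)).has_min {M | M.Normal ∧ M ≠ ⊥}
      ⟨⊤, inferInstance, top_ne_bot⟩
  have hMle : ∀ K : Subgroup N, K.Normal → K ≤ M → K = ⊥ ∨ K = M := fun K hK hle => by
    by_contra hc
    push Not at hc
    exact hMmin K ⟨hK, hc.1⟩ (lt_of_le_of_ne hle hc.2)
  let σ : H → (N ≃* N) := fun h => MulAut.conjNormal h
  let c : H → Subgroup N := fun h => M.map (σ h).toMonoidHom
  have hcn : ∀ h, (c h).Normal := fun h => hMn.map _ (MulEquiv.surjective _)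
  have hcmin : ∀ h, ∀ K : Subgroup N, K.Normal → K ≤ c h → K = ⊥ ∨ K = c h := by
    intro h K hK hle
    have hsur := MulEquiv.surjective (σ h)
    have hinj := MulEquiv.injective (σ h)
    rcases hMle (K.comap (σ h).toMonoidHom) (hK.comap _)
      (by
        intro x hx
        obtain ⟨y, hy, hyx⟩ := hle hx
        exact hinj hyx ▸ hy) with e | e
    · left
      rw [← Subgroup.map_comap_eq_self_of_surjective (f := (σ h).toMonoidHom) hsur K, e, Subgroup.map_bot]
    · right
      rw [← Subgroup.map_comap_eq_self_of_surjective (f := (σ h).toMonoidHom) hsur K, e]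
  -- the conjugates generate
  have htop : Finset.univ.sup c = ⊤ := by
    set S := Finset.univ.sup c with hS
    have hS' : ∀ h : H, (S.map (σ h).toMonoidHom) ≤ S := by
      intro h
      rw [hS, Finset.sup_eq_iSup, Subgroup.map_iSup]
      refine iSup_le fun g => ?_
      rw [Subgroup.map_iSup]
      refine iSup_le fun _ => ?_
      refine le_iSup₂_of_le (h * g) (Finset.mem_univ _) ?_
      show (M.map _).map _ ≤ M.map _
      rw [Subgroup.map_map]
      refine le_of_eq (congrArg (fun f => M.map f) ?_)
      ext x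
      simp [σ, map_mul]
    have hSH : (S.map N.subtype).Normal := by
      refine ⟨fun x hx g => ?_⟩
      obtain ⟨y, hy, rfl⟩ := hx
      exact ⟨σ g y, hS' g (Subgroup.mem_map_of_mem _ hy), MulAut.conjNormal_apply g y⟩
    rcases hmin _ hSH (Subgroup.map_subtype_le S) with e | e
    · exfalso
      rw [Subgroup.map_eq_bot_iff_of_injective _ N.subtype_injective] at e
      have h1 : c 1 ≤ S := Finset.le_sup (Finset.mem_univ _)
      rw [e, le_bot_iff, Subgroup.map_eq_bot_iff_of_injective _ (MulEquiv.injective _)] at h1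
      exact hMne h1
    · apply Subgroup.map_injective N.subtype_injective
      rw [e, ← MonoidHom.range_eq_map, Subgroup.range_subtype]
  -- a minimal generating family of conjugates
  obtain ⟨t, ht, htmin⟩ := (Finset.univ.filter fun t : Finset H => t.sup c = ⊤).exists_min_image
    Finset.card ⟨Finset.univ, by simp [htop]⟩
  simp only [Finset.mem_filter, Finset.mem_univ, true_and] at ht htmin
  let F : t → Subgroup N := fun i => c i
  have hFn : ∀ i, (F i).Normal := fun i => hcn i
  have hindep : iSupIndep F := by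
    intro i
    rw [disjoint_iff]
    haveI := hFn i
    have hKn : (⨆ (j : t) (_ : j ≠ i), F j).Normal := by
      haveI := fun j : t => hFn j
      infer_instance
    haveI := hKn
    rcases hcmin i (F i ⊓ ⨆ (j : t) (_ : j ≠ i), F j) inferInstance inf_le_left with e | e
    · exact e
    · exfalso
      have hle : c i ≤ ⨆ (j : t) (_ : j ≠ i), F j := e ▸ inf_le_right
      have := htmin (t.erase i) (by
        rw [eq_top_iff, ← ht, Finset.sup_le_iff]
        intro h hh
        by_cases he : h = (i : H)
        · subst he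
          refine hle.trans (iSup₂_le fun j hj => ?_)
          exact Finset.le_sup (f := c)
            (Finset.mem_erase.mpr ⟨fun e' => hj (Subtype.ext e'), j.2⟩)
        · exact Finset.le_sup (f := c) (Finset.mem_erase.mpr ⟨he, hh⟩))
      rw [Finset.card_erase_of_mem i.2] at this
      have := Finset.card_pos.mpr ⟨_, i.2⟩
      omega
  have hcomm : Pairwise fun i j : t => ∀ x y : N, x ∈ F i → y ∈ F j → Commute x y :=
    fun i j hij x y hx hy => Subgroup.commute_of_normal_of_disjoint _ _ (hFn i) (hFn j)
      (hindep.pairwiseDisjoint hij) x y hx hy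
  let Φ : (∀ i : t, F i) →* N := Subgroup.noncommPiCoprod hcomm
  have hΦ : Function.Bijective Φ := by
    refine ⟨Subgroup.injective_noncommPiCoprod_of_iSupIndep hindep, ?_⟩
    rw [← MonoidHom.range_eq_top, Subgroup.noncommPiCoprod_range, eq_top_iff, ← ht,
      Finset.sup_le_iff]
    exact fun h hh => le_iSup F ⟨h, hh⟩
  -- `M` is simple
  have hcomm' : ∀ i : t, ∀ g : N, ∃ m ∈ F i, ∀ x ∈ F i, g * x * g⁻¹ = m * x * m⁻¹ := by
    intro i g
    obtain ⟨f, rfl⟩ := hΦ.2 g
    refine ⟨f i, (f i).2, fun x hx => ?_⟩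
    have hx' : x = Φ (Pi.mulSingle i ⟨x, hx⟩) := by
      simp [Φ, Subgroup.noncommPiCoprod_mulSingle]
    have hfi : (f i : N) = Φ (Pi.mulSingle i (f i)) := by
      simp [Φ, Subgroup.noncommPiCoprod_mulSingle]
    rw [hx', hfi, ← map_inv, ← map_inv, ← map_mul, ← map_mul, ← map_mul, ← map_mul]
    congr 1
    funext j
    by_cases hj : j = i
    · subst hj
      simp
    · simp [hj]
  obtain ⟨i0⟩ : Nonempty t := by
    rw [Finset.nonempty_coe_sort, Finset.nonempty_iff_ne_empty]
    rintro rfl
    exact top_ne_bot (α := Subgroup N) (by rw [← ht, Finset.sup_empty])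
  have hsimple : IsSimpleGroup (F i0) := by
    haveI : Nontrivial (F i0) := (Subgroup.nontrivial_iff_ne_bot _).mpr fun e =>
      hMne ((Subgroup.map_eq_bot_iff_of_injective _ (MulEquiv.injective _)).mp e)
    refine ⟨fun K hK => ?_⟩
    have : (K.map (F i0).subtype).Normal := by
      refine ⟨fun x hx g => ?_⟩
      obtain ⟨k, hk, rfl⟩ := hx
      obtain ⟨m, hm, hmc⟩ := hcomm' i0 g
      rw [Subgroup.coe_subtype, hmc _ k.2]
      exact ⟨⟨m, hm⟩ * k * ⟨m, hm⟩⁻¹, hK.conj_mem k hk _, rfl⟩
    rcases hcmin i0 _ this (Subgroup.map_subtype_le K) with e | e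
    · exact Or.inl ((Subgroup.map_eq_bot_iff_of_injective _ (F i0).subtype_injective).mp e)
    · right
      apply Subgroup.map_injective (F i0).subtype_injective
      rw [e, ← MonoidHom.range_eq_map, Subgroup.range_subtype]
  -- all factors are isomorphic to the first
  let e1 : ∀ i : t, F i ≃* F i0 := fun i =>
    (M.equivMapOfInjective _ (MulEquiv.injective _)).symm.trans
      (M.equivMapOfInjective _ (MulEquiv.injective _))
  haveI : Fintype (F i0) := Fintype.ofFinite _
  let e : F i0 ≃ {_k : Fin (Fintype.card (F i0)) // True} :=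
    (Fintype.equivFin (F i0)).trans (Equiv.subtypeUnivEquiv (fun _ => trivial)).symm
  letI : Group {_k : Fin (Fintype.card (F i0)) // True} := e.symm.group
  let e2 : F i0 ≃* {_k : Fin (Fintype.card (F i0)) // True} := (Equiv.mulEquiv e.symm).symm
  refine ⟨{_k : Fin (Fintype.card (F i0)) // True}, inferInstance, Fintype.card t,
    e2.symm.isSimpleGroup, ?_, ⟨?_⟩⟩
  · exact Fintype.card_pos_iff.mpr ⟨i0⟩
  · exact ((MulEquiv.ofBijective Φ hΦ).symm.trans
      (MulEquiv.piCongrRight fun i => (e1 i).trans e2)).trans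
      (MulEquiv.arrowCongr (Fintype.equivFin t) (MulEquiv.refl _))

end Cfsg.Agent.MinNormalPower
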