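import Mathlib
import Cfsg.Agent.Lib.Solv.MinimalNonNilpotent

/-!
Orders of nilpotent permutation groups: at most the 2-part of `n!` (times `3/2`-type correction for
`n ≡ 3 (mod 4)`).
-/

set_option autoImplicit false

namespace Cfsg.Lib.PermGroup.NilpotentBound

open Nat

/-- The 2-part of `n!`. -/
def tp (n : ℕ) : ℕ := 2 ^ padicValNat 2 n.factorial

/-- The bound. -/
def bd (n : ℕ) : ℕ := if n % 4 = 3 then 3 * tp (n - 3) else tp n

theorem tp_pos (n : ℕ) : 0 < tp n := Nat.two_pow_pos _

theorem tp_mono {a b : ℕ} (h : a ≤ b) : tp a ≤ tp b :=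
  Nat.pow_le_pow_right two_pos ((padicValNat_dvd_iff_le (p := 2) (Nat.factorial_ne_zero b)).mp
    (pow_padicValNat_dvd.trans (Nat.factorial_dvd_factorial h)))

theorem tp_mul_le (a b : ℕ) : tp a * tp b ≤ tp (a + b) := by
  rw [tp, tp, tp, ← pow_add]
  refine Nat.pow_le_pow_right two_pos ((padicValNat_dvd_iff_le (p := 2) (Nat.factorial_ne_zero _)).mp ?_)
  rw [pow_add]
  exact (mul_dvd_mul pow_padicValNat_dvd pow_padicValNat_dvd).trans (Nat.factorial_mul_factorial_dvd_factorial_add a b)

theorem tp_add_six (m : ℕ) : 16 * tp m ≤ tp (m + 6) := by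
  rw [tp, tp, show (16 : ℕ) = 2 ^ 4 by rfl, ← pow_add]
  refine Nat.pow_le_pow_right two_pos ((padicValNat_dvd_iff_le (p := 2) (Nat.factorial_ne_zero _)).mp ?_)
  rw [pow_add]
  refine (mul_dvd_mul ?_ pow_padicValNat_dvd).trans (dvd_of_eq (by
    rw [mul_comm, Nat.factorial_mul_ascFactorial]))
  exact (by decide : (2:ℕ) ^ 4 ∣ Nat.factorial 6).trans (Nat.factorial_dvd_ascFactorial _ _)

theorem tp_add_three {m : ℕ} (hm : m % 4 ≠ 0) : 4 * tp m ≤ tp (m + 3) := by
  rw [tp, tp, show (4 : ℕ) = 2 ^ 2 by rfl, ← pow_add]
  refine Nat.pow_le_pow_right two_pos ((padicValNat_dvd_iff_le (p := 2) (Nat.factorial_ne_zero _)).mp ?_)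
  rw [pow_add]
  refine (mul_dvd_mul ?_ pow_padicValNat_dvd).trans (dvd_of_eq (show (m + 1) * (m + 2) * (m + 3) * m.factorial = _ by
    simp only [Nat.factorial_succ]; ring))
  rcases (show m % 4 = 1 ∨ m % 4 = 2 ∨ m % 4 = 3 by omega) with h | h | h
  · exact dvd_mul_of_dvd_right (Nat.dvd_of_mod_eq_zero (by omega)) _
  · exact dvd_mul_of_dvd_left (dvd_mul_of_dvd_right (Nat.dvd_of_mod_eq_zero (by omega)) _) _
  · exact dvd_mul_of_dvd_left (dvd_mul_of_dvd_left (Nat.dvd_of_mod_eq_zero (by omega)) _) _

theorem one_le_bd (n : ℕ) : 1 ≤ bd n := by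
  unfold bd
  split
  · have := tp_pos (n - 3); omega
  · exact tp_pos n

theorem bd_le_three_mul (n : ℕ) : bd n ≤ 3 * tp n := by
  unfold bd
  split
  · exact Nat.mul_le_mul_left 3 (tp_mono (Nat.sub_le _ _))
  · have := tp_pos n; omega

theorem bd_mul_le (a b : ℕ) : bd a * bd b ≤ bd (a + b) := by
  have key : ∀ x y, x % 4 = 3 → y % 4 ≠ 3 → bd x * bd y ≤ bd (x + y) := by
    intro x y hx hy
    obtain ⟨k, rfl⟩ : ∃ k, x = k + 3 := ⟨x - 3, by omega⟩
    have h1 : tp k * tp y ≤ tp (k + y) := tp_mul_le k y
    rw [bd, if_pos hx, Nat.add_sub_cancel, bd, if_neg hy, bd, show k + 3 + y = k + y + 3 by ring]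
    split
    · rw [Nat.add_sub_cancel]; nlinarith
    · have := tp_add_three (m := k + y) (by omega)
      nlinarith
  by_cases ha : a % 4 = 3
  · by_cases hb : b % 4 = 3
    · obtain ⟨k, rfl⟩ : ∃ k, a = k + 3 := ⟨a - 3, by omega⟩
      obtain ⟨l, rfl⟩ : ∃ l, b = l + 3 := ⟨b - 3, by omega⟩
      rw [bd, if_pos ha, bd, if_pos hb, bd, if_neg (by omega), Nat.add_sub_cancel, Nat.add_sub_cancel,
        show k + 3 + (l + 3) = k + l + 6 by ring]
      have := tp_add_six (k + l)
      have := tp_mul_le k l
      nlinarith
    · exact key a b ha hb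
  · by_cases hb : b % 4 = 3
    · rw [mul_comm, add_comm]; exact key b a hb ha
    · rw [bd, if_neg ha, bd, if_neg hb, bd]
      have h := tp_mul_le a b
      split
      · next h3 =>
        obtain ⟨k, hk⟩ : ∃ k, a + b = k + 3 := ⟨a + b - 3, by omega⟩
        rw [hk] at h ⊢
        rw [Nat.add_sub_cancel]
        -- `tp (k + 3) = 2 * tp k` when `k ≡ 0 (mod 4)`
        refine h.trans ?_
        have e : tp (k + 3) = 2 * tp k := by
          rw [tp, tp, ← _root_.pow_succ']
          congr 1
          have h2 : padicValNat 2 (k + 2) = 1 := by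
            obtain ⟨j, hj⟩ : ∃ j, k + 2 = 2 * (2 * j + 1) := ⟨k / 4, by omega⟩
            rw [hj, padicValNat.mul (by norm_num) (by omega), padicValNat.self (by norm_num),
              padicValNat.eq_zero_of_not_dvd (by omega)]
          rw [Nat.factorial_succ, Nat.factorial_succ, Nat.factorial_succ,
            padicValNat.mul (by omega) (by positivity), padicValNat.mul (by omega) (by positivity),
            padicValNat.mul (by omega) (Nat.factorial_ne_zero _), h2,
            padicValNat.eq_zero_of_not_dvd (n := k + 2 + 1) (by omega),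
            padicValNat.eq_zero_of_not_dvd (n := k + 1) (by omega)]
          omega
        omega
      · exact h

theorem sq_le_three_pow {p : ℕ} (hp : 3 ≤ p) : p ^ 2 ≤ 3 ^ (p - 1) := by
  induction p, hp using Nat.le_induction with
  | base => norm_num
  | succ p hp ih =>
    rw [show p + 1 - 1 = (p - 1) + 1 by omega, pow_succ 3]
    nlinarith

theorem five_mul_le (j : ℕ) (hj : 5 ≤ j) : 5 * (j + 1) ≤ 2 ^ j + 4 := by
  induction j, hj using Nat.le_induction with
  | base => norm_num
  | succ j hj ih =>
    rw [pow_succ]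
    have : 2 ^ 5 ≤ 2 ^ j := Nat.pow_le_pow_right two_pos hj
    omega

/-- For an odd prime power `q ≠ 3` the `p`-part of `q!` is at most its 2-part. -/
theorem p_part_le {p a : ℕ} (hp : p.Prime) (hp2 : p ≠ 2) (ha : a ≠ 0) (h3 : p ^ a ≠ 3) :
    p ^ padicValNat p (p ^ a).factorial ≤ tp (p ^ a) := by
  haveI := Fact.mk hp
  have hp3 : 3 ≤ p := by have := hp.two_le; omega
  have hv : (p - 1) * padicValNat p (p ^ a).factorial = p ^ a - 1 := by
    rw [sub_one_mul_padicValNat_factorial, show (Nat.digits p (p ^ a)).sum = 1 by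
      rw [← mul_one (p ^ a), Nat.digits_base_pow_mul hp.one_lt one_pos]
      simp [Nat.digits_of_lt p 1 one_ne_zero hp.one_lt]]
  generalize hV : padicValNat p (p ^ a).factorial = e at hv
  generalize hq : p ^ a = q at *
  have hk : padicValNat 2 q.factorial + (Nat.digits 2 q).sum = q := by
    have := sub_one_mul_padicValNat_factorial (p := 2) q
    have hle : (Nat.digits 2 q).sum ≤ q := Nat.digit_sum_le 2 q
    omega
  have hqo : ¬ 2 ∣ q := fun h => by
    have := Nat.prime_two.dvd_of_dvd_pow (hq ▸ h)
    exact hp2 ((Nat.prime_dvd_prime_iff_eq Nat.prime_two hp).mp this).symm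
  by_cases hbig : 21 ≤ q
  · have hlen : (Nat.digits 2 q).sum ≤ Nat.log 2 q + 1 := by
      rw [← Nat.digits_len 2 q one_lt_two (by omega)]
      refine (List.sum_le_card_nsmul _ 1 fun x hx => Nat.le_of_lt_succ (Nat.digits_lt_base one_lt_two hx)).trans ?_
      simp
    have hj : 2 ^ Nat.log 2 q ≤ q := Nat.pow_log_le_self 2 (by omega)
    have h5 : 10 * (Nat.log 2 q + 1) ≤ 2 * q + 8 := by
      by_cases hl : 5 ≤ Nat.log 2 q
      · have := five_mul_le _ hl; omega
      · omega
    have h1 : (p ^ e) ^ 2 ≤ 3 ^ (q - 1) := by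
      rw [← pow_mul, mul_comm, pow_mul, ← hv, pow_mul]
      exact Nat.pow_le_pow_left (sq_le_three_pow hp3) e
    have h2 : (p ^ e) ^ 10 ≤ (tp q) ^ 10 := by
      calc (p ^ e) ^ 10 = ((p ^ e) ^ 2) ^ 5 := by rw [← pow_mul _ 2 5]
        _ ≤ (3 ^ (q - 1)) ^ 5 := Nat.pow_le_pow_left h1 5
        _ = (3 ^ 5) ^ (q - 1) := by rw [← pow_mul, ← pow_mul, mul_comm]
        _ ≤ (2 ^ 8) ^ (q - 1) := Nat.pow_le_pow_left (by norm_num) _
        _ = 2 ^ (8 * (q - 1)) := by rw [← pow_mul]
        _ ≤ 2 ^ (padicValNat 2 q.factorial * 10) := Nat.pow_le_pow_right two_pos (by omega)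
        _ = (tp q) ^ 10 := by rw [tp, ← pow_mul]
    exact (Nat.pow_le_pow_iff_left (by norm_num)).mp h2
  · have hpq : p ≤ q := hq ▸ Nat.le_self_pow ha p
    have ha5 : a ≤ 2 := by
      by_contra h
      have : p ^ 3 ≤ q := hq ▸ Nat.pow_le_pow_right (by omega) (show 3 ≤ a by omega)
      have : 3 ^ 3 ≤ p ^ 3 := Nat.pow_le_pow_left hp3 3
      omega
    rw [tp, show padicValNat 2 q.factorial = q - (Nat.digits 2 q).sum by omega]
    have ha1 : 1 ≤ a := Nat.one_le_iff_ne_zero.mpr ha
    interval_cases a
    · rw [pow_one] at hq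
      subst hq
      have he : e = 1 := mul_left_cancel₀ (show p - 1 ≠ 0 by omega) (by rw [hv, mul_one])
      subst he
      interval_cases p <;> first
        | omega
        | (norm_num at hp; done)
        | (simp; done)
        | decide
    · have hp4 : p ≤ 4 := by
        by_contra h
        have : 5 ^ 2 ≤ p ^ 2 := Nat.pow_le_pow_left (by omega) 2
        omega
      interval_cases p
      · subst hq
        obtain rfl : e = 4 := by omega
        norm_num
      · norm_num at hp

theorem two_group_le {G α : Type*} [Group G] [Finite G] [Finite α] [MulAction G α] [FaithfulSMul G α]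
    {p : ℕ} [Fact p.Prime] (hG : IsPGroup p G) :
    Nat.card G ≤ p ^ padicValNat p (Nat.card α).factorial := by
  obtain ⟨k, hk⟩ := IsPGroup.iff_card.mp hG
  have h := Subgroup.card_dvd_of_injective (MulAction.toPermHom G α) MulAction.toPerm_injective
  rw [Nat.card_perm, hk, padicValNat_dvd_iff_le (Nat.factorial_ne_zero _)] at h
  rw [hk]
  exact Nat.pow_le_pow_right (Fact.out : p.Prime).pos h

theorem ncard_orbit_dvd {G α : Type*} [Group G] [MulAction G α] [MulAction.IsPretransitive G α]
    (P : Subgroup G) [P.Normal] (x : α) :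
    (MulAction.orbit P x).ncard ∣ Nat.card P ∧ (MulAction.orbit P x).ncard ∣ Nat.card α := by
  refine ⟨?_, (MulAction.IsBlock.orbit_of_normal (N := P) x).ncard_dvd_card (MulAction.nonempty_orbit x)⟩
  rw [← MulAction.index_stabilizer]
  exact Subgroup.index_dvd_card _

theorem faithful_orbit {G α : Type*} [Group G] [MulAction G α] [FaithfulSMul G α] [MulAction.IsPretransitive G α]
    (P Q : Subgroup G) (hc : ∀ a ∈ P, ∀ b ∈ Q, Commute a b) (hgen : ∀ g : G, ∃ b ∈ Q, ∃ a ∈ P, g = b * a) (x : α) :
    FaithfulSMul P (MulAction.orbit P x) := by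
  refine ⟨fun {k l} h => Subtype.ext (FaithfulSMul.eq_of_smul_eq_smul (α := α) fun y => ?_)⟩
  obtain ⟨g, rfl⟩ := MulAction.exists_smul_eq G x y
  obtain ⟨b, hb, a, ha, rfl⟩ := hgen g
  have h1 := congrArg Subtype.val (h ⟨a • x, MulAction.mem_orbit x (⟨a, ha⟩ : P)⟩)
  simp only [MulAction.orbit.coe_smul, Subgroup.smul_def] at h1
  rw [mul_smul, smul_smul, smul_smul ((l : G)), (hc k k.2 b hb).eq, (hc l l.2 b hb).eq, mul_smul, mul_smul, h1]

theorem card_le_bd : ∀ (n : ℕ) (G α : Type) [Group G] [Finite G] [Finite α] [MulAction G α] [FaithfulSMul G α],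
    Group.IsNilpotent G → Nat.card α = n → Nat.card G ≤ bd n := by
  intro n
  induction n using Nat.strong_induction_on with
  | _ n ih => ?_
  intro G α _ _ _ _ _ hG hn
  classical
  rcases isEmpty_or_nonempty α with hα | ⟨⟨x⟩⟩
  · have : Subsingleton G := ⟨fun a b => FaithfulSMul.eq_of_smul_eq_smul (α := α) fun y => (IsEmpty.false y).elim⟩
    rw [Nat.card_eq_one_iff_unique.mpr ⟨this, inferInstance⟩]
    exact one_le_bd n
  by_cases htr : MulAction.IsPretransitive G α
  · by_cases h2 : IsPGroup 2 G
    · refine (two_group_le (α := α) h2).trans ?_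
      rw [hn]
      show tp n ≤ bd n
      unfold bd
      split
      · next h3 =>
        -- odd `n`: a transitive 2-group would force `n ∣ |G|`
        exfalso
        obtain ⟨k, hk⟩ := IsPGroup.iff_card.mp h2
        have hd : Nat.card α ∣ Nat.card G := by
          rw [← MulAction.index_stabilizer_of_transitive G x]
          exact Subgroup.index_dvd_card _
        rw [hn, hk] at hd
        obtain ⟨j, -, hj⟩ := (Nat.dvd_prime_pow Nat.prime_two).mp hd
        cases j with
        | zero => omega
        | succ j => rw [pow_succ] at hj; omega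
      · exact le_rfl
    · obtain ⟨p, hp, hpd, hp2⟩ : ∃ p, p.Prime ∧ p ∣ Nat.card G ∧ p ≠ 2 := by
        by_contra hcon
        push Not at hcon
        exact h2 (IsPGroup.of_card (n := (Nat.card G).primeFactorsList.length)
          (Nat.eq_prime_pow_of_unique_prime_dvd Nat.card_pos.ne' fun {d} hd hd' => hcon d hd hd'))
      haveI := Fact.mk hp
      haveI := hG
      obtain ⟨P, Q, hQn, hPQ⟩ := Cfsg.Lib.Solv.hasNormalPComplement_of_nilpotent (G := G) p
      haveI := hQn
      haveI : (P : Subgroup G).Normal := Cfsg.Lib.Solv.normal_sylow_of_nilpotent P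
      have hc : ∀ a ∈ (P : Subgroup G), ∀ b ∈ Q, Commute a b := fun a ha b hb =>
        Subgroup.commute_of_normal_of_disjoint _ _ inferInstance hQn hPQ.symm.disjoint a b ha hb
      have hgen : ∀ g : G, ∃ b ∈ Q, ∃ a ∈ (P : Subgroup G), g = b * a := fun g => by
        obtain ⟨⟨b, a⟩, h⟩ := hPQ.2 g
        exact ⟨b, b.2, a, a.2, h.symm⟩
      have hgen' : ∀ g : G, ∃ b ∈ (P : Subgroup G), ∃ a ∈ Q, g = b * a := fun g => by
        obtain ⟨b, hb, a, ha, rfl⟩ := hgen g
        exact ⟨a, ha, b, hb, (hc a ha b hb).eq.symm⟩
      haveI := faithful_orbit (P : Subgroup G) Q hc hgen x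
      haveI := faithful_orbit Q (P : Subgroup G) (fun a ha b hb => (hc b hb a ha).symm) hgen' x
      obtain ⟨hq1, hq2⟩ := ncard_orbit_dvd (P : Subgroup G) x
      obtain ⟨hm1, hm2⟩ := ncard_orbit_dvd Q x
      haveI : Nonempty α := ⟨x⟩
      set q := (MulAction.orbit (P : Subgroup G) x).ncard with hqdef
      set m := (MulAction.orbit Q x).ncard with hmdef
      obtain ⟨k, hk⟩ := IsPGroup.iff_card.mp P.isPGroup'
      obtain ⟨a, -, ha⟩ := (Nat.dvd_prime_pow hp).mp (hk ▸ hq1)
      have hcop : Nat.Coprime (Nat.card (P : Subgroup G)) (Nat.card Q) := by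
        rw [hk]
        refine Nat.Coprime.pow_left _ ((hp.coprime_iff_not_dvd).mpr fun h => P.not_dvd_index ?_)
        rw [hPQ.index_eq_card]; exact h
      have hqm : q * m ≤ n := by
        rw [← hn]
        exact Nat.le_of_dvd Nat.card_pos (Nat.Coprime.mul_dvd_of_dvd_of_dvd
          (Nat.Coprime.coprime_dvd_left hq1 (hcop.coprime_dvd_right hm1)) hq2 hm2)
      have hm0 : 0 < m := (Set.ncard_pos (Set.toFinite _)).mpr (MulAction.nonempty_orbit x)
      have hPle : Nat.card (P : Subgroup G) ≤ p ^ padicValNat p q.factorial := by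
        have := two_group_le (G := (P : Subgroup G)) (α := MulAction.orbit (P : Subgroup G) x) (p := p) P.isPGroup'
        rwa [Nat.card_coe_set_eq] at this
      have ha0 : a ≠ 0 := by
        intro h
        rw [ha, h, pow_zero, Nat.factorial_one, padicValNat.one, pow_zero] at hPle
        have h1 : Nat.card (P : Subgroup G) = 1 := le_antisymm hPle Nat.card_pos
        have := P.dvd_card_of_dvd_card hpd
        rw [h1] at this
        exact hp.not_dvd_one this
      have hqp : p ≤ q := ha ▸ Nat.le_self_pow ha0 p
      have hp3 : 3 ≤ p := by have := hp.two_le; omega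
      have hmn : m < n := lt_of_lt_of_le (by nlinarith) hqm
      haveI : Group.IsNilpotent Q := inferInstance
      have hQle : Nat.card Q ≤ bd m := ih m hmn Q (MulAction.orbit Q x) inferInstance (Nat.card_coe_set_eq _)
      rw [← hPQ.card_mul, mul_comm]
      refine (Nat.mul_le_mul hPle hQle).trans ?_
      by_cases hq3 : q = 3
      · rw [hq3]
        have hp' : p = 3 := by omega
        subst hp'
        rw [show padicValNat 3 (Nat.factorial 3) = 1 by
          rw [show Nat.factorial 3 = 3 * 2 from rfl, padicValNat.mul (by norm_num) (by norm_num),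
            padicValNat.self (by norm_num), padicValNat.eq_zero_of_not_dvd (by norm_num)], pow_one]
        by_cases hm' : m = 1
        · rw [hm']
          have hn3 : 3 ≤ n := by rw [hq3, hm', mul_one] at hqm; exact hqm
          have hb : bd 1 = 1 := by simp [bd, tp]
          rw [hb, mul_one]
          unfold bd
          split
          · have := tp_pos (n - 3); omega
          · have h4 : tp 4 ≤ tp n := tp_mono (by omega)
            have : tp 4 = 8 := by
              rw [tp, show padicValNat 2 (Nat.factorial 4) = 3 by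
                rw [show Nat.factorial 4 = 2 ^ 3 * 3 from rfl, padicValNat.mul (by norm_num) (by norm_num),
                  padicValNat.prime_pow, padicValNat.eq_zero_of_not_dvd (by norm_num)]]
              norm_num
            omega
        · have h6 := tp_add_six m
          rw [hq3] at hqm
          have hb3 := bd_le_three_mul m
          have t4 : tp 4 = 8 := by
            rw [tp, show padicValNat 2 (Nat.factorial 4) = 3 by
              rw [show Nat.factorial 4 = 2 ^ 3 * 3 from rfl, padicValNat.mul (by norm_num) (by norm_num),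
                padicValNat.prime_pow, padicValNat.eq_zero_of_not_dvd (by norm_num)]]
            norm_num
          have t3 : tp 3 = 2 := by
            rw [tp, show padicValNat 2 (Nat.factorial 3) = 1 by
              rw [show Nat.factorial 3 = 2 * 3 from rfl, padicValNat.mul (by norm_num) (by norm_num),
                padicValNat.self (by norm_num), padicValNat.eq_zero_of_not_dvd (by norm_num)]]
            norm_num
          by_cases h3 : n % 4 = 3
          · rw [show bd n = 3 * tp (n - 3) from if_pos h3]
            rcases Nat.lt_or_ge n (m + 9) with hlt | hge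
            · have := tp_mono (show m ≤ 3 by omega)
              have := tp_mono (show 4 ≤ n - 3 by omega)
              omega
            · have := tp_mono (show m + 6 ≤ n - 3 by omega)
              omega
          · rw [show bd n = tp n from if_neg h3]
            by_cases hm6 : m + 6 ≤ n
            · have := tp_mono hm6
              omega
            · have := tp_mono (show m ≤ 3 by omega)
              have := tp_mono (show 4 ≤ n by omega)
              rw [show bd m = tp m from if_neg (by omega)]
              omega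
      · have hP' : p ^ padicValNat p q.factorial ≤ tp q := by
          have := p_part_le hp (by omega) ha0 (ha ▸ hq3)
          rwa [← ha] at this
        have h5 : 5 ≤ q := by
          rcases (show q = 3 ∨ q = 4 ∨ 5 ≤ q by omega) with h | h | h
          · exact absurd h hq3
          · exfalso
            have : 2 ∣ p := Nat.prime_two.dvd_of_dvd_pow (ha ▸ h ▸ (by norm_num : 2 ∣ 4))
            exact hp2 ((Nat.prime_dvd_prime_iff_eq Nat.prime_two hp).mp this).symm
          · exact h
        by_cases hm' : m = 1
        · rw [hm', show bd 1 = 1 by simp [bd, tp], mul_one]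
          refine hP'.trans ?_
          rw [hm', mul_one] at hqm
          unfold bd
          split
          · next h3 =>
            have h1 : tp n = 2 * tp (n - 3) := by
              obtain ⟨j, rfl⟩ : ∃ j, n = j + 3 := ⟨n - 3, by omega⟩
              rw [Nat.add_sub_cancel, tp, tp, ← _root_.pow_succ']
              congr 1
              obtain ⟨i, hi⟩ : ∃ i, j + 2 = 2 * (2 * i + 1) := ⟨j / 4, by omega⟩
              rw [Nat.factorial_succ, Nat.factorial_succ, Nat.factorial_succ,
                padicValNat.mul (by omega) (by positivity), padicValNat.mul (by omega) (by positivity),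
                padicValNat.mul (by omega) (Nat.factorial_ne_zero _),
                padicValNat.eq_zero_of_not_dvd (n := j + 2 + 1) (by omega),
                padicValNat.eq_zero_of_not_dvd (n := j + 1) (by omega),
                show j + 1 + 1 = j + 2 by ring, hi, padicValNat.mul (by norm_num) (by omega),
                padicValNat.self (by norm_num), padicValNat.eq_zero_of_not_dvd (n := 2 * i + 1) (by omega)]
              omega
            have := tp_mono hqm
            omega
          · exact tp_mono hqm
        · -- `q, m ≥ 2`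
          have h9 := tp_mul_le m q
          refine (Nat.mul_le_mul_right (bd m) hP').trans ?_
          have hq5 : q + m + 3 ≤ n := le_trans (by nlinarith [show 2 ≤ m by omega]) hqm
          by_cases h3 : n % 4 = 3
          · rw [show bd n = 3 * tp (n - 3) from if_pos h3]
            have := tp_mono (show m + q ≤ n - 3 by omega)
            have := bd_le_three_mul m
            nlinarith
          · rw [show bd n = tp n from if_neg h3]
            by_cases hm3 : m % 4 = 3
            · have hq7 : q + m + 4 ≤ n := le_trans (by nlinarith [show 3 ≤ m by omega]) hqm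
              have h8 : tp 4 = 8 := by
                rw [tp, show padicValNat 2 (Nat.factorial 4) = 3 by
                  rw [show Nat.factorial 4 = 2 ^ 3 * 3 from rfl, padicValNat.mul (by norm_num) (by norm_num),
                    padicValNat.prime_pow, padicValNat.eq_zero_of_not_dvd (by norm_num)]]
                norm_num
              have := tp_mul_le (m + q) 4
              have := tp_mono (show m + q + 4 ≤ n by omega)
              have := bd_le_three_mul m
              nlinarith
            · rw [show bd m = tp m from if_neg hm3]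
              have := tp_mono (show m + q ≤ n by omega)
              nlinarith
  · -- intransitive
    let s : Set α := MulAction.orbit G x
    have hs : s ≠ Set.univ := by
      intro h
      exact htr ⟨fun a b => by
        obtain ⟨g, rfl⟩ : a ∈ s := h ▸ Set.mem_univ a
        obtain ⟨k, rfl⟩ : b ∈ s := h ▸ Set.mem_univ b
        exact ⟨k * g⁻¹, by simp [mul_smul]⟩⟩
    letI : MulAction G ↥sᶜ :=
      { smul := fun g y => ⟨g • (y : α), fun h => y.2 (by
          have := MulAction.smul_orbit g⁻¹ x ▸ Set.smul_mem_smul_set (a := g⁻¹) h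
          rwa [inv_smul_smul] at this)⟩
        one_smul := fun y => Subtype.ext (one_smul G (y : α))
        mul_smul := fun g k y => Subtype.ext (mul_smul g k (y : α)) }
    let f := MulAction.toPermHom G ↥s
    let f' := MulAction.toPermHom G ↥sᶜ
    have hinj : Function.Injective (f.rangeRestrict.prod f'.rangeRestrict) := by
      intro g k h
      refine FaithfulSMul.eq_of_smul_eq_smul (α := α) fun y => ?_
      by_cases hy : y ∈ s
      · exact congrArg (fun u : Equiv.Perm ↥s => ((u ⟨y, hy⟩ : ↥s) : α)) (congrArg (fun u => (u.1 : Equiv.Perm ↥s)) h)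
      · exact congrArg (fun u : Equiv.Perm ↥sᶜ => ((u ⟨y, hy⟩ : ↥sᶜ) : α)) (congrArg (fun u => (u.2 : Equiv.Perm ↥sᶜ)) h)
    have hle : Nat.card G ≤ Nat.card f.range * Nat.card f'.range := by
      rw [← Nat.card_prod]; exact Nat.card_le_card_of_injective _ hinj
    haveI := hG
    have hns : s.ncard + sᶜ.ncard = n := by rw [← hn, Set.ncard_add_ncard_compl]
    have hs1 : 0 < s.ncard := (Set.ncard_pos (Set.toFinite _)).mpr (MulAction.nonempty_orbit x)
    have hs2 : 0 < sᶜ.ncard := (Set.ncard_pos (Set.toFinite _)).mpr (Set.nonempty_compl.mpr hs)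
    have b1 := ih s.ncard (by omega) f.range ↥s
      (Group.nilpotent_of_surjective f.rangeRestrict f.rangeRestrict_surjective) (Nat.card_coe_set_eq s)
    have b2 := ih sᶜ.ncard (by omega) f'.range ↥sᶜ
      (Group.nilpotent_of_surjective f'.rangeRestrict f'.rangeRestrict_surjective) (Nat.card_coe_set_eq sᶜ)
    refine hle.trans ((Nat.mul_le_mul b1 b2).trans ?_)
    rw [← hns]
    exact bd_mul_le _ _

end Cfsg.Lib.PermGroup.NilpotentBound
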