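import Cfsg.Agent.Lib.PermGroup.NilpotentBound

/-!
Orders of nilpotent groups of even permutations.
-/

set_option autoImplicit false

namespace Cfsg.Lib.PermGroup.NilpotentBound

open Nat

/-- The bound for even permutations. -/
def bdAlt (n : ℕ) : ℕ :=
  if n < 3 then 1 else if n = 3 then 3 else if n = 5 then 5 else if n = 6 then 9 else if n = 9 then 81 else bd n / 2

theorem tp_eq (n : ℕ) : tp n = 2 ^ (n - (Nat.digits 2 n).sum) := by
  have := sub_one_mul_padicValNat_factorial (p := 2) n
  rw [tp]
  congr 1
  omega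

theorem le_bdAlt {x n : ℕ} (h : 2 * x ≤ bd n) : x ≤ bdAlt n := by
  unfold bdAlt
  split_ifs with h1 h2 h3 h4 h5
  · interval_cases n <;> simp [bd, tp_eq] at h <;> omega
  · subst h2; simp [bd, tp_eq] at h; omega
  · subst h3; simp [bd, tp_eq] at h; omega
  · subst h4; simp [bd, tp_eq] at h; omega
  · subst h5; simp [bd, tp_eq] at h; omega
  · omega

theorem bdAlt_le (n : ℕ) : bdAlt n ≤ bd n := by
  unfold bdAlt
  split_ifs with h1 h2 h3 h4 h5
  · exact one_le_bd n
  · subst h2; simp [bd, tp_eq]
  · subst h3; simp [bd, tp_eq]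
  · subst h4; simp [bd, tp_eq]
  · subst h5; simp [bd, tp_eq]
  · exact Nat.div_le_self _ _

theorem bdAlt_mul_le (a b : ℕ) : bdAlt a * bdAlt b ≤ bdAlt (a + b) := by
  have key : ∀ x y, ¬ (x < 4 ∨ x = 5 ∨ x = 6 ∨ x = 9) → bdAlt x * bdAlt y ≤ bdAlt (x + y) := by
    intro x y hx
    push Not at hx
    apply le_bdAlt
    have h1 : 2 * bdAlt x ≤ bd x := by
      rw [bdAlt, if_neg (by omega), if_neg (by omega), if_neg hx.2.1, if_neg hx.2.2.1, if_neg hx.2.2.2]
      omega
    have h2 := bdAlt_le y
    have h3 := bd_mul_le x y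
    nlinarith
  by_cases ha : a < 4 ∨ a = 5 ∨ a = 6 ∨ a = 9
  · by_cases hb : b < 4 ∨ b = 5 ∨ b = 6 ∨ b = 9
    · rcases ha with ha | rfl | rfl | rfl <;> [interval_cases a; skip; skip; skip] <;>
        (rcases hb with hb | rfl | rfl | rfl <;> [interval_cases b; skip; skip; skip] <;> simp [bdAlt, bd, tp_eq])
    · rw [mul_comm, add_comm]; exact key b a hb
  · exact key a b ha

theorem two_mul_tp_le (n : ℕ) : 2 * tp n ≤ tp (n + 2) := by
  have := tp_mul_le n 2
  rw [show tp 2 = 2 by simp [tp_eq]] at this
  omega

theorem tp_le_bd (n : ℕ) : tp n ≤ bd n := by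
  unfold bd
  split
  · next h =>
    obtain ⟨k, hk⟩ : ∃ k, n = k + 3 := ⟨n - 3, by omega⟩
    subst hk
    rw [Nat.add_sub_cancel]
    have e : tp (k + 3) = 2 * tp k := by
      rw [tp, tp, ← _root_.pow_succ']
      congr 1
      obtain ⟨j, hj⟩ : ∃ j, k + 2 = 2 * (2 * j + 1) := ⟨k / 4, by omega⟩
      have h2 : padicValNat 2 (k + 2) = 1 := by
        rw [hj, padicValNat.mul (by norm_num) (by omega), padicValNat.self (by norm_num),
          padicValNat.eq_zero_of_not_dvd (by omega)]
      rw [Nat.factorial_succ, Nat.factorial_succ, Nat.factorial_succ,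
        padicValNat.mul (by omega) (by positivity), padicValNat.mul (by omega) (by positivity),
        padicValNat.mul (by omega) (Nat.factorial_ne_zero _), h2,
        padicValNat.eq_zero_of_not_dvd (n := k + 2 + 1) (by omega),
        padicValNat.eq_zero_of_not_dvd (n := k + 1) (by omega)]
      omega
    omega
  · exact le_rfl

/-- Sharper version of `p_part_le`. -/
theorem p_part_lt {p a : ℕ} (hp : p.Prime) (hp2 : p ≠ 2) (ha : a ≠ 0) (h7 : 7 ≤ p ^ a) (h9 : p ^ a ≠ 9) :
    2 * p ^ padicValNat p (p ^ a).factorial ≤ tp (p ^ a) := by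
  haveI := Fact.mk hp
  have hp3 : 3 ≤ p := by have := hp.two_le; omega
  have hv : (p - 1) * padicValNat p (p ^ a).factorial = p ^ a - 1 := by
    rw [sub_one_mul_padicValNat_factorial, show (Nat.digits p (p ^ a)).sum = 1 by
      rw [← mul_one (p ^ a), Nat.digits_base_pow_mul hp.one_lt one_pos]
      simp [Nat.digits_of_lt p 1 one_ne_zero hp.one_lt]]
  generalize hV : padicValNat p (p ^ a).factorial = e at hv
  generalize hq : p ^ a = q at *
  rw [tp_eq]
  by_cases hbig : 26 ≤ q
  · have hlen : (Nat.digits 2 q).sum ≤ Nat.log 2 q + 1 := by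
      rw [← Nat.digits_len 2 q one_lt_two (by omega)]
      refine (List.sum_le_card_nsmul _ 1 fun x hx => Nat.le_of_lt_succ (Nat.digits_lt_base one_lt_two hx)).trans ?_
      simp
    have hj : 2 ^ Nat.log 2 q ≤ q := Nat.pow_log_le_self 2 (by omega)
    have h5 : 10 * (Nat.log 2 q + 1) + 2 ≤ 2 * q := by
      rcases (show Nat.log 2 q ≤ 4 ∨ Nat.log 2 q = 5 ∨ 6 ≤ Nat.log 2 q by omega) with hl | hl | hl
      · omega
      · rw [hl] at hj; omega
      · obtain ⟨j, hj'⟩ : ∃ j, Nat.log 2 q = j + 1 := ⟨Nat.log 2 q - 1, by omega⟩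
        have := five_mul_le j (by omega)
        rw [hj', pow_succ] at hj
        omega
    have h1 : (p ^ e) ^ 2 ≤ 3 ^ (q - 1) := by
      rw [← pow_mul, mul_comm, pow_mul, ← hv, pow_mul]
      exact Nat.pow_le_pow_left (sq_le_three_pow hp3) e
    refine (Nat.pow_le_pow_iff_left (show 10 ≠ 0 by norm_num)).mp ?_
    calc (2 * p ^ e) ^ 10 = 2 ^ 10 * ((p ^ e) ^ 2) ^ 5 := by rw [mul_pow, ← pow_mul _ 2 5]
      _ ≤ 2 ^ 10 * (3 ^ (q - 1)) ^ 5 := Nat.mul_le_mul_left _ (Nat.pow_le_pow_left h1 5)
      _ = 2 ^ 10 * (3 ^ 5) ^ (q - 1) := by rw [← pow_mul, ← pow_mul, mul_comm (q - 1)]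
      _ ≤ 2 ^ 10 * (2 ^ 8) ^ (q - 1) := Nat.mul_le_mul_left _ (Nat.pow_le_pow_left (by norm_num) _)
      _ = 2 ^ (10 + 8 * (q - 1)) := by rw [← pow_mul, ← pow_add]
      _ ≤ 2 ^ ((q - (Nat.digits 2 q).sum) * 10) := Nat.pow_le_pow_right two_pos (by omega)
      _ = _ := by rw [← pow_mul]
  · have hpq : p ≤ q := hq ▸ Nat.le_self_pow ha p
    have ha5 : a ≤ 2 := by
      by_contra h
      have : p ^ 3 ≤ q := hq ▸ Nat.pow_le_pow_right (by omega) (show 3 ≤ a by omega)
      have : 3 ^ 3 ≤ p ^ 3 := Nat.pow_le_pow_left hp3 3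
      omega
    have ha1 : 1 ≤ a := Nat.one_le_iff_ne_zero.mpr ha
    interval_cases a
    · rw [pow_one] at hq
      subst hq
      have he : e = 1 := mul_left_cancel₀ (show p - 1 ≠ 0 by omega) (by rw [hv, mul_one])
      subst he
      interval_cases p <;> first
        | omega
        | (norm_num at hp; done)
        | (simp; done)
        | decide
    · have hp5 : p ≤ 5 := by
        by_contra h
        have : 6 ^ 2 ≤ p ^ 2 := Nat.pow_le_pow_left (by omega) 2
        omega
      interval_cases p
      · subst hq; omega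
      · norm_num at hp
      · subst hq
        obtain rfl : e = 6 := by omega
        simp

theorem card_le_bdAlt : ∀ (n : ℕ) (G α : Type) [Group G] [Finite G] [Fintype α] [DecidableEq α] [MulAction G α] [FaithfulSMul G α],
    Group.IsNilpotent G → (∀ g : G, Equiv.Perm.sign (MulAction.toPerm g : Equiv.Perm α) = 1) → Nat.card α = n →
    Nat.card G ≤ bdAlt n := by
  intro n
  induction n using Nat.strong_induction_on with
  | _ n ih => ?_
  intro G α _ _ _ _ _ _ hG hsgn hn
  classical
  rcases isEmpty_or_nonempty α with hα | ⟨⟨x⟩⟩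
  · have : Subsingleton G := ⟨fun a b => FaithfulSMul.eq_of_smul_eq_smul (α := α) fun y => (IsEmpty.false y).elim⟩
    rw [Nat.card_eq_one_iff_unique.mpr ⟨this, inferInstance⟩]
    rw [show n = 0 by rw [← hn]; simp]; simp [bdAlt]
  by_cases hsub : Subsingleton α
  · have : Subsingleton G := ⟨fun a b => FaithfulSMul.eq_of_smul_eq_smul (α := α) fun y => Subsingleton.elim _ _⟩
    rw [Nat.card_eq_one_iff_unique.mpr ⟨this, inferInstance⟩]
    rw [← hn, Nat.card_eq_one_iff_unique.mpr ⟨hsub, ⟨x⟩⟩]
    simp [bdAlt]
  haveI : Nontrivial α := not_subsingleton_iff_nontrivial.mp hsub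
  by_cases htr : MulAction.IsPretransitive G α
  · by_cases h2 : IsPGroup 2 G
    · apply le_bdAlt
      refine le_trans ?_ (tp_le_bd n)
      obtain ⟨k, hk⟩ := IsPGroup.iff_card.mp h2
      have h : Nat.card G ∣ Nat.card (alternatingGroup α) :=
        Subgroup.card_dvd_of_injective ((MulAction.toPermHom G α).codRestrict _ fun g => Equiv.Perm.mem_alternatingGroup.mpr (hsgn g))
          (fun a b h => MulAction.toPerm_injective (congrArg Subtype.val h))
      have h' := Nat.mul_dvd_mul_left 2 h
      rw [Nat.card_eq_fintype_card (α := alternatingGroup α), two_mul_card_alternatingGroup, ← Nat.card_eq_fintype_card,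
        Nat.card_perm, hn, hk, ← _root_.pow_succ', padicValNat_dvd_iff_le (Nat.factorial_ne_zero _)] at h'
      rw [hk, ← _root_.pow_succ']
      exact Nat.pow_le_pow_right two_pos h'
    · obtain ⟨p, hp, hpd, hp2⟩ : ∃ p, p.Prime ∧ p ∣ Nat.card G ∧ p ≠ 2 := by
        by_contra hcon
        push Not at hcon
        exact h2 (IsPGroup.of_card (n := (Nat.card G).primeFactorsList.length)
          (Nat.eq_prime_pow_of_unique_prime_dvd Nat.card_pos.ne' fun {d} hd hd' => hcon d hd hd'))
      haveI := Fact.mk hp
      haveI := hG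
      obtain ⟨P, Q, hQn, hPQ⟩ := Cfsg.Lib.Solv.hasNormalPComplement_of_nilpotent (G := G) p
      haveI := hQn
      haveI : (P : Subgroup G).Normal := Cfsg.Lib.Solv.normal_sylow_of_nilpotent P
      have hc : ∀ a ∈ (P : Subgroup G), ∀ b ∈ Q, Commute a b := fun a ha b hb =>
        Subgroup.commute_of_normal_of_disjoint _ _ inferInstance hQn hPQ.symm.disjoint a b ha hb
      have hgen : ∀ g : G, ∃ b ∈ Q, ∃ a ∈ (P : Subgroup G), g = b * a := fun g => by
        obtain ⟨⟨b, a⟩, h⟩ := hPQ.2 g
        exact ⟨b, b.2, a, a.2, h.symm⟩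
      have hgen' : ∀ g : G, ∃ b ∈ (P : Subgroup G), ∃ a ∈ Q, g = b * a := fun g => by
        obtain ⟨b, hb, a, ha, rfl⟩ := hgen g
        exact ⟨a, ha, b, hb, (hc a ha b hb).eq.symm⟩
      haveI := faithful_orbit (P : Subgroup G) Q hc hgen x
      haveI := faithful_orbit Q (P : Subgroup G) (fun a ha b hb => (hc b hb a ha).symm) hgen' x
      obtain ⟨hq1, hq2⟩ := ncard_orbit_dvd (P : Subgroup G) x
      obtain ⟨hm1, hm2⟩ := ncard_orbit_dvd Q x
      haveI : Nonempty α := ⟨x⟩
      set q := (MulAction.orbit (P : Subgroup G) x).ncard with hqdef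
      set m := (MulAction.orbit Q x).ncard with hmdef
      obtain ⟨k, hk⟩ := IsPGroup.iff_card.mp P.isPGroup'
      obtain ⟨a, -, ha⟩ := (Nat.dvd_prime_pow hp).mp (hk ▸ hq1)
      have hcop : Nat.Coprime (Nat.card (P : Subgroup G)) (Nat.card Q) := by
        rw [hk]
        refine Nat.Coprime.pow_left _ ((hp.coprime_iff_not_dvd).mpr fun h => P.not_dvd_index ?_)
        rw [hPQ.index_eq_card]; exact h
      have hqm : q * m ≤ n := by
        rw [← hn]
        exact Nat.le_of_dvd Nat.card_pos (Nat.Coprime.mul_dvd_of_dvd_of_dvd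
          (Nat.Coprime.coprime_dvd_left hq1 (hcop.coprime_dvd_right hm1)) hq2 hm2)
      have hm0 : 0 < m := (Set.ncard_pos (Set.toFinite _)).mpr (MulAction.nonempty_orbit x)
      have hPle : Nat.card (P : Subgroup G) ≤ p ^ padicValNat p q.factorial := by
        have := two_group_le (G := (P : Subgroup G)) (α := MulAction.orbit (P : Subgroup G) x) (p := p) P.isPGroup'
        rwa [Nat.card_coe_set_eq] at this
      have ha0 : a ≠ 0 := by
        intro h
        rw [ha, h, pow_zero, Nat.factorial_one, padicValNat.one, pow_zero] at hPle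
        have h1 : Nat.card (P : Subgroup G) = 1 := le_antisymm hPle Nat.card_pos
        have := P.dvd_card_of_dvd_card hpd
        rw [h1] at this
        exact hp.not_dvd_one this
      have hqp : p ≤ q := ha ▸ Nat.le_self_pow ha0 p
      have hp3 : 3 ≤ p := by have := hp.two_le; omega
      have hmn : m < n := lt_of_lt_of_le (by nlinarith) hqm
      haveI : Group.IsNilpotent Q := inferInstance
      have hQle : Nat.card Q ≤ bd m := card_le_bd m Q (MulAction.orbit Q x) inferInstance (Nat.card_coe_set_eq _)
      rw [← hPQ.card_mul, mul_comm]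
      have hPQle := Nat.mul_le_mul hPle hQle
      by_cases hm' : m = 1
      · rw [hm', show bd 1 = 1 by simp [bd, tp], mul_one] at hPQle
        rw [hm', mul_one] at hqm
        refine hPQle.trans ?_
        rcases (show q = 3 ∨ q = 4 ∨ q = 5 ∨ q = 6 ∨ q = 9 ∨ (7 ≤ q ∧ q ≠ 9) by omega) with h | h | h | h | h | h
        · obtain rfl : p = 3 := by omega
          rw [h, show padicValNat 3 (Nat.factorial 3) = 1 by
            rw [show Nat.factorial 3 = 3 * 2 from rfl, padicValNat.mul (by norm_num) (by norm_num),
              padicValNat.self (by norm_num), padicValNat.eq_zero_of_not_dvd (by norm_num)], pow_one]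
          rcases (show n = 3 ∨ 4 ≤ n by omega) with h3 | h4
          · subst h3; simp [bdAlt]
          · apply le_bdAlt
            have := tp_mono h4
            have h8 : tp 4 = 8 := by simp [tp_eq]
            have := tp_le_bd n
            omega
        · exfalso
          have : 2 ∣ p := Nat.prime_two.dvd_of_dvd_pow (ha ▸ h ▸ (by norm_num : 2 ∣ 4))
          exact hp2 ((Nat.prime_dvd_prime_iff_eq Nat.prime_two hp).mp this).symm
        · have hp5 : p = 5 := by
            have : p ∣ 5 := h ▸ ha ▸ dvd_pow_self p ha0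
            exact (Nat.prime_dvd_prime_iff_eq hp Nat.prime_five).mp this
          subst hp5
          rw [h, show padicValNat 5 (Nat.factorial 5) = 1 by
            rw [show Nat.factorial 5 = 5 * 24 from rfl, padicValNat.mul (by norm_num) (by norm_num),
              padicValNat.self (by norm_num), padicValNat.eq_zero_of_not_dvd (by norm_num)], pow_one]
          rcases (show n = 5 ∨ 6 ≤ n by omega) with h3 | h4
          · subst h3; simp [bdAlt]
          · apply le_bdAlt
            have := tp_mono h4
            have h8 : tp 6 = 16 := by simp [tp_eq]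
            have := tp_le_bd n
            omega
        · exfalso
          have : 2 ∣ p := Nat.prime_two.dvd_of_dvd_pow (ha ▸ h ▸ (by norm_num : 2 ∣ 6))
          exact hp2 ((Nat.prime_dvd_prime_iff_eq Nat.prime_two hp).mp this).symm
        · have hp3' : p = 3 := by
            have : p ∣ 9 := h ▸ ha ▸ dvd_pow_self p ha0
            have : p ∣ 3 := hp.dvd_of_dvd_pow (show p ∣ 3 ^ 2 from this)
            exact (Nat.prime_dvd_prime_iff_eq hp Nat.prime_three).mp this
          subst hp3'
          rw [h, show padicValNat 3 (Nat.factorial 9) = 4 by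
            rw [show Nat.factorial 9 = 3 ^ 4 * 4480 from rfl, padicValNat.mul (by norm_num) (by norm_num),
              padicValNat.prime_pow, padicValNat.eq_zero_of_not_dvd (by norm_num)]]
          rcases (show n = 9 ∨ 10 ≤ n by omega) with h3 | h4
          · subst h3; simp [bdAlt]
          · apply le_bdAlt
            have := tp_mono h4
            have h8 : tp 10 = 256 := by simp [tp_eq]
            have := tp_le_bd n
            omega
        · apply le_bdAlt
          have := p_part_lt hp hp2 ha0 (ha ▸ h.1) (ha ▸ h.2)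
          rw [← ha] at this
          exact this.trans ((tp_mono hqm).trans (tp_le_bd n))
      · apply le_bdAlt
        refine le_trans (Nat.mul_le_mul_left 2 hPQle) ?_
        rcases (show q = 3 ∨ q = 4 ∨ 5 ≤ q by omega) with h | h | h
        · obtain rfl : p = 3 := by omega
          rw [h, show padicValNat 3 (Nat.factorial 3) = 1 by
            rw [show Nat.factorial 3 = 3 * 2 from rfl, padicValNat.mul (by norm_num) (by norm_num),
              padicValNat.self (by norm_num), padicValNat.eq_zero_of_not_dvd (by norm_num)], pow_one]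
          rw [h] at hqm
          rcases (show m = 2 ∨ 3 ≤ m by omega) with h3 | h4
          · rw [h3, show bd 2 = 2 by simp [bd, tp_eq]]
            have := tp_mono (show 6 ≤ n by omega)
            have h8 : tp 6 = 16 := by simp [tp_eq]
            have := tp_le_bd n
            omega
          · have hbm := bd_le_three_mul m
            have h6 := tp_mul_le m 6
            rw [show tp 6 = 16 by simp [tp_eq]] at h6
            by_cases hn3 : n % 4 = 3
            · rw [show bd n = 3 * tp (n - 3) from if_pos hn3]
              by_cases hm9 : m + 6 ≤ n - 3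
              · have := tp_mono hm9
                omega
              · have := tp_mono (show 6 ≤ n - 3 by omega)
                rw [show tp 6 = 16 by simp [tp_eq]] at this
                have hm3 := tp_mono (show m ≤ 3 by omega)
                rw [show tp 3 = 2 by simp [tp_eq]] at hm3
                omega
            · rw [show bd n = tp n from if_neg hn3]
              have := tp_mono (show m + 6 ≤ n by omega)
              by_cases hm3 : m % 4 = 3
              · rw [show bd m = 3 * tp (m - 3) from if_pos hm3]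
                have := two_mul_tp_le (m - 3)
                have := tp_mono (show m - 3 + 2 ≤ m by omega)
                omega
              · rw [show bd m = tp m from if_neg hm3]
                omega
        · exfalso
          have : 2 ∣ p := Nat.prime_two.dvd_of_dvd_pow (ha ▸ h ▸ (by norm_num : 2 ∣ 4))
          exact hp2 ((Nat.prime_dvd_prime_iff_eq Nat.prime_two hp).mp this).symm
        · have hP' : p ^ padicValNat p q.factorial ≤ tp q := by
            have := p_part_le hp hp2 ha0 (ha ▸ (show q ≠ 3 by omega))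
            rwa [← ha] at this
          refine le_trans (Nat.mul_le_mul_left 2 (Nat.mul_le_mul_right (bd m) hP')) ?_
          have h9 := tp_mul_le m q
          have h2m := two_mul_tp_le (m + q)
          by_cases hs : q = 5 ∧ m = 2
          · obtain ⟨hq5, hm2⟩ := hs
            rw [hq5, hm2, show bd 2 = 2 by simp [bd, tp_eq], show tp 5 = 8 by simp [tp_eq]]
            rw [hq5, hm2] at hqm
            have := tp_mono (show 10 ≤ n by omega)
            have h8 : tp 10 = 256 := by simp [tp_eq]
            have := tp_le_bd n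
            omega
          have hq5 : q + m + 5 ≤ n := le_trans (by
            rcases (show 3 ≤ m ∨ (m = 2 ∧ 7 ≤ q) by
              by_contra hcon
              push Not at hcon
              have hq6 : q ≠ 6 := fun h6 => hp2 ((Nat.prime_dvd_prime_iff_eq Nat.prime_two hp).mp
                (Nat.prime_two.dvd_of_dvd_pow (ha ▸ h6 ▸ (by norm_num : 2 ∣ 6)))).symm
              exact hs ⟨by omega, by omega⟩) with h4 | ⟨h4, h5⟩
            · nlinarith
            · nlinarith) hqm
          by_cases h3 : n % 4 = 3
          · rw [show bd n = 3 * tp (n - 3) from if_pos h3]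
            have := tp_mono (show m + q + 2 ≤ n - 3 by omega)
            have := bd_le_three_mul m
            nlinarith
          · rw [show bd n = tp n from if_neg h3]
            have h8 : tp 4 = 8 := by simp [tp_eq]
            have := tp_mul_le (m + q) 4
            have := tp_mono (show m + q + 4 ≤ n by omega)
            have := bd_le_three_mul m
            nlinarith
  · -- intransitive
    let s : Set α := MulAction.orbit G x
    have hs : s ≠ Set.univ := by
      intro h
      exact htr ⟨fun a b => by
        obtain ⟨g, rfl⟩ : a ∈ s := h ▸ Set.mem_univ a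
        obtain ⟨k, rfl⟩ : b ∈ s := h ▸ Set.mem_univ b
        exact ⟨k * g⁻¹, by simp [mul_smul]⟩⟩
    letI : MulAction G ↥sᶜ :=
      { smul := fun g y => ⟨g • (y : α), fun h => y.2 (by
          have := MulAction.smul_orbit g⁻¹ x ▸ Set.smul_mem_smul_set (a := g⁻¹) h
          rwa [inv_smul_smul] at this)⟩
        one_smul := fun y => Subtype.ext (one_smul G (y : α))
        mul_smul := fun g k y => Subtype.ext (mul_smul g k (y : α)) }
    let f := MulAction.toPermHom G ↥s
    let f' := MulAction.toPermHom G ↥sᶜ
    have hinj : Function.Injective (f.rangeRestrict.prod f'.rangeRestrict) := by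
      intro g k h
      refine FaithfulSMul.eq_of_smul_eq_smul (α := α) fun y => ?_
      by_cases hy : y ∈ s
      · exact congrArg (fun u : Equiv.Perm ↥s => ((u ⟨y, hy⟩ : ↥s) : α)) (congrArg (fun u => (u.1 : Equiv.Perm ↥s)) h)
      · exact congrArg (fun u : Equiv.Perm ↥sᶜ => ((u ⟨y, hy⟩ : ↥sᶜ) : α)) (congrArg (fun u => (u.2 : Equiv.Perm ↥sᶜ)) h)
    haveI := hG
    have hns : s.ncard + sᶜ.ncard = n := by rw [← hn, Set.ncard_add_ncard_compl]
    have hs1 : 0 < s.ncard := (Set.ncard_pos (Set.toFinite _)).mpr (MulAction.nonempty_orbit x)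
    have hs2 : 0 < sᶜ.ncard := (Set.ncard_pos (Set.toFinite _)).mpr (Set.nonempty_compl.mpr hs)
    letI : Fintype ↥s := Fintype.ofFinite _
    letI : Fintype ↥sᶜ := Fintype.ofFinite _
    have hsplit : ∀ g : G, Equiv.Perm.sign (f g) * Equiv.Perm.sign (f' g) = 1 := by
      intro g
      have e : (MulAction.toPerm g : Equiv.Perm α) = Equiv.Perm.subtypeCongr (p := fun y => y ∈ s) (f g) (f' g) := by
        ext y
        by_cases hy : y ∈ s
        · rw [Equiv.Perm.subtypeCongr.left_apply (p := fun y => y ∈ s) _ _ hy]; rfl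
        · rw [Equiv.Perm.subtypeCongr.right_apply (p := fun y => y ∈ s) _ _ hy]; rfl
      have hs' := hsgn g
      rw [e, Equiv.Perm.sign_subtypeCongr] at hs'
      convert hs'
    let ψ := f.rangeRestrict.prod f'.rangeRestrict
    by_cases hev : ∀ g : G, Equiv.Perm.sign (f g) = 1
    · have hle : Nat.card G ≤ Nat.card f.range * Nat.card f'.range := by
        rw [← Nat.card_prod]; exact Nat.card_le_card_of_injective _ hinj
      have b1 := ih s.ncard (by omega) f.range ↥s
        (Group.nilpotent_of_surjective f.rangeRestrict f.rangeRestrict_surjective)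
        (by rintro ⟨_, g, rfl⟩; exact hev g) (Nat.card_coe_set_eq s)
      have b2 := ih sᶜ.ncard (by omega) f'.range ↥sᶜ
        (Group.nilpotent_of_surjective f'.rangeRestrict f'.rangeRestrict_surjective)
        (by rintro ⟨_, g, rfl⟩; have := hsplit g; rw [hev g, one_mul] at this; exact this) (Nat.card_coe_set_eq _)
      refine hle.trans ((Nat.mul_le_mul b1 b2).trans ?_)
      rw [← hns]
      exact bdAlt_mul_le _ _
    · push Not at hev
      obtain ⟨g₀, hg₀⟩ := hev
      apply le_bdAlt
      have hne : ψ.range ≠ ⊤ := by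
        intro htop
        obtain ⟨g, hg⟩ : (f.rangeRestrict g₀, (1 : f'.range)) ∈ ψ.range := htop ▸ Subgroup.mem_top _
        have h1 : f g = f g₀ := congrArg (fun u => (u.1 : Equiv.Perm ↥s)) hg
        have h2 : f' g = 1 := congrArg (fun u => (u.2 : Equiv.Perm ↥sᶜ)) hg
        have := hsplit g
        rw [h1, h2, map_one, mul_one] at this
        exact hg₀ this
      have hi : 2 ≤ ψ.range.index := by
        have := Subgroup.index_ne_zero_of_finite (H := ψ.range)
        have : ψ.range.index ≠ 1 := fun h => hne (Subgroup.index_eq_one.mp h)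
        omega
      have hc := ψ.range.card_mul_index
      rw [← Nat.card_congr (MonoidHom.ofInjective (f := ψ) hinj).toEquiv, Nat.card_prod] at hc
      have b1 := card_le_bd s.ncard f.range ↥s
        (Group.nilpotent_of_surjective f.rangeRestrict f.rangeRestrict_surjective) (Nat.card_coe_set_eq s)
      have b2 := card_le_bd sᶜ.ncard f'.range ↥sᶜ
        (Group.nilpotent_of_surjective f'.rangeRestrict f'.rangeRestrict_surjective) (Nat.card_coe_set_eq _)
      have b3 := bd_mul_le s.ncard sᶜ.ncard
      rw [hns] at b3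
      have := Nat.mul_le_mul b1 b2
      nlinarith

end Cfsg.Lib.PermGroup.NilpotentBound
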