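import Cfsg.Agent.Lib.PermGroup.NilpotentBoundAlt

/-!
Nilpotent permutation groups of extremal order for `n ≡ 3 (mod 4)`.
-/

set_option autoImplicit false

namespace Cfsg.Lib.PermGroup.NilpotentBound

open Equiv

theorem four_mul_tp_le {m : ℕ} (hm : m % 4 = 0) (hm0 : 4 ≤ m) : 4 * tp (m - 1) ≤ tp m := by
  obtain ⟨k, rfl⟩ : ∃ k, m = k + 1 := ⟨m - 1, by omega⟩
  rw [Nat.add_sub_cancel, tp, tp, show (4 : ℕ) = 2 ^ 2 by rfl, ← pow_add]
  refine Nat.pow_le_pow_right two_pos ?_
  rw [Nat.factorial_succ, padicValNat.mul (by omega) (Nat.factorial_ne_zero _)]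
  have : 2 ≤ padicValNat 2 (k + 1) :=
    (padicValNat_dvd_iff_le (p := 2) (by omega)).mp (Nat.dvd_of_mod_eq_zero hm)
  omega

/-- A 2-subgroup acting faithfully on an invariant set `W`. -/
theorem two_le_tp {α : Type} [Finite α] (T : Subgroup (Perm α)) (hT : IsPGroup 2 T) (W : Set α)
    (hinv : ∀ t ∈ T, ∀ y ∈ W, t y ∈ W) (hf : ∀ t ∈ T, (∀ y ∈ W, t y = y) → t = 1) :
    Nat.card T ≤ tp W.ncard := by
  classical
  letI : MulAction T ↥W :=
    { smul := fun t y => ⟨(t : Perm α) y, hinv t t.2 y y.2⟩
      one_smul := fun y => Subtype.ext rfl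
      mul_smul := fun t u y => Subtype.ext rfl }
  haveI : FaithfulSMul T ↥W := ⟨fun {t u} h => by
    have := hf _ (T.mul_mem (T.inv_mem u.2) t.2) fun y hy => by
      have h' : (t : Perm α) y = (u : Perm α) y := congrArg Subtype.val (h ⟨y, hy⟩)
      rw [Perm.mul_apply, h']
      exact (u : Perm α).symm_apply_apply y
    exact Subtype.ext (inv_mul_eq_one.mp this).symm⟩
  have := two_group_le (α := ↥W) hT
  rwa [Nat.card_coe_set_eq] at this

theorem extremal {α : Type} [Fintype α] [DecidableEq α] (hn : Nat.card α % 4 = 3) (H : Subgroup (Perm α))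
    (hH : Group.IsNilpotent H) {v : ℕ} (hc : Nat.card H = 3 * 2 ^ v) (hv : tp (Nat.card α - 3) ≤ 2 ^ (v + 1)) :
    ∃ c : Perm α, c ∈ H ∧ c.IsThreeCycle ∧ ∃ T : Subgroup (Perm α), T ≤ H ∧ IsPGroup 2 T ∧ Nat.card T = 2 ^ v ∧
      ∀ t ∈ T, ∀ x, c x ≠ x → t x = x := by
  haveI := hH
  obtain ⟨Q⟩ := (inferInstance : Nonempty (Sylow 3 H))
  obtain ⟨R⟩ := (inferInstance : Nonempty (Sylow 2 H))
  have hQ : Nat.card (Q : Subgroup H) = 3 := by
    rw [Q.card_eq_multiplicity, hc, Nat.factorization_def _ Nat.prime_three,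
      padicValNat.mul (by norm_num) (by positivity), padicValNat.self (by norm_num),
      padicValNat.eq_zero_of_not_dvd (fun h => by
        have := Nat.prime_three.dvd_of_dvd_pow h
        norm_num at this)]
    norm_num
  have hR : Nat.card (R : Subgroup H) = 2 ^ v := by
    rw [R.card_eq_multiplicity, hc, Nat.factorization_def _ Nat.prime_two,
      padicValNat.mul (by norm_num) (by positivity), padicValNat.prime_pow,
      padicValNat.eq_zero_of_not_dvd (by norm_num), zero_add]
  haveI : (Q : Subgroup H).Normal := Cfsg.Lib.Solv.normal_sylow_of_nilpotent Q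
  haveI : (R : Subgroup H).Normal := Cfsg.Lib.Solv.normal_sylow_of_nilpotent R
  have hdis := IsPGroup.disjoint_of_ne 3 2 (by norm_num) _ _ Q.isPGroup' R.isPGroup'
  haveI : Nontrivial (Q : Subgroup H) := Finite.one_lt_card_iff_nontrivial.mp (by omega)
  obtain ⟨⟨⟨c, hcH⟩, hcQ⟩, hc1⟩ := exists_ne (1 : (Q : Subgroup H))
  have hc1' : c ≠ 1 := fun h => hc1 (Subtype.ext (Subtype.ext h))
  have hc3 : orderOf c = 3 := by
    refine orderOf_eq_prime ?_ hc1'
    have := pow_card_eq_one' (x := (⟨⟨c, hcH⟩, hcQ⟩ : (Q : Subgroup H)))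
    rw [hQ] at this
    exact congrArg (fun u : (Q : Subgroup H) => ((u : H) : Perm α)) this
  let T := (R : Subgroup H).map H.subtype
  have hTH : T ≤ H := Subgroup.map_subtype_le _
  have hcomm : ∀ t ∈ T, ∀ x, t (c x) = c (t x) := by
    rintro _ ⟨r, hr, rfl⟩ x
    have := congrArg (fun u : H => (u : Perm α))
      (Subgroup.commute_of_normal_of_disjoint _ _ inferInstance inferInstance hdis ⟨c, hcH⟩ r hcQ hr).eq
    exact (congrArg (fun p : Perm α => p x) this).symm
  have hTp : IsPGroup 2 T := R.isPGroup'.map _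
  have hTc : Nat.card T = 2 ^ v := by
    rw [← hR]; exact (Nat.card_congr (Subgroup.equivMapOfInjective _ _ H.subtype_injective).toEquiv).symm
  have hbound : ∀ W : Set α, W.ncard + 4 ≤ Nat.card α → (∀ t ∈ T, ∀ y ∈ W, t y ∈ W) →
      (∀ t ∈ T, (∀ y ∈ W, t y = y) → t = 1) → False := by
    intro W hW hinv hf
    have h1 := two_le_tp T hTp W hinv hf
    have h2 := tp_mono (show W.ncard ≤ Nat.card α - 3 - 1 by omega)
    have h3 := four_mul_tp_le (m := Nat.card α - 3) (by omega) (by omega)
    have h4 := tp_pos (Nat.card α - 3 - 1)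
    rw [pow_succ] at hv
    omega
  have hcc : ∀ y, c (c (c y)) = y := fun y => by
    have := congrArg (fun p : Perm α => p y) (hc3 ▸ pow_orderOf_eq_one c : c ^ 3 = 1)
    simpa [pow_succ] using this
  -- `T` fixes every point moved by `c`
  have hfix : ∀ t ∈ T, ∀ x, c x ≠ x → t x = x := by
    intro t ht x hx
    by_contra htx
    let O : Set α := MulAction.orbit T x
    have hO2 : 2 ≤ O.ncard := by
      have : ({x, t x} : Set α) ⊆ O := by
        rintro y (rfl | rfl)
        · exact MulAction.mem_orbit_self _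
        · exact MulAction.mem_orbit x (⟨t, ht⟩ : T)
      refine le_trans ?_ (Set.ncard_le_ncard this (Set.toFinite _))
      rw [Set.ncard_pair fun h => htx h.symm]
    obtain ⟨k, hk⟩ := IsPGroup.iff_card.mp hTp
    -- `c` moves `O` off itself
    have hdisj : ∀ y ∈ O, c y ∉ O := by
      intro y hy hcy
      obtain ⟨r, hr⟩ := hy
      obtain ⟨r', hr'⟩ := hcy
      simp only [Subgroup.smul_def, Perm.smul_def] at hr hr'
      -- `c x = s x` with `s` in `T`
      have hs : c x = ((r : Perm α)⁻¹ * r') x := by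
        have := hcomm _ r.2 x
        rw [hr] at this
        rw [Perm.mul_apply, hr', ← this]
        exact ((r : Perm α).symm_apply_apply _).symm
      set s := (r : Perm α)⁻¹ * r' with hsdef
      have hsT : s ∈ T := T.mul_mem (T.inv_mem r.2) r'.2
      have hpow : ∀ j : ℕ, (s ^ j) x = (c ^ j) x := by
        intro j
        induction j with
        | zero => rfl
        | succ j ih =>
          have hcs : ∀ z, (s ^ j) (c z) = c ((s ^ j) z) := fun z => hcomm _ (T.pow_mem hsT j) z
          rw [pow_succ, Perm.mul_apply, ← hs, hcs, ih, pow_succ', Perm.mul_apply]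
      have h2k : s ^ (2 ^ k) = 1 := by
        have := pow_card_eq_one' (x := (⟨s, hsT⟩ : T))
        rw [hk] at this
        exact congrArg Subtype.val this
      have := hpow (2 ^ k)
      rw [h2k] at this
      refine hx ?_
      have h1 : (c ^ (2 ^ k % 3)) x = x := by
        rw [← hc3, pow_mod_orderOf]; exact this.symm
      have hmod : 2 ^ k % 3 = 1 ∨ 2 ^ k % 3 = 2 := by
        have : ¬ 3 ∣ 2 ^ k := fun h => by
          have := Nat.prime_three.dvd_of_dvd_pow h
          norm_num at this
        omega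
      rcases hmod with h | h <;> rw [h] at h1
      · simpa using h1
      · rw [sq, Perm.mul_apply] at h1
        have := congrArg c h1
        rw [hcc] at this
        exact this.symm
    have hinv : ∀ r ∈ T, ∀ y ∈ O, r y ∈ O := fun r hr y hy =>
      MulAction.mem_orbit_of_mem_orbit (⟨r, hr⟩ : T) hy
    have hd2 : ∀ y ∈ O, c (c y) ∉ O := fun y hy h => hdisj _ h (by rw [hcc]; exact hy)
    let W : Set α := (c '' O ∪ (fun y => c (c y)) '' O)ᶜ
    have hcard : (c '' O ∪ (fun y => c (c y)) '' O).ncard = 2 * O.ncard := by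
      rw [Set.ncard_union_eq, Set.ncard_image_of_injective _ c.injective,
        Set.ncard_image_of_injective _ (fun a b h => c.injective (c.injective h))]
      · ring
      · rw [Set.disjoint_left]
        rintro _ ⟨a, ha, rfl⟩ ⟨b, hb, h⟩
        exact hdisj b hb (c.injective h ▸ ha)
    refine hbound W ?_ ?_ ?_
    · have := Set.ncard_add_ncard_compl (c '' O ∪ (fun y => c (c y)) '' O)
      show Set.ncard (c '' O ∪ (fun y => c (c y)) '' O)ᶜ + 4 ≤ Nat.card α
      omega
    · intro r hr y hy hmem
      apply hy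
      rcases hmem with ⟨a, ha, h⟩ | ⟨a, ha, h⟩
      · refine Or.inl ⟨r⁻¹ a, hinv _ (T.inv_mem hr) a ha, ?_⟩
        rw [← hcomm _ (T.inv_mem hr), h]
        exact r.symm_apply_apply y
      · refine Or.inr ⟨r⁻¹ a, hinv _ (T.inv_mem hr) a ha, ?_⟩
        show c (c (r⁻¹ a)) = y
        rw [← hcomm _ (T.inv_mem hr), ← hcomm _ (T.inv_mem hr), show c (c a) = r y from h]
        exact r.symm_apply_apply y
    · intro r hr hW
      have hOW : ∀ a ∈ O, r a = a := fun a ha => hW a fun hmem => by
        rcases hmem with ⟨b, hb, h⟩ | ⟨b, hb, h⟩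
        · exact hdisj b hb (h ▸ ha)
        · exact hd2 b hb (by rw [show c (c b) = a from h]; exact ha)
      ext y
      by_cases hy : y ∈ W
      · exact hW y hy
      · rcases Set.notMem_compl_iff.mp hy with ⟨a, ha, rfl⟩ | ⟨a, ha, rfl⟩
        · simp only [Perm.one_apply]; rw [hcomm r hr, hOW a ha]
        · simp only [Perm.one_apply]; rw [hcomm r hr, hcomm r hr, hOW a ha]
  refine ⟨c, hcH, ?_, T, hTH, hTp, hTc, hfix⟩
  obtain ⟨j, hj⟩ := Perm.cycleType_prime_order (σ := c) (hc3 ▸ Nat.prime_three)
  rw [hc3] at hj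
  cases j with
  | zero => exact hj
  | succ j =>
    exfalso
    have hs : c.support.card = (j + 2) * 3 := by
      rw [← Perm.sum_cycleType, hj, Multiset.sum_replicate, smul_eq_mul]
    refine hbound (↑c.support)ᶜ ?_ ?_ ?_
    · have := Set.ncard_add_ncard_compl (↑c.support : Set α)
      rw [Set.ncard_coe_finset, hs] at this
      omega
    · intro r hr y hy hmem
      apply hy
      have h1 : r (r y) = r y := hfix r hr _ (Perm.mem_support.mp hmem)
      rw [r.injective h1] at hmem
      exact hmem
    · intro r hr hW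
      ext y
      by_cases hy : y ∈ c.support
      · exact hfix r hr y (Perm.mem_support.mp hy)
      · exact hW y (by simpa using hy)

variable (m : ℕ)

/-- Permutations of `Fin 3` and `Fin m` combined. -/
noncomputable def emb : Perm (Fin 3) × Perm (Fin m) →* Perm (Fin (3 + m)) :=
  (Equiv.permCongrHom finSumFinEquiv).toMonoidHom.comp (Perm.sumCongrHom (Fin 3) (Fin m))

theorem emb_injective : Function.Injective (emb m) :=
  (Equiv.permCongrHom finSumFinEquiv).injective.comp Perm.sumCongrHom_injective

theorem sign_emb (a : Perm (Fin 3) × Perm (Fin m)) : Perm.sign (emb m a) = Perm.sign a.1 * Perm.sign a.2 := by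
  rw [← Perm.sign_sumCongr]
  exact Perm.sign_permCongr _ _

theorem emb_apply_inl (a : Perm (Fin 3) × Perm (Fin m)) (i : Fin 3) :
    emb m a (finSumFinEquiv (Sum.inl i)) = finSumFinEquiv (Sum.inl (a.1 i)) := by
  simp [emb, Equiv.permCongrHom, Perm.sumCongrHom]

/-- The rotation of the first three points. -/
noncomputable def rot : Perm (Fin (3 + m)) := emb m (finRotate 3, 1)

theorem rot_isThreeCycle : (rot m).IsThreeCycle := by
  have h : orderOf (rot m) = 3 := by
    rw [rot, orderOf_injective _ (emb_injective m), Prod.orderOf_mk, orderOf_one, Nat.lcm_one_right]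
    exact orderOf_eq_prime (by decide) (by decide)
  obtain ⟨j, hj⟩ := Perm.cycleType_prime_order (σ := rot m) (by rw [h]; exact Nat.prime_three)
  rw [h] at hj
  cases j with
  | zero => exact hj
  | succ j =>
    exfalso
    have hs : (rot m).support.card = (j + 2) * 3 := by
      rw [← Perm.sum_cycleType, hj, Multiset.sum_replicate, smul_eq_mul]
    have hsub : (rot m).support ⊆ Finset.univ.image (fun i : Fin 3 => finSumFinEquiv (Sum.inl i)) := by
      intro y hy
      obtain ⟨z, rfl⟩ := finSumFinEquiv.surjective y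
      cases z with
      | inl i => exact Finset.mem_image_of_mem _ (Finset.mem_univ i)
      | inr i =>
        exfalso
        apply Perm.mem_support.mp hy
        simp [rot, emb, Equiv.permCongrHom, Perm.sumCongrHom]
    have := (Finset.card_le_card hsub).trans Finset.card_image_le
    rw [hs, Finset.card_univ, Fintype.card_fin] at this
    omega

/-- A group of extremal order containing `rot` is of product form. -/
theorem eq_prod (H T : Subgroup (Perm (Fin (3 + m)))) (hTH : T ≤ H) (hr : rot m ∈ H)
    (hc : Nat.card H = 3 * Nat.card T) (hfix : ∀ t ∈ T, ∀ x, rot m x ≠ x → t x = x) :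
    ∃ T' : Subgroup (Perm (Fin m)), Nat.card T' = Nat.card T ∧
      T'.map ((emb m).comp (MonoidHom.inr _ _)) = T ∧
      ((Subgroup.zpowers (finRotate 3)).prod T').map (emb m) = H := by
  let ι := (emb m).comp (MonoidHom.inr (Perm (Fin 3)) (Perm (Fin m)))
  have hι : Function.Injective ι := (emb_injective m).comp fun a b h => congrArg Prod.snd h
  have hle : T ≤ ι.range := by
    intro t ht
    have hinl : ∀ i : Fin 3, t (finSumFinEquiv (Sum.inl i)) = finSumFinEquiv (Sum.inl i) := by
      intro i
      refine hfix t ht _ ?_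
      rw [rot, emb_apply_inl]
      intro h
      have := Sum.inl_injective (finSumFinEquiv.injective h)
      simp only at this
      have key : ∀ j : Fin 3, finRotate 3 j ≠ j := by decide
      exact key i this
    obtain ⟨⟨a, b⟩, hab⟩ := Perm.mem_sumCongrHom_range_of_perm_mapsTo_inl
      (σ := (Equiv.permCongrHom finSumFinEquiv).symm t) (by
        rintro _ ⟨i, rfl⟩
        refine ⟨i, ?_⟩
        show Sum.inl i = finSumFinEquiv.symm (t (finSumFinEquiv (Sum.inl i)))
        rw [hinl i, Equiv.symm_apply_apply])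
    have he : emb m (a, b) = t := by
      show Equiv.permCongrHom finSumFinEquiv (Perm.sumCongrHom _ _ (a, b)) = t
      rw [hab]; exact (Equiv.permCongrHom finSumFinEquiv).apply_symm_apply t
    have ha : a = 1 := by
      ext1 i
      have := hinl i
      rw [← he, emb_apply_inl] at this
      exact Sum.inl_injective (finSumFinEquiv.injective this)
    exact ⟨b, by rw [← he, ha]; rfl⟩
  have hmap : (T.comap ι).map ι = T := by rw [Subgroup.map_comap_eq, inf_eq_right.mpr hle]
  have hcard : Nat.card (T.comap ι) = Nat.card T := by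
    conv_rhs => rw [← hmap]
    exact Nat.card_congr (Subgroup.equivMapOfInjective _ _ hι).toEquiv
  refine ⟨T.comap ι, hcard, hmap, Subgroup.eq_of_le_of_card_ge ?_ ?_⟩
  · rintro _ ⟨⟨a, b⟩, ⟨ha, hb⟩, rfl⟩
    obtain ⟨i, rfl⟩ := Subgroup.mem_zpowers_iff.mp ha
    rw [show ((finRotate 3) ^ i, b) = (finRotate 3, 1) ^ i * (1, b) by ext1 <;> simp, map_mul, map_zpow]
    exact H.mul_mem (H.zpow_mem hr i) (hTH hb)
  · rw [← Nat.card_congr (Subgroup.equivMapOfInjective _ _ (emb_injective m)).toEquiv,
      Nat.card_congr (Subgroup.prodEquiv _ _).toEquiv, Nat.card_prod, hcard, Nat.card_zpowers,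
      show orderOf (finRotate 3) = 3 from orderOf_eq_prime (by decide) (by decide), hc]

end Cfsg.Lib.PermGroup.NilpotentBound
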