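import Mathlib
import Cfsg.Prelude.Def_Perm
import Cfsg.Agent.Lib.Characters.Basic

/-! Permutation characters of transitive groups: rank, subdegrees and multiplicities. -/

set_option linter.unusedSectionVars false
set_option linter.style.haveILetI false

namespace Cfsg.Agent.PermCharacter

open MulAction Finset Cfsg
open scoped ComplexConjugate Classical

attribute [local instance 10] Classical.propDecidable

variable {G : Type*} [Group G] [Fintype G] {Ω : Type*} [Fintype Ω] [MulAction G Ω]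

/-- The permutation character. -/
noncomputable def permChar (G : Type*) [Group G] (Ω : Type*) [MulAction G Ω] : G → ℂ :=
  fun g => (Nat.card (fixedBy Ω g) : ℂ)

theorem permRep_character : (Cfsg.permRep ℂ G Ω).character = permChar G Ω := by
  classical
  funext g
  rw [Representation.character, LinearMap.trace_eq_matrix_trace ℂ (Pi.basisFun ℂ Ω), Matrix.trace,
    permChar, Nat.card_eq_fintype_card, Fintype.card_subtype]
  simp only [Matrix.diag, LinearMap.toMatrix_apply, Pi.basisFun_repr, Pi.basisFun_apply]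
  have : ∀ x : Ω, Cfsg.permRep ℂ G Ω g (Pi.single x 1) x = if g • x = x then (1 : ℂ) else 0 := by
    intro x
    show (Pi.single x (1 : ℂ) : Ω → ℂ) (g⁻¹ • x) = _
    rw [Pi.single_apply]
    simp only [inv_smul_eq_iff, eq_comm (a := x)]
  simp only [this, Finset.sum_boole]
  congr 2

theorem isCharacter_permChar : IsCharacter G (permChar G Ω) := by
  rw [← permRep_character]
  exact Cfsg.Lib.Characters.isCharacter_character _

variable [IsPretransitive G Ω]

theorem card_G (a : Ω) : Nat.card G = Fintype.card Ω * Nat.card (stabilizer G a) := by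
  rw [← Nat.card_eq_fintype_card, ← MulAction.index_stabilizer_of_transitive G a,
    Subgroup.index_mul_card]

/-- Sums of class functions over the graph of an orbital. -/
theorem sum_orbital (a b : Ω) (F : G → ℂ) (hF : ∀ g h : G, F (h * g * h⁻¹) = F g) :
    ∑ g : G, (Nat.card {x : Ω // ∃ k : G, k • a = x ∧ k • b = g • x} : ℂ) * F g =
      (Fintype.card Ω : ℂ) *
        ∑ g : G, (if g • a ∈ orbit (stabilizer G a) b then F g else 0) := by
  classical
  calc ∑ g : G, (Nat.card {x : Ω // ∃ k : G, k • a = x ∧ k • b = g • x} : ℂ) * F g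
      = ∑ x : Ω, ∑ g : G, (if ∃ k : G, k • a = x ∧ k • b = g • x then F g else 0) := by
        rw [Finset.sum_comm]
        refine Finset.sum_congr rfl fun g _ => ?_
        rw [Nat.card_eq_fintype_card, Fintype.card_subtype, ← Finset.sum_filter, Finset.sum_const,
          nsmul_eq_mul]
    _ = ∑ _x : Ω, ∑ g : G, (if g • a ∈ orbit (stabilizer G a) b then F g else 0) := by
        refine Finset.sum_congr rfl fun x _ => ?_
        obtain ⟨k, rfl⟩ := exists_smul_eq G a x
        rw [← Equiv.sum_comp (MulAut.conj k).toEquiv]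
        refine Finset.sum_congr rfl fun g _ => ?_
        simp only [MulEquiv.toEquiv_eq_coe, MulEquiv.coe_toEquiv, MulAut.conj_apply, hF]
        congr 1
        apply propext
        constructor
        · rintro ⟨m, hm1, hm2⟩
          refine ⟨⟨k⁻¹ * m, ?_⟩, ?_⟩
          · rw [mem_stabilizer_iff, mul_smul, hm1, inv_smul_smul]
          · show (k⁻¹ * m) • b = g • a
            rw [mul_smul, hm2, mul_smul, mul_smul, inv_smul_smul, inv_smul_smul]
        · rintro ⟨⟨h, hh⟩, hhb⟩
          refine ⟨k * h, by rw [mul_smul, (mem_stabilizer_iff.mp hh)], ?_⟩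
          rw [mul_smul, show h • b = g • a from hhb, mul_smul, mul_smul, inv_smul_smul]
    _ = _ := by rw [Finset.sum_const, Finset.card_univ, nsmul_eq_mul]

/-- The class function attached to the orbital of `(a, b)`. -/
noncomputable def orbFun (G : Type*) [Group G] {Ω : Type*} [MulAction G Ω] (a b : Ω) : G → ℂ :=
  fun g => (Nat.card {x : Ω // ∃ k : G, k • a = x ∧ k • b = g • x} : ℂ)

theorem isClassFunction_orbFun (a b : Ω) : IsClassFunction G (orbFun G a b) := by
  intro g h
  unfold orbFun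
  congr 1
  refine Nat.card_congr (Equiv.subtypeEquiv (MulAction.toPerm h) fun x => ?_).symm
  simp only [MulAction.toPerm_apply]
  constructor
  · rintro ⟨k, h1, h2⟩
    exact ⟨h * k, by rw [mul_smul, h1], by rw [mul_smul, h2, mul_smul, mul_smul, inv_smul_smul]⟩
  · rintro ⟨k, h1, h2⟩
    refine ⟨h⁻¹ * k, by rw [mul_smul, h1, inv_smul_smul], ?_⟩
    rw [mul_smul, h2, mul_smul, mul_smul, inv_smul_smul, inv_smul_smul]

theorem classInner_orbFun (a b : Ω) {χ : G → ℂ} (hχ : IsClassFunction G χ) :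
    classInner (orbFun G a b) χ = (Nat.card (stabilizer G a) : ℂ)⁻¹ *
      ∑ g : G, (if g • a ∈ orbit (stabilizer G a) b then conj (χ g) else 0) := by
  have hn : (Fintype.card Ω : ℂ) ≠ 0 :=
    Nat.cast_ne_zero.mpr (Fintype.card_pos_iff.mpr ⟨a⟩).ne'
  rw [classInner, show (∑ g : G, orbFun G a b g * conj (χ g)) = _ from
    sum_orbital a b (fun g => conj (χ g)) (fun g h => by show conj (χ _) = _; rw [hχ g h]),
    card_G a, Nat.cast_mul, mul_inv, ← mul_assoc, mul_comm ((Fintype.card Ω : ℂ)⁻¹) _,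
    mul_assoc (Nat.card (stabilizer G a) : ℂ)⁻¹, inv_mul_cancel₀ hn, mul_one]

theorem orbFun_self (a : Ω) : orbFun G a a = permChar G Ω := by
  funext g
  unfold orbFun permChar
  congr 1
  refine Nat.card_congr (Equiv.subtypeEquivRight fun x => ?_)
  rw [MulAction.mem_fixedBy]
  exact ⟨fun ⟨k, h1, h2⟩ => h2.symm.trans h1,
    fun h => let ⟨k, hk⟩ := exists_smul_eq G a x; ⟨k, hk, hk.trans h.symm⟩⟩

theorem classInner_permChar (a : Ω) {χ : G → ℂ} (hχ : IsClassFunction G χ) :
    classInner (permChar G Ω) χ = (Nat.card (stabilizer G a) : ℂ)⁻¹ *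
      ∑ h : stabilizer G a, conj (χ h) := by
  classical
  rw [← orbFun_self a, classInner_orbFun a a hχ]
  congr 1
  have horb : ∀ g : G, g • a ∈ orbit (stabilizer G a) a ↔ g ∈ stabilizer G a := by
    intro g
    rw [mem_stabilizer_iff]
    constructor
    · rintro ⟨h, hh⟩
      exact hh.symm.trans h.2
    · intro h; rw [h]; exact mem_orbit_self a
  simp only [horb]
  rw [← Finset.sum_filter]
  exact (Finset.sum_subtype _ (fun g => by simp) (fun g => conj (χ g)))

theorem classInner_permChar_one (a : Ω) :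
    classInner (permChar G Ω) (fun _ => (1 : ℂ)) = 1 := by
  rw [classInner_permChar a (fun _ _ => rfl)]
  simp [Finset.card_univ, Nat.card_eq_fintype_card]
  exact inv_mul_cancel₀ (Nat.cast_ne_zero.mpr (Fintype.card_pos_iff.mpr ⟨⟨1, one_smul G a⟩⟩).ne')

theorem classInner_permChar_self (a : Ω) : classInner (permChar G Ω) (permChar G Ω) =
    (Nat.card (orbitRel.Quotient (stabilizer G a) Ω) : ℂ) := by
  classical
  rw [classInner_permChar a
    (Cfsg.Lib.Characters.isClassFunction_of_isCharacter isCharacter_permChar)]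
  have key : ∑ h : stabilizer G a, conj (permChar G Ω (h : G)) =
      ((∑ h : stabilizer G a, Fintype.card (fixedBy Ω h) : ℕ) : ℂ) := by
    rw [Nat.cast_sum]
    refine Finset.sum_congr rfl fun h _ => ?_
    simp [permChar, ← Nat.card_eq_fintype_card]
    rfl
  rw [key, MulAction.sum_card_fixedBy_eq_card_orbits_mul_card_group]
  rw [Nat.cast_mul, ← Nat.card_eq_fintype_card (α := stabilizer G a),
    ← Nat.card_eq_fintype_card, mul_comm, mul_assoc,
    mul_inv_cancel₀ (Nat.cast_ne_zero.mpr Nat.card_pos.ne'), mul_one]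

/-- Integer combinations of group elements that are bi-invariant under `H`. -/
def biInv (H : Subgroup G) : Submodule ℤ (G → ℤ) where
  carrier := {w | ∀ h ∈ H, ∀ g, w (h * g) = w g ∧ w (g * h) = w g}
  add_mem' := fun {u v} hu hv h hh g => by
    simp only [Pi.add_apply, (hu h hh g).1, (hu h hh g).2, (hv h hh g).1, (hv h hh g).2, and_self]
  zero_mem' := fun h _ g => ⟨rfl, rfl⟩
  smul_mem' := fun c u hu h hh g => by
    simp only [Pi.smul_apply, (hu h hh g).1, (hu h hh g).2, and_self]

theorem sum_right_invariant (H : Subgroup G) (F : G → ℤ) (hF : ∀ h ∈ H, ∀ g, F (g * h) = F g) :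
    ∑ g : G, F g = (Nat.card H : ℤ) * ∑ q : G ⧸ H, F q.out := by
  classical
  rw [← Finset.sum_fiberwise' (g := fun g : G => (g : G ⧸ H)) (f := fun q => F q.out) univ |>.trans
    (Finset.sum_congr rfl fun g _ => ?_), Finset.mul_sum]
  · refine Finset.sum_congr rfl fun q _ => ?_
    rw [Finset.sum_const, nsmul_eq_mul]
    congr 1
    rw [Nat.cast_inj]
    rw [← Fintype.card_subtype, ← Nat.card_eq_fintype_card]
    refine Nat.card_congr
      { toFun := fun g => ⟨q.out⁻¹ * (g : G), QuotientGroup.eq.mp (q.out_eq'.trans g.2.symm)⟩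
        invFun := fun h => ⟨q.out * h, by rw [QuotientGroup.mk_mul_of_mem _ h.2, QuotientGroup.out_eq']⟩
        left_inv := fun g => Subtype.ext (mul_inv_cancel_left _ _)
        right_inv := fun h => Subtype.ext (inv_mul_cancel_left _ _) }
  · have := (g : G ⧸ H).out_eq'
    rw [QuotientGroup.eq] at this
    show F (g : G ⧸ H).out = F g
    rw [← hF _ this (g : G ⧸ H).out, mul_inv_cancel_left]

variable {n : ℕ} (ρ : Representation ℂ G (Fin n → ℂ))

/-- The operator of a weight, normalised by `|H|`. -/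
noncomputable def opLin (H : Subgroup G) : (G → ℤ) →ₗ[ℤ] Module.End ℂ (Fin n → ℂ) where
  toFun w := (Nat.card H : ℂ)⁻¹ • ∑ g : G, (w g : ℂ) • ρ g⁻¹
  map_add' u v := by simp [add_smul, Finset.sum_add_distrib, smul_add]
  map_smul' c u := by
    simp only [Pi.smul_apply, smul_eq_mul, Int.cast_mul, mul_smul, ← Finset.smul_sum,
      RingHom.id_apply]
    rw [smul_comm, Int.cast_smul_eq_zsmul]

theorem opLin_mul (H : Subgroup G) {u v : G → ℤ} (hu : u ∈ biInv H) (hv : v ∈ biInv H) :
    ∃ w ∈ biInv H, opLin ρ H u * opLin ρ H v = opLin ρ H w := by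
  classical
  refine ⟨fun y => ∑ q : G ⧸ H, v q.out * u (q.out⁻¹ * y), fun h hh y => ⟨?_, ?_⟩, ?_⟩
  · have key : ∀ y, ∑ x : G, v x * u (x⁻¹ * y) = (Nat.card H : ℤ) * ∑ q : G ⧸ H, v q.out * u (q.out⁻¹ * y) :=
      fun y => sum_right_invariant H (fun x => v x * u (x⁻¹ * y)) fun k hk x => by
        show v (x * k) * u ((x * k)⁻¹ * y) = v x * u (x⁻¹ * y)
        rw [(hv k hk x).2, mul_inv_rev, mul_assoc, (hu k⁻¹ (H.inv_mem hk) _).1]
    have hH : (Nat.card H : ℤ) ≠ 0 := Nat.cast_ne_zero.mpr Nat.card_pos.ne'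
    apply mul_left_cancel₀ hH
    rw [← key, ← key, ← Equiv.sum_comp (Equiv.mulLeft h)]
    refine Finset.sum_congr rfl fun x _ => ?_
    simp only [Equiv.coe_mulLeft]
    rw [(hv h hh x).1]
    congr 2
    group
  · refine Finset.sum_congr rfl fun q _ => ?_
    rw [← mul_assoc, (hu h hh _).2]
  · have key : ∀ y, ∑ x : G, v x * u (x⁻¹ * y) = (Nat.card H : ℤ) * ∑ q : G ⧸ H, v q.out * u (q.out⁻¹ * y) :=
      fun y => sum_right_invariant H (fun x => v x * u (x⁻¹ * y)) fun k hk x => by
        show v (x * k) * u ((x * k)⁻¹ * y) = v x * u (x⁻¹ * y)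
        rw [(hv k hk x).2, mul_inv_rev, mul_assoc, (hu k⁻¹ (H.inv_mem hk) _).1]
    have hH : (Nat.card H : ℂ) ≠ 0 := Nat.cast_ne_zero.mpr Nat.card_pos.ne'
    show ((Nat.card H : ℂ)⁻¹ • ∑ g : G, (u g : ℂ) • ρ g⁻¹) * ((Nat.card H : ℂ)⁻¹ • ∑ g : G, (v g : ℂ) • ρ g⁻¹) = (Nat.card H : ℂ)⁻¹ • ∑ y : G, ((∑ q : G ⧸ H, v q.out * u (q.out⁻¹ * y) : ℤ) : ℂ) • ρ y⁻¹
    rw [smul_mul_smul_comm, Finset.sum_mul_sum]
    have h1 : ∀ y, ((∑ q : G ⧸ H, v q.out * u (q.out⁻¹ * y) : ℤ) : ℂ)
        = (Nat.card H : ℂ)⁻¹ * ∑ x : G, (v x : ℂ) * (u (x⁻¹ * y) : ℂ) := by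
      intro y
      rw [eq_inv_mul_iff_mul_eq₀ hH]
      have := congrArg (fun z : ℤ => (z : ℂ)) (key y)
      simp only [Int.cast_sum, Int.cast_mul, Int.cast_natCast] at this
      rw [this, Int.cast_sum]
      simp
    simp only [h1, mul_smul, ← Finset.smul_sum, Finset.sum_smul]
    congr 2
    rw [Finset.sum_comm]
    conv_rhs => rw [Finset.sum_comm]
    refine Finset.sum_congr rfl fun x _ => ?_
    conv_rhs => rw [← Equiv.sum_comp (Equiv.mulLeft x)]
    refine Finset.sum_congr rfl fun g _ => ?_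
    simp only [Equiv.coe_mulLeft, inv_mul_cancel_left]
    rw [smul_mul_smul_comm, mul_inv_rev, map_mul, smul_smul, mul_comm (u g : ℂ)]

theorem isIntegral_trace_opLin (H : Subgroup G) {w : G → ℤ} (hw : w ∈ biInv H) :
    IsIntegral ℤ (LinearMap.trace ℂ (Fin n → ℂ) (opLin ρ H w)) := by
  classical
  set N := (biInv H).map (opLin ρ H) with hN
  set P := N ⊔ Submodule.span ℤ {(1 : Module.End ℂ (Fin n → ℂ))} with hP
  have hNfg : N.FG := (IsNoetherian.noetherian (biInv H)).map _
  have hPfg : P.FG := hNfg.sup (Submodule.fg_span_singleton _)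
  have hone : (1 : Module.End ℂ (Fin n → ℂ)) ∈ P :=
    Submodule.mem_sup_right (Submodule.mem_span_singleton_self _)
  have hmul : ∀ x y, x ∈ P → y ∈ P → x * y ∈ P := by
    intro x y hx hy
    obtain ⟨x₁, hx₁, x₂, hx₂, rfl⟩ := Submodule.mem_sup.mp hx
    obtain ⟨y₁, hy₁, y₂, hy₂, rfl⟩ := Submodule.mem_sup.mp hy
    obtain ⟨k, rfl⟩ := Submodule.mem_span_singleton.mp hx₂
    obtain ⟨l, rfl⟩ := Submodule.mem_span_singleton.mp hy₂
    obtain ⟨u, hu, rfl⟩ := hx₁
    obtain ⟨v, hv, rfl⟩ := hy₁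
    obtain ⟨w', hw', he⟩ := opLin_mul ρ H hu hv
    rw [add_mul, mul_add, mul_add, smul_one_mul, smul_one_mul, mul_smul_one, he]
    refine P.add_mem (P.add_mem ?_ ?_) (P.add_mem ?_ ?_)
    · exact Submodule.mem_sup_left ⟨w', hw', rfl⟩
    · exact P.smul_mem _ (Submodule.mem_sup_left ⟨u, hu, rfl⟩)
    · exact P.smul_mem _ (Submodule.mem_sup_left ⟨v, hv, rfl⟩)
    · exact P.smul_mem _ (P.smul_mem _ hone)
  have hint : IsIntegral ℤ (opLin ρ H w) :=
    IsIntegral.of_mem_of_fg (P.toSubalgebra hone hmul) (by rwa [Submodule.toSubalgebra_toSubmodule])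
      _ (Submodule.mem_sup_left ⟨w, hw, rfl⟩)
  let e := (LinearMap.toMatrixAlgEquiv (Pi.basisFun ℂ (Fin n)))
  have hA : IsIntegral ℤ (e (opLin ρ H w)) := hint.map (e.toAlgHom.restrictScalars ℤ)
  rw [LinearMap.trace_eq_matrix_trace ℂ (Pi.basisFun ℂ (Fin n))]
  show IsIntegral ℤ (Matrix.trace (e (opLin ρ H w)))
  rw [Matrix.trace_eq_sum_roots_charpoly]
  refine IsIntegral.multiset_sum fun μ hμ => ?_
  obtain ⟨p, hp, hpe⟩ := hA
  refine ⟨p, hp, ?_⟩
  rcases isEmpty_or_nonempty (Fin n) with hemp | hne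
  · simp [Matrix.charpoly] at hμ
  have hμ' : μ ∈ spectrum ℂ (e (opLin ρ H w)) :=
    Matrix.mem_spectrum_iff_isRoot_charpoly.mpr ((Polynomial.mem_roots'.mp hμ).2)
  have := spectrum.subset_polynomial_aeval (e (opLin ρ H w)) (p.map (algebraMap ℤ ℂ))
    ⟨μ, hμ', rfl⟩
  rw [Polynomial.aeval_map_algebraMap, Polynomial.aeval_def, hpe, spectrum.zero_eq,
    Set.mem_singleton_iff] at this
  simpa [Polynomial.eval_map] using this

theorem coeff_orbFun (a b : Ω) :
    IsIntegral ℤ (classInner (orbFun G a b) ρ.character) ∧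
      (classInner (permChar G Ω) ρ.character = 0 → classInner (orbFun G a b) ρ.character = 0) := by
  classical
  set H := stabilizer G a with hH
  have hχ := Cfsg.Lib.Characters.isClassFunction_of_isCharacter
    (Cfsg.Lib.Characters.isCharacter_character ρ)
  let w : G → ℤ := fun g => if g • a ∈ orbit H b then 1 else 0
  have hw : w ∈ biInv H := by
    intro h hh g
    constructor
    · simp only [w, mul_smul]
      have : h • g • a ∈ orbit H b ↔ g • a ∈ orbit H b := by
        constructor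
        · intro hm
          have := MulAction.mem_orbit_of_mem_orbit (⟨h, hh⟩ : H)⁻¹ hm
          simpa [Subgroup.smul_def] using this
        · intro hm
          exact MulAction.mem_orbit_of_mem_orbit (⟨h, hh⟩ : H) hm
      simp only [this]
    · simp only [w, mul_smul, mem_stabilizer_iff.mp hh]
  have hval : classInner (orbFun G a b) ρ.character =
      LinearMap.trace ℂ (Fin n → ℂ) (opLin ρ H w) := by
    rw [classInner_orbFun a b hχ]
    show _ = LinearMap.trace ℂ (Fin n → ℂ) ((Nat.card H : ℂ)⁻¹ • ∑ g : G, (w g : ℂ) • ρ g⁻¹)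
    rw [map_smul, map_sum, smul_eq_mul]
    congr 1
    refine Finset.sum_congr rfl fun g _ => ?_
    rw [map_smul, smul_eq_mul]
    simp only [w]
    split_ifs with hg
    · rw [Int.cast_one, one_mul,
        ← Cfsg.Lib.Characters.char_inv_eq_conj (Cfsg.Lib.Characters.isCharacter_character ρ)]
      rfl
    · simp
  refine ⟨hval ▸ isIntegral_trace_opLin ρ H hw, fun h0 => ?_⟩
  -- the averaging projection over `H` vanishes
  set e : Module.End ℂ (Fin n → ℂ) := (Nat.card H : ℂ)⁻¹ • ∑ h : H, ρ (h : G) with he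
  have hHne : (Nat.card H : ℂ) ≠ 0 := Nat.cast_ne_zero.mpr Nat.card_pos.ne'
  have habs : ∀ k : H, ρ (k : G) * e = e := by
    intro k
    rw [he, mul_smul_comm, Finset.mul_sum]
    congr 1
    rw [← Equiv.sum_comp (Equiv.mulLeft k) (fun h : H => ρ (h : G))]
    exact Finset.sum_congr rfl fun h _ => by simp [map_mul]
  have hidem : IsIdempotentElem e := by
    show e * e = e
    conv_lhs => arg 1; rw [he]
    rw [smul_mul_assoc, Finset.sum_mul, Finset.sum_congr rfl (fun k _ => habs k), Finset.sum_const,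
      Finset.card_univ, ← Nat.cast_smul_eq_nsmul ℂ, smul_smul, ← Nat.card_eq_fintype_card,
      inv_mul_cancel₀ hHne, one_smul]
  have htr : LinearMap.trace ℂ (Fin n → ℂ) e = 0 := by
    rw [classInner_permChar a hχ] at h0
    have h0' := congrArg conj h0
    simp only [map_mul, map_inv₀, map_natCast, map_sum, Complex.conj_conj, map_zero] at h0'
    rw [he, map_smul, map_sum, smul_eq_mul]
    exact h0'
  have he0 : e = 0 := by
    obtain ⟨p, hproj⟩ := (LinearMap.isProj_iff_isIdempotentElem e).mpr hidem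
    rw [hproj.trace] at htr
    have : p = ⊥ := Submodule.finrank_eq_zero.mp (by exact_mod_cast htr)
    exact LinearMap.ext fun v => by
      have := hproj.map_mem v
      rw [‹p = ⊥›, Submodule.mem_bot] at this
      simpa using this
  rw [hval]
  have : opLin ρ H w = opLin ρ H w * e := by
    show (Nat.card H : ℂ)⁻¹ • (∑ g : G, (w g : ℂ) • ρ g⁻¹) = ((Nat.card H : ℂ)⁻¹ • ∑ g : G, (w g : ℂ) • ρ g⁻¹) * e
    rw [he, smul_mul_smul_comm, Finset.mul_sum]
    have : ∀ h : H, (∑ g : G, (w g : ℂ) • ρ g⁻¹) * ρ (h : G) = ∑ g : G, (w g : ℂ) • ρ g⁻¹ := by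
      intro h
      rw [Finset.sum_mul, ← Equiv.sum_comp (Equiv.mulLeft (h : G))]
      refine Finset.sum_congr rfl fun g _ => ?_
      rw [Equiv.coe_mulLeft, (hw h h.2 g).1, smul_mul_assoc, ← map_mul]
      congr 2
      group
    rw [Finset.sum_congr rfl (fun h _ => this h), Finset.sum_const, Finset.card_univ,
      ← Nat.cast_smul_eq_nsmul ℂ, smul_smul, ← Nat.card_eq_fintype_card, mul_assoc,
      inv_mul_cancel₀ hHne, mul_one]
  rw [this, he0, mul_zero, map_zero]

end Cfsg.Agent.PermCharacter
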