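/-
Overgroups of Sylow 2-subgroups of symmetric and alternating groups.
-/
import Mathlib

set_option autoImplicit false

namespace Cfsg.Lib.PermGroup.SylowTwo

open Equiv MulAction
open scoped Pointwise Classical Nat

variable {n : ℕ}

theorem odd_choose_two_pow (i : ℕ) : ∀ n : ℕ, Odd (n.choose (2 ^ i)) ↔ (n / 2 ^ i) % 2 = 1 := by
  induction i with
  | zero => intro n; simp [Nat.odd_iff]
  | succ i ih =>
    intro n
    haveI : Fact (Nat.Prime 2) := ⟨Nat.prime_two⟩
    have h := Choose.choose_modEq_choose_mod_mul_choose_div_nat (p := 2) (n := n) (k := 2 ^ (i + 1))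
    rw [pow_succ', Nat.mul_mod_right, Nat.mul_div_cancel_left _ two_pos, Nat.choose_zero_right, one_mul] at h
    rw [pow_succ', ← Nat.div_div_eq_div_mul, ← ih (n / 2), Nat.odd_iff, Nat.odd_iff]
    rw [Nat.ModEq] at h
    rw [h]

theorem exists_conj_le {G : Type*} [Group G] [Finite G] {p : ℕ} [Fact p.Prime] (S : Sylow p G) {K : Subgroup G}
    (hK : ¬ p ∣ K.index) : ∃ g : G, ∀ x ∈ S, g⁻¹ * x * g ∈ K := by
  have hP : IsPGroup p ((default : Sylow p K) : Subgroup K) := (default : Sylow p K).isPGroup'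
  obtain ⟨T, hT⟩ := (hP.map K.subtype).exists_le_sylow
  have hcard : Nat.card (((default : Sylow p K) : Subgroup K).map K.subtype) = Nat.card (T : Subgroup G) := by
    rw [Subgroup.card_map_of_injective K.subtype_injective, Sylow.card_eq_multiplicity, Sylow.card_eq_multiplicity]
    congr 1
    rw [← K.card_mul_index, Nat.factorization_mul Nat.card_pos.ne' K.index_ne_zero_of_finite, Finsupp.add_apply,
      Nat.factorization_eq_zero_of_not_dvd hK, add_zero]
  have hTK : (T : Subgroup G) ≤ K := by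
    rw [← Subgroup.eq_of_le_of_card_ge hT hcard.ge]
    exact Subgroup.map_subtype_le _
  obtain ⟨g, hg⟩ := exists_smul_eq G T S
  refine ⟨g, fun x hx => hTK ?_⟩
  have hx' : x ∈ ((g • T : Sylow p G) : Subgroup G) := by rw [hg]; exact hx
  rw [Sylow.coe_subgroup_smul, Subgroup.mem_pointwise_smul_iff_inv_smul_mem] at hx'
  simpa [MulAut.conj_symm_apply, MulDistribMulAction.toMulAut] using hx'

theorem index_stabilizer_set (s : Set (Fin n)) :
    (stabilizer (Perm (Fin n)) s).index = n.choose s.ncard := by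
  rw [index_stabilizer]
  have e : orbit (Perm (Fin n)) s = {t : Set (Fin n) | t.ncard = s.ncard} := by
    ext t
    constructor
    · rintro ⟨g, rfl⟩
      show (g • s).ncard = s.ncard
      exact Set.ncard_image_of_injective s (MulAction.injective g)
    · intro ht
      obtain ⟨e⟩ : Nonempty (↥s ≃ ↥t) :=
        Finite.card_eq.1 (by rw [Nat.card_coe_set_eq, Nat.card_coe_set_eq]; exact Eq.symm ht)
      refine ⟨e.extendSubtype, ?_⟩
      ext x
      constructor
      · rintro ⟨y, hy, rfl⟩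
        exact Equiv.extendSubtype_mem e y hy
      · intro hx
        refine ⟨e.extendSubtype.symm x, ?_, e.extendSubtype.apply_symm_apply x⟩
        by_contra hy
        exact Equiv.extendSubtype_not_mem e _ hy (by rwa [Equiv.apply_symm_apply])
  rw [e, ← Nat.card_coe_set_eq]
  have h2 := Finset.card_powersetCard s.ncard (Finset.univ : Finset (Fin n))
  rw [Finset.card_univ, Fintype.card_fin] at h2
  rw [← h2, ← Nat.card_eq_finsetCard]
  refine Nat.card_congr
    { toFun := fun t => ⟨(t : Set (Fin n)).toFinset, Finset.mem_powersetCard.2 ⟨Finset.subset_univ _, by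
        rw [← Set.ncard_eq_toFinset_card' (t : Set (Fin n))]; exact t.2⟩⟩
      invFun := fun f => ⟨((f : Finset (Fin n)) : Set (Fin n)), by
        show Set.ncard _ = _
        rw [Set.ncard_coe_finset]; exact (Finset.mem_powersetCard.1 f.2).2⟩
      left_inv := fun t => Subtype.ext (Set.coe_toFinset _)
      right_inv := fun f => Subtype.ext (Finset.ext fun x => by simp) }

theorem exists_set (S : Sylow 2 (Perm (Fin n))) {i : ℕ} (hi : (n / 2 ^ i) % 2 = 1) :
    ∃ s : Set (Fin n), s.ncard = 2 ^ i ∧ (S : Subgroup (Perm (Fin n))) ≤ stabilizer (Perm (Fin n)) s := by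
  have hle : 2 ^ i ≤ n := by
    by_contra hlt
    rw [Nat.div_eq_of_lt (by omega)] at hi
    simp at hi
  obtain ⟨f, -, hf⟩ := Finset.exists_subset_card_eq (s := (Finset.univ : Finset (Fin n))) (n := 2 ^ i)
    (by simpa using hle)
  obtain ⟨g, hg⟩ := exists_conj_le S (K := stabilizer (Perm (Fin n)) (f : Set (Fin n))) (by
    rw [index_stabilizer_set, Set.ncard_coe_finset, hf, Nat.two_dvd_ne_zero]
    exact Nat.odd_iff.1 ((odd_choose_two_pow i n).2 hi))
  refine ⟨g • (f : Set (Fin n)), ?_, fun x hx => ?_⟩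
  · rw [← Set.ncard_coe_finset f] at hf
    rw [← hf]
    exact Set.ncard_image_of_injective _ (MulAction.injective g)
  · have h := mem_stabilizer_iff.1 (hg x hx)
    rw [mem_stabilizer_iff]
    calc x • g • (f : Set (Fin n)) = g • ((g⁻¹ * x * g) • (f : Set (Fin n))) := by
          rw [← mul_smul, ← mul_smul]; congr 1; group
      _ = _ := by rw [h]

/-- an involution interchanging neighbours -/
def nb (n : ℕ) (x : Fin n) : Fin n :=
  if h : (x : ℕ) % 2 = 0 then (if h1 : (x : ℕ) + 1 < n then ⟨x + 1, h1⟩ else x)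
  else ⟨x - 1, by have := x.2; omega⟩

theorem nb_nb (x : Fin n) : nb n (nb n x) = x := by
  refine Fin.ext ?_
  have hx := x.2
  unfold nb
  split_ifs <;> simp only [] at * <;> omega

theorem nb_eq_iff (x : Fin n) : nb n x = x ↔ (x : ℕ) % 2 = 0 ∧ (x : ℕ) + 1 = n := by
  have hx := x.2
  rw [Fin.ext_iff]
  unfold nb
  split_ifs <;> constructor <;> intro h' <;> simp only [] at * <;> omega

theorem exists_inv (S : Sylow 2 (Perm (Fin n))) :
    ∃ τ : Perm (Fin n), (∀ x, τ (τ x) = x) ∧ (Even n → ∀ x, τ x ≠ x) ∧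
      (¬ Even n → ∃ c, τ c = c ∧ ∀ x, τ x = x → x = c) ∧
      (∀ g ∈ S, ∀ x, g (τ x) = τ (g x)) ∧ ∀ p, swap p (τ p) ∈ S := by
  let t0 : Perm (Fin n) := ⟨nb n, nb n, nb_nb, nb_nb⟩
  have hsupp : t0.support.card = 2 * (n / 2) := by
    rcases Nat.even_or_odd n with he | ho
    · rw [show t0.support = Finset.univ from Finset.eq_univ_iff_forall.2 fun x => Perm.mem_support.2 fun e => by
        have := (nb_eq_iff x).1 e; rw [Nat.even_iff] at he; omega, Finset.card_univ, Fintype.card_fin]
      rw [Nat.even_iff] at he; omega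
    · rw [Nat.odd_iff] at ho
      rw [show t0.support = Finset.univ.erase ⟨n - 1, by omega⟩ by
        ext x
        rw [Perm.mem_support, Finset.mem_erase]
        show nb n x ≠ x ↔ _
        rw [ne_eq, nb_eq_iff, ne_eq, Fin.ext_iff]
        have := x.2
        simp only [Finset.mem_univ, and_true]
        omega, Finset.card_erase_of_mem (Finset.mem_univ _), Finset.card_univ, Fintype.card_fin]
      omega
  have hct : t0.cycleType = Multiset.replicate (n / 2) 2 := by
    have hall : ∀ k ∈ t0.cycleType, k = 2 := by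
      intro k hk
      have h1 := Perm.dvd_of_mem_cycleType hk
      have h3 := Perm.two_le_of_mem_cycleType hk
      have h2 : orderOf t0 ∣ 2 := orderOf_dvd_of_pow_eq_one (Equiv.ext fun x => by rw [sq]; exact nb_nb x)
      exact le_antisymm (Nat.le_of_dvd two_pos (h1.trans h2)) h3
    have h4 := Perm.sum_cycleType t0
    rw [Multiset.eq_replicate_of_mem hall, Multiset.sum_replicate, smul_eq_mul, hsupp] at h4
    rw [Multiset.eq_replicate_of_mem hall, show Multiset.card t0.cycleType = n / 2 by omega]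
  have hodd : ¬ 2 ∣ (Subgroup.centralizer ({t0} : Set (Perm (Fin n)))).index := by
    have h1 := (Subgroup.centralizer ({t0} : Set (Perm (Fin n)))).card_mul_index
    rw [Perm.nat_card_centralizer, hct, Nat.card_perm, Fintype.card_fin, Nat.card_fin] at h1
    have h2 : (n - (Multiset.replicate (n / 2) 2).sum)! = 1 := by
      rw [Multiset.sum_replicate, smul_eq_mul, Nat.factorial_eq_one]; omega
    have h3 : ∏ k ∈ (Multiset.replicate (n / 2) 2).toFinset, ((Multiset.replicate (n / 2) 2).count k)! = (n / 2)! := by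
      rcases Nat.eq_zero_or_pos (n / 2) with h0 | h0
      · simp [h0]
      · rw [Multiset.toFinset_replicate, if_neg h0.ne', Finset.prod_singleton, Multiset.count_replicate_self]
    rw [h2, h3, Multiset.prod_replicate, one_mul] at h1
    intro hdvd
    haveI : Fact (Nat.Prime 2) := ⟨Nat.prime_two⟩
    have hn! : padicValNat 2 n ! = padicValNat 2 (n / 2)! + n / 2 := by
      rw [← padicValNat_factorial_mul (p := 2) (n / 2)]
      rcases Nat.even_or_odd' n with ⟨k, rfl | rfl⟩
      · rw [Nat.mul_div_cancel_left _ two_pos]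
      · rw [show (2 * k + 1) / 2 = k by omega, Nat.factorial_succ,
          padicValNat.mul (by omega) (Nat.factorial_pos _).ne', padicValNat.eq_zero_of_not_dvd (by omega), zero_add]
    have h5 := congrArg (padicValNat 2) h1
    rw [padicValNat.mul (Nat.mul_ne_zero (by positivity) (Nat.factorial_pos _).ne') Subgroup.index_ne_zero_of_finite,
      padicValNat.mul (by positivity) (Nat.factorial_pos _).ne', padicValNat.prime_pow, hn!] at h5
    have h6 := one_le_padicValNat_of_dvd Subgroup.index_ne_zero_of_finite hdvd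
    omega
  obtain ⟨g, hg⟩ := exists_conj_le S hodd
  have hcomm : ∀ x ∈ S, ∀ y, x (g (t0 (g⁻¹ y))) = g (t0 (g⁻¹ (x y))) := by
    intro x hx y
    have h := congrArg (fun z : Perm (Fin n) => g (z (g⁻¹ y))) (Subgroup.mem_centralizer_singleton_iff.1 (hg x hx))
    simpa [Perm.mul_apply, Perm.inv_def] using h
  refine ⟨g * t0 * g⁻¹, fun x => ?_, fun he x e => ?_, fun he => ?_, fun x hx y => ?_, ?_⟩
  · simp [Perm.mul_apply, Perm.inv_def, t0, nb_nb]
  · have h : nb n (g⁻¹ x) = g⁻¹ x := g.injective (by simpa [Perm.mul_apply, Perm.inv_def, t0] using e)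
    have := (nb_eq_iff _).1 h
    rw [Nat.even_iff] at he; omega
  · rw [Nat.even_iff] at he
    refine ⟨g ⟨n - 1, by omega⟩, ?_, fun x e => ?_⟩
    · have h : nb n ⟨n - 1, by omega⟩ = ⟨n - 1, by omega⟩ := (nb_eq_iff _).2 ⟨by show (n - 1) % 2 = 0; omega, by show n - 1 + 1 = n; omega⟩
      simp [Perm.mul_apply, Perm.inv_def, t0, h]
    · have h : nb n (g⁻¹ x) = g⁻¹ x := g.injective (by simpa [Perm.mul_apply, Perm.inv_def, t0] using e)
      have := (nb_eq_iff _).1 h
      rw [← Equiv.eq_symm_apply] at *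
      exact (Equiv.symm_apply_eq g).1 (Fin.ext (by rw [← Perm.inv_def]; show ((g⁻¹ x : Fin n) : ℕ) = n - 1; omega))
  · simpa [Perm.mul_apply] using hcomm x hx y
  set τ := g * t0 * g⁻¹
  have hinv : ∀ x, τ (τ x) = x := fun x => by simp [τ, Perm.mul_apply, Perm.inv_def, t0, nb_nb]
  have hτ : ∀ x ∈ S, ∀ y, x (τ y) = τ (x y) := fun x hx y => by simpa [τ, Perm.mul_apply] using hcomm x hx y
  let E : Subgroup (Perm (Fin n)) :=
    { carrier := {h | ∀ x, h x = x ∨ h x = τ x}
      one_mem' := fun x => Or.inl rfl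
      mul_mem' := by
        intro a b ha hb x
        rw [Perm.mul_apply]
        rcases hb x with e | e <;> rw [e]
        · exact ha x
        · rcases ha (τ x) with e' | e'
          · exact Or.inr e'
          · exact Or.inl (by rw [e', hinv])
      inv_mem' := by
        intro a ha x
        rcases ha (a⁻¹ x) with e | e
        · rw [Perm.inv_def, Equiv.apply_symm_apply] at e; exact Or.inl e.symm
        · rw [Perm.inv_def, Equiv.apply_symm_apply] at e; exact Or.inr ((congrArg τ e).trans (hinv _)).symm }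
  have hE : IsPGroup 2 E := fun h => ⟨1, Subtype.ext (Equiv.ext fun x => by
    show (((h : Perm (Fin n)) ^ (2 ^ 1)) x) = x
    rw [pow_one, sq, Perm.mul_apply]
    rcases h.2 x with e | e
    · rw [e, e]
    · rw [e]
      rcases h.2 (τ x) with e' | e'
      · rw [e']
        exact (h : Perm (Fin n)).injective (by rw [e', e])
      · rw [e', hinv])⟩
  haveI : Fact (Nat.Prime 2) := ⟨Nat.prime_two⟩
  have hnorm : (S : Subgroup (Perm (Fin n))) ≤ Subgroup.normalizer (E : Set (Perm (Fin n))) := by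
    have key : ∀ x ∈ S, ∀ h ∈ E, x * h * x⁻¹ ∈ E := by
      intro x hx h hh y
      simp only [Perm.mul_apply]
      rcases hh (x⁻¹ y) with e | e
      · exact Or.inl (by rw [e, show x (x⁻¹ y) = y from x.apply_symm_apply y])
      · exact Or.inr (by rw [e, hτ x hx, show x (x⁻¹ y) = y from x.apply_symm_apply y])
    intro x hx
    rw [Subgroup.mem_normalizer_iff]
    refine fun h => ⟨key x hx h, fun hh => ?_⟩
    simpa [mul_assoc] using key x⁻¹ (inv_mem hx) _ hh
  have hsup : (S : Subgroup (Perm (Fin n))) ⊔ E = S :=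
    S.3 (S.2.to_sup_of_normal_right' hE hnorm) le_sup_left
  intro p
  have hp : swap p (τ p) ∈ E := by
    intro x
    by_cases h1 : x = p
    · subst h1; exact Or.inr (swap_apply_left _ _)
    by_cases h2 : x = τ p
    · subst h2; exact Or.inr (by rw [swap_apply_right, hinv])
    exact Or.inl (swap_apply_of_ne_of_ne h1 h2)
  have h := Subgroup.mem_sup_right (S := (S : Subgroup (Perm (Fin n)))) hp
  rw [hsup] at h
  exact h

/-- on `2 ^ k` or `2 ^ k + 1` points the orbits of a Sylow subgroup are as large as possible -/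
theorem orbit_eq (S : Sylow 2 (Perm (Fin n))) {k : ℕ} (hk1 : 1 ≤ k) (hn : n = 2 ^ k ∨ n = 2 ^ k + 1) (a : Fin n)
    {b : Fin n} (hb : b ≠ a) (hfix : ∃ g ∈ S, g a ≠ a) (hfix' : ∀ c, (∀ g ∈ S, g c = c) → b ≠ c) :
    ∃ g ∈ S, g a = b := by
  haveI : Fact (Nat.Prime 2) := ⟨Nat.prime_two⟩
  have hkey : ∀ c : Fin n, (∃ g ∈ S, g c ≠ c) → (orbit S c).ncard = 2 ^ k := by
    rintro c ⟨g, hg, hgc⟩
    obtain ⟨j, hj⟩ := S.2.card_orbit (G := (S : Subgroup (Perm (Fin n)))) c
    rw [Nat.card_coe_set_eq] at hj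
    have hle : (S : Subgroup (Perm (Fin n))) ≤ stabilizer (Perm (Fin n)) (orbit S c) := fun x hx => by
      rw [mem_stabilizer_iff]
      exact smul_orbit (⟨x, hx⟩ : (S : Subgroup (Perm (Fin n)))) c
    have hodd : Odd (n.choose (2 ^ j)) := by
      rw [← hj, ← index_stabilizer_set, ← Nat.not_even_iff_odd, even_iff_two_dvd]
      exact fun h => S.not_dvd_index (h.trans (Subgroup.index_dvd_of_le hle))
    have h2 : 1 < (orbit S c).ncard := (Set.one_lt_ncard_iff (Set.toFinite _)).2
      ⟨c, g c, mem_orbit_self c, ⟨⟨g, hg⟩, rfl⟩, hgc.symm⟩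
    have hj0 : j ≠ 0 := by intro e; rw [e] at hj; omega
    rw [odd_choose_two_pow] at hodd
    rcases lt_trichotomy j k with hlt | heq | hgt
    · exfalso
      obtain ⟨d, rfl⟩ : ∃ d, k = j + 1 + d := ⟨k - j - 1, by omega⟩
      have hd : (2 ^ (j + 1 + d) + 1) / 2 ^ j = 2 ^ (d + 1) := by
        rw [show j + 1 + d = (d + 1) + j by ring, pow_add, Nat.mul_comm (2 ^ (d + 1)),
          Nat.mul_add_div (Nat.two_pow_pos j), Nat.div_eq_of_lt (Nat.one_lt_two_pow hj0), add_zero]
      rcases hn with rfl | rfl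
      · rw [show j + 1 + d = (d + 1) + j by ring, pow_add, Nat.mul_div_cancel _ (Nat.two_pow_pos j), pow_succ] at hodd
        omega
      · rw [hd, pow_succ] at hodd; omega
    · rw [hj, heq]
    · exfalso
      have := Nat.pow_le_pow_right two_pos hgt
      rw [pow_succ] at this
      have hk := Nat.pow_le_pow_right two_pos hk1
      have := Set.ncard_le_ncard (Set.subset_univ (orbit S c))
      rw [Set.ncard_univ, Nat.card_fin] at this
      omega
  have ha := hkey a hfix
  have hbm : ∃ g ∈ S, g b ≠ b := by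
    by_contra hh
    push Not at hh
    exact hfix' b hh rfl
  have hb' := hkey b hbm
  by_contra hne
  push Not at hne
  have hdis : Disjoint (orbit S a) (orbit S b) := by
    rcases orbit.eq_or_disjoint (G := (S : Subgroup (Perm (Fin n)))) a b with h | h
    · exfalso
      obtain ⟨⟨g, hg⟩, e⟩ : b ∈ orbit S a := h ▸ mem_orbit_self b
      exact hne g hg e
    · exact h
  have h3 := Set.ncard_union_eq hdis
  have h4 := Set.ncard_le_ncard (Set.subset_univ (orbit S a ∪ orbit S b))
  rw [Set.ncard_univ, Nat.card_fin] at h4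
  obtain ⟨g, hg, hga⟩ := hfix
  have h5 : 1 < (orbit S a).ncard := (Set.one_lt_ncard_iff (Set.toFinite _)).2 ⟨a, g a, mem_orbit_self a, ⟨⟨g, hg⟩, rfl⟩, hga.symm⟩
  omega

theorem isThreeCycle_commutator {a b c : Fin n} (hab : a ≠ b) (hac : a ≠ c) (hbc : b ≠ c) :
    Equiv.Perm.IsThreeCycle (swap a b * swap a c * swap a b * swap a c) := by
  have h := Perm.isThreeCycle_swap_mul_swap_same hab hac hbc
  have h3 : (swap a b * swap a c) ^ 3 = 1 := by rw [← h.orderOf]; exact pow_orderOf_eq_one _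
  have e : swap a b * swap a c * swap a b * swap a c = (swap a b * swap a c)⁻¹ := by
    refine eq_inv_of_mul_eq_one_left ?_
    rw [← h3, pow_succ, pow_two]
    group
  rw [e]
  exact h.inv

theorem mem_stab_of_swap {s : Set (Fin n)} {a b : Fin n} (h : (a ∈ s ↔ b ∈ s)) :
    swap a b ∈ stabilizer (Perm (Fin n)) s := by
  rw [mem_stabilizer_set]
  intro x
  rw [Perm.smul_def]
  by_cases h1 : x = a
  · subst h1; rw [swap_apply_left]; exact h.symm
  by_cases h2 : x = b
  · subst h2; rw [swap_apply_right]; exact h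
  rw [swap_apply_of_ne_of_ne h1 h2]

theorem sign_swap_mul_swap {a b c d : Fin n} (h1 : a ≠ b) (h2 : c ≠ d) :
    swap a b * swap c d ∈ alternatingGroup (Fin n) := by
  rw [Perm.mem_alternatingGroup, map_mul, Perm.sign_swap h1, Perm.sign_swap h2]
  rfl

theorem exists_ne_of_two_le {s : Set (Fin n)} (h : 2 ≤ s.ncard) (a : Fin n) : ∃ b ∈ s, b ≠ a := by
  obtain ⟨x, y, hx, hy, hxy⟩ := (Set.one_lt_ncard_iff (Set.toFinite _)).1 h
  by_cases e : x = a
  · exact ⟨y, hy, fun e' => hxy (e.trans e'.symm)⟩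
  · exact ⟨x, hx, e⟩

/-- the element used to leave the stabilizer of a set -/
theorem exists_move {τ : Perm (Fin n)} (hinv : ∀ x, τ (τ x) = x) (hfree : ∀ x, τ x ≠ x) {s : Set (Fin n)}
    (h1 : s.Nonempty) (h2 : 2 ≤ sᶜ.ncard) :
    ∃ a ∈ s, ∃ b, b ∉ s ∧ b ≠ τ a ∧ (swap a b * swap (τ a) (τ b)) a = b ∧
      swap a b * swap (τ a) (τ b) ∈ alternatingGroup (Fin n) ∧
      (∀ y, (swap a b * swap (τ a) (τ b)) (τ y) = τ ((swap a b * swap (τ a) (τ b)) y)) ∧
      ∀ y, y ≠ a → y ≠ b → y ≠ τ a → y ≠ τ b → (swap a b * swap (τ a) (τ b)) y = y := by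
  obtain ⟨a, ha⟩ := h1
  obtain ⟨b, hb, hbne⟩ := exists_ne_of_two_le h2 (τ a)
  have hab : a ≠ b := fun e => hb (e ▸ ha)
  have hτab : τ a ≠ τ b := fun e => hab (τ.injective e)
  have haτb : a ≠ τ b := fun e => hbne (by rw [e, hinv])
  refine ⟨a, ha, b, hb, hbne, ?_, sign_swap_mul_swap hab hτab, fun y => ?_, fun y e1 e2 e3 e4 => ?_⟩
  · rw [Perm.mul_apply, swap_apply_of_ne_of_ne (hfree a).symm haτb, swap_apply_left]
  · have hc : τ * (swap a b * swap (τ a) (τ b)) * τ⁻¹ = swap a b * swap (τ a) (τ b) := by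
      rw [show τ * (swap a b * swap (τ a) (τ b)) * τ⁻¹ = (τ * swap a b * τ⁻¹) * (τ * swap (τ a) (τ b) * τ⁻¹) by group,
        ← Equiv.swap_apply_apply, ← Equiv.swap_apply_apply, hinv, hinv]
      exact Perm.Disjoint.commute fun x => by
        by_cases e1 : x = τ a
        · subst e1; exact Or.inr (swap_apply_of_ne_of_ne (hfree a) hbne.symm)
        by_cases e2 : x = τ b
        · subst e2; exact Or.inr (swap_apply_of_ne_of_ne haτb.symm (hfree b))
        exact Or.inl (swap_apply_of_ne_of_ne e1 e2)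
    have := Equiv.Perm.ext_iff.1 (mul_inv_eq_iff_eq_mul.1 hc) y
    simpa [Perm.mul_apply] using this.symm
  · rw [Perm.mul_apply, swap_apply_of_ne_of_ne e3 e4, swap_apply_of_ne_of_ne e1 e2]

theorem exists_third {s : Set (Fin n)} (h : 3 ≤ s.ncard) (x y : Fin n) : ∃ z ∈ s, z ≠ x ∧ z ≠ y := by
  by_contra hh
  push Not at hh
  have h' : s.ncard ≤ ({x, y} : Set (Fin n)).ncard := Set.ncard_le_ncard (fun z hz => by
    by_cases e : z = x
    · exact Or.inl e
    · exact Or.inr (hh z hz e)) (Set.toFinite _)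
  have := Set.ncard_insert_le x ({y} : Set (Fin n))
  rw [Set.ncard_singleton] at this
  omega

/-- three-cycles closing up two halves -/
theorem alternating_le_of_halves {L : Subgroup (Perm (Fin n))} {O : Set (Fin n)} (h1 : 3 ≤ O.ncard)
    (h2 : O.ncard = Oᶜ.ncard)
    (hL : ∀ x ∈ stabilizer (Perm (Fin n)) O, x ∈ alternatingGroup (Fin n) → x ∈ L)
    {g : Perm (Fin n)} (hg : g ∈ L) {a : Fin n} (ha : a ∈ O) (hga : g a ∉ O) {c : Fin n} (hc : c ∈ O)
    (hgc : g c ∈ O) : alternatingGroup (Fin n) ≤ L := by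
  have hcyc : ∀ x y z : Fin n, x ≠ y → x ≠ z → (x ∈ O ↔ y ∈ O) → (x ∈ O ↔ z ∈ O) →
      swap x y * swap x z ∈ L := fun x y z hxy hxz e1 e2 =>
    hL _ (mul_mem (mem_stab_of_swap e1) (mem_stab_of_swap e2)) (sign_swap_mul_swap hxy hxz)
  have h3 : ∀ x, ∀ y, ∃ z, (z ∈ O ↔ x ∈ O) ∧ z ≠ x ∧ z ≠ y := by
    intro x y
    by_cases hx : x ∈ O
    · obtain ⟨z, hz, e1, e2⟩ := exists_third h1 x y
      exact ⟨z, iff_of_true hz hx, e1, e2⟩
    · obtain ⟨z, hz, e1, e2⟩ := exists_third (h2 ▸ h1) x y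
      exact ⟨z, iff_of_false hz hx, e1, e2⟩
  have hone : ∀ x y, (x ∈ O ↔ y ∈ O) → ∃ h : L, h • x = y := by
    intro x y hxy
    by_cases e : x = y
    · exact ⟨1, by simp [e]⟩
    obtain ⟨z, hz, hzx, hzy⟩ := h3 x y
    refine ⟨⟨swap x z * swap x y, hcyc x z y (Ne.symm hzx) e hz.symm hxy⟩, ?_⟩
    rw [Subgroup.mk_smul, Perm.smul_def, Perm.mul_apply, swap_apply_left,
      swap_apply_of_ne_of_ne (Ne.symm e) hzy.symm]
  haveI : IsPretransitive L (Fin n) := by
    refine (isPretransitive_iff_base a).2 fun y => ?_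
    by_cases hy : y ∈ O
    · exact hone a y (iff_of_true ha hy)
    · obtain ⟨h, hh⟩ := hone (g a) y (iff_of_false hga hy)
      exact ⟨h * ⟨g, hg⟩, by rw [mul_smul]; exact hh⟩
  have hprim : IsPreprimitive L (Fin n) := by
    refine { isTrivialBlock_of_isBlock := fun {B} hB => ?_ }
    rw [IsTrivialBlock, or_iff_not_imp_left, Set.not_subsingleton_iff]
    rintro ⟨x, hx, y, hy, hxy⟩
    have hfix : ∀ σ : Perm (Fin n), σ ∈ L → ∀ p ∈ B, σ p ∈ B → ∀ q ∈ B, σ q ∈ B := by
      intro σ hσ p hp hσp q hq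
      have e : (⟨σ, hσ⟩ : L) • B = B := hB.smul_eq_of_mem hp hσp
      rw [← e]
      exact Set.smul_mem_smul_set hq
    have hin : ∀ p ∈ B, ∀ q ∈ B, p ≠ q → ∀ z, (z ∈ O ↔ p ∈ O) → z ∈ B := by
      intro p hp q hq hpq z hz
      by_cases e1 : z = p
      · exact e1 ▸ hp
      by_cases e2 : z = q
      · exact e2 ▸ hq
      by_cases hqp : q ∈ O ↔ p ∈ O
      · have h := hfix _ (hcyc p q z hpq (Ne.symm e1) hqp.symm hz.symm) q hq (by
          rw [Perm.mul_apply, swap_apply_of_ne_of_ne (Ne.symm hpq) (Ne.symm e2), swap_apply_right]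
          exact hp) p hp
        rwa [Perm.mul_apply, swap_apply_left, swap_apply_of_ne_of_ne e1 e2] at h
      · obtain ⟨w, hw, hwp, hwz⟩ := h3 p z
        have hqw : q ≠ w := fun e => hqp (e ▸ hw)
        have hqz : q ≠ z := Ne.symm e2
        have h := hfix _ (hcyc p w z hwp.symm (Ne.symm e1) hw.symm hz.symm) q hq (by
          rw [Perm.mul_apply, swap_apply_of_ne_of_ne hpq.symm hqz, swap_apply_of_ne_of_ne hpq.symm hqw]
          exact hq) p hp
        rwa [Perm.mul_apply, swap_apply_left, swap_apply_of_ne_of_ne e1 hwz.symm] at h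
    rw [Set.eq_univ_iff_forall]
    by_contra hB'
    push Not at hB'
    obtain ⟨z, hz⟩ := hB'
    have hside : ∀ p ∈ B, (p ∈ O ↔ x ∈ O) := by
      intro p hp
      by_contra hpx
      by_cases hzx : z ∈ O ↔ x ∈ O
      · exact hz (hin x hx y hy hxy z hzx)
      · exact hz (hin p hp x hx (fun e => hpx (e ▸ Iff.rfl)) z (by tauto))
    have hall : ∀ p, (p ∈ O ↔ x ∈ O) → p ∈ B := hin x hx y hy hxy
    by_cases hxO : x ∈ O
    · have e : (⟨g, hg⟩ : L) • B = B := hB.smul_eq_of_mem (hall c (iff_of_true hc hxO))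
        (hall _ (iff_of_true hgc hxO))
      exact hga ((hside _ (e ▸ Set.smul_mem_smul_set (hall a (iff_of_true ha hxO)))).2 hxO)
    · have hBeq : B = Oᶜ := Set.ext fun p =>
        ⟨fun hp h => hxO ((hside p hp).1 h), fun hp => hall p (iff_of_false hp hxO)⟩
      rcases hB.smul_eq_or_disjoint (⟨g, hg⟩ : L) with e | e
      · have e' : a ∈ Oᶜ := by
          rw [← hBeq]
          have h : (⟨g, hg⟩ : L) • a ∈ (⟨g, hg⟩ : L) • B := by rw [e, hBeq]; exact hga
          exact Set.smul_mem_smul_set_iff.1 h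
        exact e' ha
      · have hsub : (⟨g, hg⟩ : L) • B ⊆ O := fun p hp => by
          by_contra hpO
          exact Set.disjoint_left.1 e hp (hBeq ▸ hpO)
        have heq : (⟨g, hg⟩ : L) • B = O := by
          refine Set.eq_of_subset_of_ncard_le hsub ?_ (Set.toFinite _)
          rw [Set.ncard_smul_set, hBeq, h2]
        have h : (⟨g, hg⟩ : L) • c ∈ (⟨g, hg⟩ : L) • B := by rw [heq]; exact hgc
        have := Set.smul_mem_smul_set_iff.1 h
        rw [hBeq] at this
        exact this hc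
  obtain ⟨z, hz, hza, -⟩ := h3 a a
  obtain ⟨w, hw, hwa, hwz⟩ := h3 a z
  exact Perm.alternatingGroup_le_of_isPreprimitive_of_isThreeCycle_mem hprim
    (Perm.isThreeCycle_swap_mul_swap_same hza.symm hwa.symm hwz.symm)
    (hcyc a z w hza.symm hwa.symm hz.symm hw.symm)

end Cfsg.Lib.PermGroup.SylowTwo
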