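/-
Uniqueness of the maximal overgroup of a Sylow 2-subgroup of symmetric and alternating groups.
-/
import Cfsg.Agent.Lib.PermGroup.SylowOvergroup2

set_option autoImplicit false

namespace Cfsg.Lib.PermGroup.SylowTwo

open Equiv MulAction
open scoped Pointwise Classical

variable {n : ℕ}

theorem smul_pair (x : Perm (Fin n)) (A B : Set (Fin n)) :
    x • ({A, B} : Set (Set (Fin n))) = {x • A, x • B} :=
  Set.image_pair (fun t => x • t) A B

theorem exists_pair (S : Sylow 2 (Perm (Fin n))) {j : ℕ} (hn : n = 2 * 2 ^ j) :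
    ∃ O : Set (Fin n), O.ncard = 2 ^ j ∧ Oᶜ.ncard = 2 ^ j ∧
      ∀ x ∈ S, x • O = O ∨ x • O = Oᶜ := by
  have hm := Nat.two_pow_pos j
  obtain ⟨f, -, hf⟩ := Finset.exists_subset_card_eq (s := (Finset.univ : Finset (Fin n))) (n := 2 ^ j)
    (by rw [Finset.card_univ, Fintype.card_fin]; omega)
  set O : Set (Fin n) := (f : Set (Fin n)) with hO
  have hO1 : O.ncard = 2 ^ j := by rw [hO, Set.ncard_coe_finset, hf]
  have hO2 : Oᶜ.ncard = 2 ^ j := by
    have := Set.ncard_add_ncard_compl O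
    rw [Nat.card_fin] at this; omega
  have hne : O ≠ Oᶜ := by
    intro e
    obtain ⟨a, ha⟩ : O.Nonempty := Set.nonempty_of_ncard_ne_zero (by omega)
    have ha' : a ∈ Oᶜ := e ▸ ha
    exact ha' ha
  set K := stabilizer (Perm (Fin n)) ({O, Oᶜ} : Set (Set (Fin n)))
  have hKle : stabilizer (Perm (Fin n)) O ≤ K := by
    intro x hx
    rw [mem_stabilizer_iff] at hx ⊢
    rw [smul_pair, hx, Set.smul_set_compl, hx]
  have horb : orbit K O = {O, Oᶜ} := by
    ext t
    constructor
    · rintro ⟨⟨x, hx⟩, rfl⟩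
      have h : x • O ∈ x • ({O, Oᶜ} : Set (Set (Fin n))) := Set.smul_mem_smul_set (Set.mem_insert _ _)
      rwa [mem_stabilizer_iff.1 hx] at h
    · rintro (rfl | rfl)
      · exact mem_orbit_self O
      obtain ⟨e⟩ : Nonempty (↥O ≃ ↥(Oᶜ)) :=
        Finite.card_eq.1 (by rw [Nat.card_coe_set_eq, Nat.card_coe_set_eq, hO1, hO2])
      have hx : e.extendSubtype • O = Oᶜ := by
        refine Set.eq_of_subset_of_ncard_le ?_ ?_ (Set.toFinite _)
        · rintro x ⟨y, hy, rfl⟩
          exact Equiv.extendSubtype_mem e y hy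
        · rw [Set.ncard_smul_set, hO1, hO2]
      refine ⟨⟨e.extendSubtype, ?_⟩, hx⟩
      rw [mem_stabilizer_iff, smul_pair, Set.smul_set_compl, hx, compl_compl]
      exact Set.pair_comm _ _
  have hidx : (stabilizer (Perm (Fin n)) O).index = 2 * K.index := by
    rw [← Subgroup.relIndex_mul_index hKle]
    congr 1
    have e : (stabilizer (Perm (Fin n)) O).subgroupOf K = stabilizer K O := rfl
    rw [Subgroup.relIndex, e, index_stabilizer, horb, Set.ncard_pair hne]
  have hK : ¬ 2 ∣ K.index := by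
    rw [index_stabilizer_set, hO1] at hidx
    have h1 := Nat.add_one_mul_choose_eq (2 * 2 ^ j - 1) (2 ^ j - 1)
    rw [Nat.sub_add_cancel (by omega), Nat.sub_add_cancel hm, ← hn, hidx] at h1
    have h2 : K.index = (n - 1).choose (2 ^ j - 1) := by
      have h3 : n * (n - 1).choose (2 ^ j - 1) = n * K.index :=
        calc n * (n - 1).choose (2 ^ j - 1) = 2 * K.index * 2 ^ j := h1
          _ = (2 * 2 ^ j) * K.index := by ring
          _ = n * K.index := by rw [← hn]
      exact (Nat.eq_of_mul_eq_mul_left (by omega) h3).symm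
    rw [h2, ← Nat.choose_symm (by omega), show n - 1 - (2 ^ j - 1) = 2 ^ j by omega, ← even_iff_two_dvd,
      Nat.not_even_iff_odd, odd_choose_two_pow, hn,
      show (2 * 2 ^ j - 1) / 2 ^ j = 1 from Nat.div_eq_of_lt_le (by omega) (by omega)]
  obtain ⟨g, hg⟩ := exists_conj_le S hK
  refine ⟨g • O, by rw [Set.ncard_smul_set, hO1], by rw [← Set.smul_set_compl, Set.ncard_smul_set, hO2],
    fun x hx => ?_⟩
  have h := mem_stabilizer_iff.1 (hg x hx)
  have h2 : (g⁻¹ * x * g) • O ∈ ({O, Oᶜ} : Set (Set (Fin n))) := by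
    rw [← h]; exact Set.smul_mem_smul_set (Set.mem_insert _ _)
  have e : x • g • O = g • ((g⁻¹ * x * g) • O) := by
    rw [← mul_smul, ← mul_smul]; congr 1; group
  rcases h2 with h2 | h2
  · left; rw [e, h2]
  · right; rw [e, Set.mem_singleton_iff.1 h2, Set.smul_set_compl]

theorem mem_stabilizer_singleton {x : Perm (Fin n)} {c : Fin n} :
    x ∈ stabilizer (Perm (Fin n)) ({c} : Set (Fin n)) ↔ x c = c := by
  rw [stabilizer_singleton, mem_stabilizer_iff]
  rfl

theorem fix_of_unique (S : Sylow 2 (Perm (Fin n))) {τ : Perm (Fin n)} {c : Fin n} (hc : τ c = c)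
    (hu : ∀ x, τ x = x → x = c) (hτ : ∀ g ∈ S, ∀ x, g (τ x) = τ (g x)) {x : Perm (Fin n)} (hx : x ∈ S) :
    x c = c :=
  hu _ (by rw [← hτ x hx c, hc])

theorem commutator_reduce {H : Type*} [Group H] {σ ρ υ π : H} (h1 : σ * ρ = ρ * σ) (h2 : υ * π = π * υ)
    (h3 : ρ * υ = υ * ρ) (h4 : σ * π = π * σ) (h5 : ρ * π = π * ρ) (h6 : ρ * ρ = 1) (h7 : π * π = 1) :
    (σ * ρ) * (υ * π) * (σ * ρ) * (υ * π) = σ * υ * σ * υ := by
  have e1 : (σ * ρ) * (υ * π) = σ * υ * (ρ * π) := by
    rw [mul_assoc, ← mul_assoc ρ, h3]; group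
  have c1 : (ρ * π) * σ = σ * (ρ * π) := by
    rw [mul_assoc, ← h4, ← mul_assoc, ← h1, mul_assoc]
  have c2 : (ρ * π) * υ = υ * (ρ * π) := by
    rw [mul_assoc, ← h2, ← mul_assoc, h3, mul_assoc]
  have e2 : (ρ * π) * (ρ * π) = 1 := by
    rw [mul_assoc, ← mul_assoc π, ← h5, mul_assoc, h7, mul_one, h6]
  calc (σ * ρ) * (υ * π) * (σ * ρ) * (υ * π) = (σ * ρ) * (υ * π) * ((σ * ρ) * (υ * π)) := by group
    _ = σ * υ * ((ρ * π) * σ) * υ * (ρ * π) := by rw [e1]; group
    _ = σ * υ * σ * ((ρ * π) * υ) * (ρ * π) := by rw [c1]; group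
    _ = σ * υ * σ * υ * ((ρ * π) * (ρ * π)) := by rw [c2]; group
    _ = _ := by rw [e2, mul_one]

theorem swap_comm_swap {a b c d : Fin n} (h1 : a ≠ c) (h2 : a ≠ d) (h3 : b ≠ c) (h4 : b ≠ d) :
    swap a b * swap c d = swap c d * swap a b := by
  refine (Perm.Disjoint.commute fun x => ?_)
  by_cases e1 : x = a
  · subst e1; exact Or.inr (swap_apply_of_ne_of_ne h1 h2)
  by_cases e2 : x = b
  · subst e2; exact Or.inr (swap_apply_of_ne_of_ne h3 h4)
  exact Or.inl (swap_apply_of_ne_of_ne e1 e2)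

section Overgroups

variable {G : Type*} [Group G] [Finite G] (φ : G →* Perm (Fin n))
  (hφ : Function.Injective φ) (hA : ∀ y ∈ alternatingGroup (Fin n), ∃ x, φ x = y)
  (S : Sylow 2 (Perm (Fin n))) (R : Subgroup G) (hR : ∀ x, x ∈ R ↔ φ x ∈ S)
  (hstab : ∀ s : Set (Fin n), s.Nonempty → sᶜ.Nonempty → n ≠ 2 * s.ncard →
    IsCoatom ((stabilizer (Perm (Fin n)) s).comap φ))
  (htop : ∀ L : Subgroup G, R ≤ L → (∀ x, φ x ∈ alternatingGroup (Fin n) → x ∈ L) → L = ⊤)

include hA hR hstab htop hφ in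
theorem not_unique (hn : 5 ≤ n) (h6 : n ≠ 6) (hk : ¬ ∃ k, 2 ≤ k ∧ n = 2 ^ k + 1) :
    ¬ ∃! M : Subgroup G, IsCoatom M ∧ R ≤ M := by
  rintro ⟨M, -, huniq⟩
  obtain ⟨τ, hinv, hev, hod, hτ, hsw⟩ := exists_inv S
  have hRle : ∀ {s : Set (Fin n)}, (S : Subgroup (Perm (Fin n))) ≤ stabilizer (Perm (Fin n)) s →
      R ≤ (stabilizer (Perm (Fin n)) s).comap φ := fun h x hx => h ((hR x).1 hx)
  have hlog1 : 2 ^ Nat.log 2 n ≤ n := Nat.pow_log_le_self 2 (by omega)
  have hlog2 : n < 2 ^ (Nat.log 2 n + 1) := Nat.lt_pow_succ_log_self (by norm_num) n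
  rw [pow_succ] at hlog2
  have hlog3 : 4 ≤ 2 ^ Nat.log 2 n := by
    have h2 : 2 ≤ Nat.log 2 n := Nat.le_log_of_pow_le (by norm_num) (by norm_num; omega)
    exact le_trans (by norm_num) (Nat.pow_le_pow_right two_pos h2)
  have hdiv : n / 2 ^ Nat.log 2 n % 2 = 1 := by
    rw [Nat.div_eq_of_lt_le (by omega) (by omega : n < (1 + 1) * 2 ^ Nat.log 2 n)]
  have hexists : 2 ^ Nat.log 2 n ≠ n → ∃ s : Set (Fin n), s.ncard = 2 ^ Nat.log 2 n ∧
      sᶜ.ncard = n - 2 ^ Nat.log 2 n ∧ R ≤ (stabilizer (Perm (Fin n)) s).comap φ ∧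
      IsCoatom ((stabilizer (Perm (Fin n)) s).comap φ) := by
    intro hne
    obtain ⟨s, hs, hS⟩ := exists_set S hdiv
    have hsc := Set.ncard_add_ncard_compl s
    rw [Nat.card_fin] at hsc
    exact ⟨s, hs, by omega, hRle hS, hstab s (Set.nonempty_of_ncard_ne_zero (by omega))
      (Set.nonempty_of_ncard_ne_zero (by omega)) (by omega)⟩
  rcases Nat.even_or_odd n with he | ho
  · have hfree := hev he
    set C : Subgroup G := (Subgroup.centralizer ({τ} : Set (Perm (Fin n)))).comap φ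
    have hmemC : ∀ x : G, (∀ y, φ x (τ y) = τ (φ x y)) → x ∈ C := fun x h => by
      rw [Subgroup.mem_comap, Subgroup.mem_centralizer_singleton_iff]
      exact Equiv.ext fun y => h y
    have hCne : C ≠ ⊤ := by
      intro hC
      let a : Fin n := ⟨0, by omega⟩
      obtain ⟨z, -, hza, hzb⟩ := exists_third (s := (Set.univ : Set (Fin n)))
        (by rw [Set.ncard_univ, Nat.card_fin]; omega) a (τ a)
      obtain ⟨x, hx⟩ := hA _ (sign_swap_mul_swap (a := a) (b := τ a) (c := a) (d := z) (hfree a).symm hza.symm)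
      have h : x ∈ C := hC ▸ Subgroup.mem_top x
      rw [Subgroup.mem_comap, Subgroup.mem_centralizer_singleton_iff, hx] at h
      have h' := Equiv.ext_iff.1 h a
      simp only [Perm.mul_apply, swap_apply_left, swap_apply_right,
        swap_apply_of_ne_of_ne (hfree a) hzb.symm, swap_apply_of_ne_of_ne hza hzb] at h'
      exact hzb (by rw [h', hinv])
    obtain ⟨M2, hM2, hCM2⟩ := (eq_top_or_exists_le_coatom C).resolve_left hCne
    have hM2eq : M2 = M := huniq M2 ⟨hM2, fun x hx => hCM2 (hmemC x fun y => hτ _ ((hR x).1 hx) y)⟩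
    by_cases hpow : 2 ^ Nat.log 2 n = n
    · obtain ⟨i, hi⟩ : ∃ i, Nat.log 2 n = i + 1 := ⟨Nat.log 2 n - 1, by
        have : Nat.log 2 n ≠ 0 := fun e => by rw [e] at hlog3; omega
        omega⟩
      rw [hi, pow_succ] at hpow hlog3
      obtain ⟨O, hO1, hO2, hO⟩ := exists_pair S (j := i) (by omega)
      have hOi : 4 ≤ 2 ^ i := by
        rcases lt_or_ge i 2 with h | h
        · interval_cases i <;> simp at hpow hlog3 <;> omega
        · exact le_trans (by norm_num) (Nat.pow_le_pow_right two_pos h)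
      obtain ⟨a, ha, b, hb, hbne, hgab, hgA, hgc, hgfix⟩ := exists_move hinv hfree (s := O)
        (Set.nonempty_of_ncard_ne_zero (by omega)) (by omega)
      set g := swap a b * swap (τ a) (τ b)
      obtain ⟨c, hc, hgcc⟩ : ∃ c ∈ O, g c = c := by
        by_contra hh
        push Not at hh
        have hsub : O ⊆ ({a, τ a, τ b} : Set (Fin n)) := fun y hy => by
          by_contra h
          simp only [Set.mem_insert_iff, Set.mem_singleton_iff, not_or] at h
          exact hh y hy (hgfix y h.1 (fun e => hb (e ▸ hy)) h.2.1 h.2.2)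
        have h1 := Set.ncard_le_ncard hsub (Set.toFinite _)
        have h2 := Set.ncard_insert_le a ({τ a, τ b} : Set (Fin n))
        have h3 := Set.ncard_insert_le (τ a) ({τ b} : Set (Fin n))
        rw [Set.ncard_singleton] at h3
        omega
      obtain ⟨x0, hx0⟩ := hA g hgA
      set K : Subgroup G := (stabilizer (Perm (Fin n)) ({O, Oᶜ} : Set (Set (Fin n)))).comap φ
      have hKne : K ≠ ⊤ := by
        intro hK
        have h : x0 ∈ K := hK ▸ Subgroup.mem_top x0
        rw [Subgroup.mem_comap, mem_stabilizer_iff, hx0] at h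
        have h2 : g • O ∈ ({O, Oᶜ} : Set (Set (Fin n))) := by
          rw [← h]; exact Set.smul_mem_smul_set (Set.mem_insert _ _)
        rcases h2 with h2 | h2
        · exact hb (by rw [← hgab, ← h2]; exact Set.smul_mem_smul_set ha)
        · rw [Set.mem_singleton_iff] at h2
          have h3 : g c ∈ Oᶜ := by rw [← h2]; exact Set.smul_mem_smul_set hc
          exact h3 (hgcc.symm ▸ hc)
      obtain ⟨M1, hM1, hKM1⟩ := (eq_top_or_exists_le_coatom K).resolve_left hKne
      have hRK : R ≤ K := by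
        intro x hx
        rw [Subgroup.mem_comap, mem_stabilizer_iff, smul_pair, Set.smul_set_compl]
        rcases hO _ ((hR x).1 hx) with h | h <;> rw [h]
        rw [compl_compl]; exact Set.pair_comm _ _
      have hM1eq : M1 = M := huniq M1 ⟨hM1, hRK.trans hKM1⟩
      subst hM1eq
      subst hM2eq
      have hL := alternating_le_of_halves (L := M2.map φ) (by omega) (hO1.trans hO2.symm) (fun y hy hyA => by
          obtain ⟨x, rfl⟩ := hA y hyA
          refine ⟨x, hKM1 ?_, rfl⟩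
          rw [mem_stabilizer_iff] at hy
          rw [Subgroup.mem_comap, mem_stabilizer_iff, smul_pair, Set.smul_set_compl, hy])
        (g := g) ⟨x0, hCM2 (hmemC x0 fun y => by rw [hx0]; exact hgc y), hx0⟩ ha (hgab.symm ▸ hb) hc
        (hgcc.symm ▸ hc)
      refine hM2.1 (htop M2 (hRK.trans hKM1) fun x hx => ?_)
      obtain ⟨x', hx', e⟩ := hL hx
      exact hφ e ▸ hx'
    · obtain ⟨s, hs, hsc, hRs, hcoat⟩ := hexists hpow
      have e : (stabilizer (Perm (Fin n)) s).comap φ = M2 := (huniq _ ⟨hcoat, hRs⟩).trans hM2eq.symm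
      rw [Nat.even_iff] at he
      have hpar : 2 ^ Nat.log 2 n % 2 = 0 := by
        obtain ⟨i, hi⟩ : ∃ i, Nat.log 2 n = i + 1 := ⟨Nat.log 2 n - 1, by
          have : Nat.log 2 n ≠ 0 := fun e => by rw [e] at hlog3; omega
          omega⟩
        rw [hi, pow_succ]; omega
      obtain ⟨a, ha, b, hb, -, hgab, hgA, hgc, -⟩ := exists_move hinv hfree (s := s)
        (Set.nonempty_of_ncard_ne_zero (by omega)) (by omega)
      obtain ⟨x0, hx0⟩ := hA _ hgA
      have h : x0 ∈ (stabilizer (Perm (Fin n)) s).comap φ :=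
        e ▸ hCM2 (hmemC x0 fun y => by rw [hx0]; exact hgc y)
      rw [Subgroup.mem_comap, mem_stabilizer_set, hx0] at h
      have h' := (h a).2 ha
      rw [Perm.smul_def, hgab] at h'
      exact hb h'
  · have hne : 2 ^ Nat.log 2 n ≠ n := fun e => by
      obtain ⟨i, hi⟩ : ∃ i, Nat.log 2 n = i + 1 := ⟨Nat.log 2 n - 1, by
        have : Nat.log 2 n ≠ 0 := fun e => by rw [e] at hlog3; omega
        omega⟩
      rw [hi, pow_succ] at e
      rw [Nat.odd_iff] at ho
      omega
    obtain ⟨t, ht, htc, hRt, hcoat⟩ := hexists hne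
    have hne2 : 2 ≤ n - 2 ^ Nat.log 2 n := by
      by_contra hh
      exact hk ⟨Nat.log 2 n, Nat.le_log_of_pow_le (by norm_num) (by norm_num; omega), by omega⟩
    obtain ⟨c, hc, hu⟩ := hod (Nat.not_even_iff_odd.2 ho)
    have hKc : IsCoatom ((stabilizer (Perm (Fin n)) ({c} : Set (Fin n))).comap φ) :=
      hstab _ (Set.singleton_nonempty c) (Set.nonempty_of_ncard_ne_zero (by
        have := Set.ncard_add_ncard_compl ({c} : Set (Fin n))
        rw [Nat.card_fin, Set.ncard_singleton] at this; omega)) (by rw [Set.ncard_singleton]; omega)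
    have e := (huniq _ ⟨hKc, hRle (fun x hx => mem_stabilizer_singleton.2 (fix_of_unique S hc hu hτ hx))⟩).trans
      (huniq _ ⟨hcoat, hRt⟩).symm
    obtain ⟨b, hbc, hb, p, q, hpq, hpc, hqc, hp, hq, hiff⟩ : ∃ b, b ≠ c ∧ (c ∈ t ↔ b ∈ t) ∧
        ∃ p q, p ≠ q ∧ c ≠ p ∧ c ≠ q ∧ b ≠ p ∧ b ≠ q ∧ (p ∈ t ↔ q ∈ t) := by
      by_cases hct : c ∈ t
      · obtain ⟨b, hb, hbc⟩ := exists_ne_of_two_le (s := t) (by omega) c
        obtain ⟨p, q, hp, hq, hpq⟩ := (Set.one_lt_ncard_iff (Set.toFinite _)).1 (show 1 < tᶜ.ncard by omega)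
        exact ⟨b, hbc, iff_of_true hct hb, p, q, hpq, fun e => hp (e ▸ hct), fun e => hq (e ▸ hct),
          fun e => hp (e ▸ hb), fun e => hq (e ▸ hb), iff_of_false hp hq⟩
      · obtain ⟨b, hb, hbc⟩ := exists_ne_of_two_le (s := tᶜ) (by omega) c
        obtain ⟨p, q, hp, hq, hpq⟩ := (Set.one_lt_ncard_iff (Set.toFinite _)).1 (show 1 < t.ncard by omega)
        exact ⟨b, hbc, iff_of_false hct hb, p, q, hpq, fun e => hct (e ▸ hp), fun e => hct (e ▸ hq),
          fun e => hb (e ▸ hp), fun e => hb (e ▸ hq), iff_of_true hp hq⟩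
    obtain ⟨x0, hx0⟩ := hA _ (sign_swap_mul_swap (a := c) (b := b) (c := p) (d := q) hbc.symm hpq)
    have h : x0 ∈ (stabilizer (Perm (Fin n)) ({c} : Set (Fin n))).comap φ := by
      rw [e, Subgroup.mem_comap, hx0]
      exact mul_mem (mem_stab_of_swap hb) (mem_stab_of_swap hiff)
    rw [Subgroup.mem_comap, hx0, mem_stabilizer_singleton, Perm.mul_apply,
      swap_apply_of_ne_of_ne hpc hqc, swap_apply_left] at h
    exact hbc h

include hA hR hstab htop hφ in
theorem unique {k : ℕ} (hk : 2 ≤ k) (hn : n = 2 ^ k + 1) :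
    ∃! M : Subgroup G, IsCoatom M ∧ R ≤ M := by
  obtain ⟨τ, hinv, -, hod, hτ, hsw⟩ := exists_inv S
  have hk4 : 4 ≤ 2 ^ k := le_trans (by norm_num) (Nat.pow_le_pow_right two_pos hk)
  have hnodd : ¬ Even n := by
    obtain ⟨i, rfl⟩ : ∃ i, k = i + 1 := ⟨k - 1, by omega⟩
    rw [pow_succ] at hn
    rw [Nat.even_iff]; omega
  obtain ⟨c, hc, hu⟩ := hod hnodd
  have hSc : ∀ x ∈ S, x c = c := fun x hx => fix_of_unique S hc hu hτ hx
  have hτne : ∀ x, x ≠ c → τ x ≠ x := fun x hx e => hx (hu x e)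
  have hτc : ∀ x, x ≠ c → τ x ≠ c := fun x hx e => hx (by rw [← hinv x, e, hc])
  have hkey : ∀ F : Finset (Fin n), F.card < n → ∃ r, r ∉ F := by
    intro F hF
    by_contra hh
    push Not at hh
    rw [Finset.eq_univ_of_forall hh, Finset.card_univ, Fintype.card_fin] at hF
    exact lt_irrefl _ hF
  have htrans : ∀ y b, y ≠ c → b ≠ c → ∃ x ∈ R, φ x y = b := by
    intro y b hy hb
    obtain ⟨s, hs, hsb⟩ : ∃ s ∈ S, s y = b := by
      by_cases e : b = y
      · exact ⟨1, one_mem _, by simp [e]⟩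
      refine orbit_eq S (k := k) (by omega) (Or.inr hn) y e ⟨swap y (τ y), hsw y, ?_⟩ fun d hd => ?_
      · rw [swap_apply_left]; exact hτne y hy
      · intro ebd
        subst ebd
        have := hd _ (hsw b)
        rw [swap_apply_left] at this
        exact hτne b hb this
    by_cases hsA : s ∈ alternatingGroup (Fin n)
    · obtain ⟨x, rfl⟩ := hA s hsA
      exact ⟨x, (hR x).2 hs, hsb⟩
    · obtain ⟨q, hq⟩ := hkey ({b, τ b, c} : Finset (Fin n)) (lt_of_le_of_lt Finset.card_le_three (by omega))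
      simp only [Finset.mem_insert, Finset.mem_singleton, not_or] at hq
      have hA' : swap q (τ q) * s ∈ alternatingGroup (Fin n) := by
        rw [Perm.mem_alternatingGroup] at hsA ⊢
        rw [map_mul, Perm.sign_swap (hτne q hq.2.2).symm, (Int.units_eq_one_or _).resolve_left hsA]
        rfl
      obtain ⟨x, hx⟩ := hA _ hA'
      refine ⟨x, (hR x).2 (hx ▸ mul_mem (hsw q) hs), ?_⟩
      rw [hx, Perm.mul_apply, hsb, swap_apply_of_ne_of_ne (Ne.symm hq.1)
        (fun e => hq.2.1 (by rw [e, hinv]))]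
  set M0 : Subgroup G := (stabilizer (Perm (Fin n)) ({c} : Set (Fin n))).comap φ
  have hM0 : IsCoatom M0 := hstab _ (Set.singleton_nonempty c) (Set.nonempty_of_ncard_ne_zero (by
    have := Set.ncard_add_ncard_compl ({c} : Set (Fin n))
    rw [Nat.card_fin, Set.ncard_singleton] at this; omega)) (by rw [Set.ncard_singleton]; omega)
  refine ⟨M0, ⟨hM0, fun x hx => mem_stabilizer_singleton.2 (hSc _ ((hR x).1 hx))⟩, ?_⟩
  rintro M ⟨hM, hRM⟩
  by_contra hne
  obtain ⟨x1, hx1, hx1c⟩ : ∃ x ∈ M, φ x c ≠ c := by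
    by_contra hh
    push Not at hh
    have hle : M ≤ M0 := fun x hx => mem_stabilizer_singleton.2 (hh x hx)
    rcases hle.eq_or_lt with h | h
    · exact hne h
    · exact hM0.1 (hM.2 M0 h)
  set L := M.map φ
  have hLR : ∀ y b, y ≠ c → b ≠ c → ∃ h ∈ L, h y = b ∧ h c = c := fun y b hy hb => by
    obtain ⟨x, hx, hxb⟩ := htrans y b hy hb
    exact ⟨φ x, ⟨x, hRM hx, rfl⟩, hxb, hSc _ ((hR x).1 hx)⟩
  have htr : ∀ y, ∃ h ∈ L, h c = y := by
    intro y
    by_cases hy : y = c
    · exact ⟨1, one_mem _, by simp [hy]⟩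
    obtain ⟨h, hh, hhy, -⟩ := hLR _ y hx1c hy
    exact ⟨h * φ x1, mul_mem hh ⟨x1, hx1, rfl⟩, by rw [Perm.mul_apply, hhy]⟩
  haveI : IsPretransitive L (Fin n) :=
    (isPretransitive_iff_base c).2 fun y => by
      obtain ⟨h, hh, hy⟩ := htr y
      exact ⟨⟨h, hh⟩, hy⟩
  have hprim : IsPreprimitive L (Fin n) := by
    refine IsPreprimitive.of_isTrivialBlock_base c fun {B} hcB hB => ?_
    rw [IsTrivialBlock, or_iff_not_imp_left]
    intro hns
    obtain ⟨y, hy, hyc⟩ : ∃ y ∈ B, y ≠ c := by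
      by_contra hh
      push Not at hh
      exact hns fun u hu v hv => (hh u hu).trans (hh v hv).symm
    rw [Set.eq_univ_iff_forall]
    intro b
    by_cases hb : b = c
    · exact hb ▸ hcB
    obtain ⟨h, hh, hhy, hhc⟩ := hLR y b hyc hb
    have e : (⟨h, hh⟩ : L) • B = B :=
      hB.smul_eq_of_mem hcB (show h c ∈ B by rw [hhc]; exact hcB)
    rw [← e, ← hhy]
    exact Set.smul_mem_smul_set hy
  have hSL : ∀ s ∈ S, s ∈ alternatingGroup (Fin n) → s ∈ L := fun s hs hsA => by
    obtain ⟨x, rfl⟩ := hA s hsA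
    exact ⟨x, hRM ((hR x).2 hs), rfl⟩
  suffices h3 : ∃ g : Perm (Fin n), g.IsThreeCycle ∧ g ∈ L by
    obtain ⟨g, hg3, hg⟩ := h3
    have hAL := Perm.alternatingGroup_le_of_isPreprimitive_of_isThreeCycle_mem hprim hg3 hg
    refine hM.1 (htop M hRM fun x hx => ?_)
    obtain ⟨x', hx', e⟩ := hAL hx
    exact hφ e ▸ hx'
  obtain ⟨p, hp⟩ := hkey {c} (by rw [Finset.card_singleton]; omega)
  rw [Finset.mem_singleton] at hp
  obtain ⟨q, hq⟩ := hkey ({c, p, τ p} : Finset (Fin n)) (lt_of_le_of_lt Finset.card_le_three (by omega))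
  simp only [Finset.mem_insert, Finset.mem_singleton, not_or] at hq
  obtain ⟨h, hh, hhp⟩ := htr p
  have hxmem : swap p (τ p) * swap q (τ q) ∈ L :=
    hSL _ (mul_mem (hsw p) (hsw q)) (sign_swap_mul_swap (hτne p hp).symm (hτne q hq.1).symm)
  have hx' : swap c (h⁻¹ (τ p)) * swap (h⁻¹ q) (h⁻¹ (τ q)) ∈ L := by
    have e : h⁻¹ * (swap p (τ p) * swap q (τ q)) * h⁻¹⁻¹ =
        swap c (h⁻¹ (τ p)) * swap (h⁻¹ q) (h⁻¹ (τ q)) := by
      rw [show h⁻¹ * (swap p (τ p) * swap q (τ q)) * h⁻¹⁻¹ =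
        (h⁻¹ * swap p (τ p) * h⁻¹⁻¹) * (h⁻¹ * swap q (τ q) * h⁻¹⁻¹) by group,
        ← Equiv.swap_apply_apply, ← Equiv.swap_apply_apply,
        show h⁻¹ p = c by rw [Perm.inv_def, Equiv.symm_apply_eq, hhp]]
    rw [← e]
    exact mul_mem (mul_mem (inv_mem hh) hxmem) (by rw [inv_inv]; exact hh)
  have hne3 : ∀ {u v : Fin n}, u ≠ v → h⁻¹ u ≠ h⁻¹ v := fun {u v} e e' => e (h⁻¹.injective e')
  have hcimg : ∀ {u : Fin n}, u ≠ p → h⁻¹ u ≠ c := fun {u} e e' => e (by
    rw [← hhp, ← e', Perm.inv_def, Equiv.apply_symm_apply])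
  have hqp : τ q ≠ p := fun e => hq.2.2 (by rw [← e, hinv])
  have hqp' : τ q ≠ τ p := fun e => hq.2.1 (τ.injective e)
  -- the four moved points
  obtain ⟨a1, a2, a3, hx, hc1, hc2, hc3, h12, h13, h23⟩ : ∃ a1 a2 a3, swap c a1 * swap a2 a3 ∈ L ∧
      a1 ≠ c ∧ a2 ≠ c ∧ a3 ≠ c ∧ a1 ≠ a2 ∧ a1 ≠ a3 ∧ a2 ≠ a3 :=
    ⟨_, _, _, hx', hcimg (hτne p hp), hcimg hq.2.1, hcimg hqp, hne3 (Ne.symm hq.2.2), hne3 hqp'.symm,
      hne3 (hτne q hq.1).symm⟩
  rcases eq_or_lt_of_le hk with rfl | hk3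
  · -- five points
    obtain ⟨e, he⟩ := hkey ({c, a1, a2, a3} : Finset (Fin n)) (lt_of_le_of_lt Finset.card_le_four (by omega))
    simp only [Finset.mem_insert, Finset.mem_singleton, not_or] at he
    obtain ⟨he0, he1, he2, he3⟩ := he
    have hall : ∀ y, y = c ∨ y = a1 ∨ y = e ∨ y = a2 ∨ y = a3 := by
      have hu5 : ({c, a1, e, a2, a3} : Finset (Fin n)) = Finset.univ := by
        refine Finset.eq_univ_of_card _ ?_
        simp [hn, hc1.symm, hc2.symm, hc3.symm, h12, h13, h23, Ne.symm he0, Ne.symm he1, he2, he3]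
      intro y
      have := Finset.mem_univ y
      rw [← hu5] at this
      simpa using this
    have hy : swap a1 e * swap a2 a3 ∈ S := by
      by_cases e1 : τ a1 = e
      · have e2 : τ a2 = a3 := by
          rcases hall (τ a2) with h | h | h | h | h
          · exact absurd h (hτc a2 hc2)
          · exact absurd ((hinv a2).symm.trans ((congrArg τ h).trans e1)) (Ne.symm he2)
          · exact absurd (τ.injective (h.trans e1.symm)) h12.symm
          · exact absurd h (hτne a2 hc2)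
          · exact h
        rw [← e1, ← e2]
        exact mul_mem (hsw a1) (hsw a2)
      · suffices key : ∀ b d, τ a1 = b → b ≠ c → d ≠ c → a1 ≠ b → a1 ≠ d → b ≠ d → e ≠ b → e ≠ d →
            (∀ y, y = c ∨ y = a1 ∨ y = e ∨ y = b ∨ y = d) → swap a1 e * swap b d ∈ S by
          rcases hall (τ a1) with h | h | h | h | h
          · exact absurd h (hτc a1 hc1)
          · exact absurd h (hτne a1 hc1)
          · exact absurd h e1
          · exact key a2 a3 h hc2 hc3 h12 h13 h23 he2 he3 hall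
          · rw [swap_comm a2 a3]
            exact key a3 a2 h hc3 hc2 h13 h12 h23.symm he3 he2 fun y => by
              rcases hall y with h | h | h | h | h <;> simp [h]
        intro b d hb hbc hdc h1b h1d hbd heb hed hall'
        have hτe : τ e = d := by
          rcases hall' (τ e) with h | h | h | h | h
          · exact absurd h (hτc e he0)
          · exact absurd (by rw [← hinv e, h, hb]) heb
          · exact absurd h (hτne e he0)
          · exact absurd (τ.injective (h.trans hb.symm)) he1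
          · exact h
        obtain ⟨s, hs, hsa⟩ := orbit_eq S (k := 2) (by norm_num) (Or.inr hn) a1 he1
          ⟨swap a1 (τ a1), hsw a1, by rw [swap_apply_left]; exact hτne a1 hc1⟩ fun f hf => by
            intro ef
            subst ef
            have := hf _ (hsw e)
            rw [swap_apply_left] at this
            exact hτne e he0 this
        have hsb : s b = d := by rw [← hb, hτ s hs, hsa, hτe]
        have hsd : s d = τ (s e) := by rw [← hτe, hτ s hs]
        have hse : s e = a1 ∨ s e = b := by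
          rcases hall' (s e) with h | h | h | h | h
          · exact absurd (s.injective (h.trans (hSc s hs).symm)) he0
          · exact Or.inl h
          · exact absurd (s.injective (h.trans hsa.symm)) he1
          · exact Or.inr h
          · exact absurd (s.injective (h.trans hsb.symm)) heb
        rcases hse with hse | hse
        · convert hs using 1
          rw [hse, hb] at hsd
          refine Equiv.ext fun y => ?_
          rcases hall' y with rfl | rfl | rfl | rfl | rfl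
          · rw [Perm.mul_apply, hSc s hs, swap_apply_of_ne_of_ne hbc.symm hdc.symm,
              swap_apply_of_ne_of_ne hc1.symm (Ne.symm he0)]
          · rw [Perm.mul_apply, hsa, swap_apply_of_ne_of_ne h1b h1d, swap_apply_left]
          · rw [Perm.mul_apply, hse, swap_apply_of_ne_of_ne heb hed, swap_apply_right]
          · rw [Perm.mul_apply, hsb, swap_apply_left, swap_apply_of_ne_of_ne h1d.symm hed.symm]
          · rw [Perm.mul_apply, hsd, swap_apply_right, swap_apply_of_ne_of_ne h1b.symm heb.symm]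
        · convert mul_mem (hb ▸ hsw a1) hs using 1
          rw [hse, ← hb, hinv] at hsd
          refine Equiv.ext fun y => ?_
          rcases hall' y with rfl | rfl | rfl | rfl | rfl
          · rw [Perm.mul_apply, Perm.mul_apply, hSc s hs, swap_apply_of_ne_of_ne hbc.symm hdc.symm,
              swap_apply_of_ne_of_ne hc1.symm (Ne.symm he0), swap_apply_of_ne_of_ne hc1.symm hbc.symm]
          · rw [Perm.mul_apply, Perm.mul_apply, hsa, swap_apply_of_ne_of_ne h1b h1d, swap_apply_left,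
              swap_apply_of_ne_of_ne he1 heb]
          · rw [Perm.mul_apply, Perm.mul_apply, hse, swap_apply_of_ne_of_ne heb hed, swap_apply_right,
              swap_apply_right]
          · rw [Perm.mul_apply, Perm.mul_apply, hsb, swap_apply_left, swap_apply_of_ne_of_ne h1d.symm hed.symm,
              swap_apply_of_ne_of_ne h1d.symm hbd.symm]
          · rw [Perm.mul_apply, Perm.mul_apply, hsd, swap_apply_right, swap_apply_of_ne_of_ne h1b.symm heb.symm,
              swap_apply_left]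
    refine ⟨_, ?_, mul_mem hx (hSL _ hy (sign_swap_mul_swap (Ne.symm he1) h23))⟩
    have e : swap c a1 * swap a2 a3 * (swap a1 e * swap a2 a3) = swap a1 c * swap a1 e := by
      rw [swap_comm_swap (Ne.symm h12) (Ne.symm he2) (Ne.symm h13) (Ne.symm he3) |>.symm, mul_assoc,
        ← mul_assoc (swap a2 a3) (swap a2 a3), swap_mul_self, one_mul, swap_comm c a1]
    rw [e]
    exact Perm.isThreeCycle_swap_mul_swap_same hc1 (Ne.symm he1) (Ne.symm he0)
  · -- at least nine points
    have hn9 : 9 ≤ n := by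
      have : 2 ^ 3 ≤ 2 ^ k := Nat.pow_le_pow_right two_pos hk3
      omega
    obtain ⟨r, hr⟩ := hkey ({c, a1, a2, a3, τ a1, τ a2, τ a3} : Finset (Fin n))
      (lt_of_le_of_lt ((Finset.card_insert_le _ _).trans (Nat.add_le_add_right Finset.card_le_six 1)) (by omega))
    simp only [Finset.mem_insert, Finset.mem_singleton, not_or] at hr
    obtain ⟨hrc, hr1, hr2, hr3, hr4, hr5, hr6⟩ := hr
    obtain ⟨u, v, p', q', hxe, huv, hup, huq, hvp, hvq, huc, hu1, hu2, hu3, hrp, hrq, hrp', hrq', hru, hrv⟩ :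
        ∃ u v p' q', swap c a1 * swap a2 a3 = swap u v * swap p' q' ∧ u ≠ v ∧ u ≠ p' ∧ u ≠ q' ∧ v ≠ p' ∧
          v ≠ q' ∧ u ≠ c ∧ τ u ≠ v ∧ τ u ≠ p' ∧ τ u ≠ q' ∧ r ≠ p' ∧ r ≠ q' ∧ τ r ≠ p' ∧ τ r ≠ q' ∧
          (r ≠ u ∧ r ≠ τ u) ∧ r ≠ v ∧ τ r ≠ v := by
      have hτr : ∀ {z}, r ≠ τ z → τ r ≠ z := fun {z} e e' => e (by rw [← e', hinv])
      have hτrc : τ r ≠ c := hτc r hrc
      by_cases e : τ a1 = a2 ∨ τ a1 = a3
      · rcases e with e | e
        · refine ⟨a3, a2, c, a1, ?_, h23.symm, hc3, h13.symm, hc2, h12.symm, hc3, ?_, hτc a3 hc3, ?_,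
            hrc, hr1, hτrc, hτr hr4, ⟨hr3, hr6⟩, hr2, hτr hr5⟩
          · rw [swap_comm a3 a2]
            exact swap_comm_swap hc2.symm hc3.symm h12 h13
          · intro e'; exact h13.symm (by rw [← hinv a3, e', ← e, hinv])
          · intro e'; exact h23.symm (by rw [← hinv a3, e', e])
        · refine ⟨a2, a3, c, a1, ?_, h23, hc2, h12.symm, hc3, h13.symm, hc2, ?_, hτc a2 hc2, ?_,
            hrc, hr1, hτrc, hτr hr4, ⟨hr2, hr5⟩, hr3, hτr hr6⟩
          · exact swap_comm_swap hc2.symm hc3.symm h12 h13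
          · intro e'; exact h12.symm (by rw [← hinv a2, e', ← e, hinv])
          · intro e'; exact h23 (by rw [← hinv a2, e', e])
      · push Not at e
        exact ⟨a1, c, a2, a3, by rw [swap_comm a1 c], hc1, h12, h13, hc2.symm, hc3.symm, hc1, hτc a1 hc1,
          e.1, e.2, hr2, hr3, hτr hr5, hτr hr6, ⟨hr1, hr4⟩, hrc, hτrc⟩
    obtain ⟨hru1, hru2⟩ := hru
    obtain ⟨hrv1, hrv2⟩ := hrv
    have hy : swap u (τ u) * swap r (τ r) ∈ L :=
      hSL _ (mul_mem (hsw u) (hsw r)) (sign_swap_mul_swap (hτne u huc).symm (hτne r hrc).symm)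
    rw [hxe] at hx
    refine ⟨_, ?_, mul_mem (mul_mem (mul_mem hx hy) hx) hy⟩
    have hru3 : τ r ≠ u := fun e => hru2 (by rw [← e, hinv])
    have hru4 : τ r ≠ τ u := fun e => hru1 (τ.injective e)
    rw [commutator_reduce (swap_comm_swap hup huq hvp hvq)
      (swap_comm_swap hru1.symm hru3.symm hru2.symm hru4.symm)
      (swap_comm_swap hup.symm hu2.symm huq.symm hu3.symm)
      (swap_comm_swap hru1.symm hru3.symm hrv1.symm hrv2.symm)
      (swap_comm_swap hrp.symm hrp'.symm hrq.symm hrq'.symm) (swap_mul_self _ _) (swap_mul_self _ _)]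
    exact isThreeCycle_commutator huv (hτne u huc).symm hu1.symm

end Overgroups

end Cfsg.Lib.PermGroup.SylowTwo
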