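import Mathlib

/-!
Transitive groups of degree 22 in which the stabilizer of a point has a normal Sylow 3-subgroup
fixing no further point: there are none.  This gives that no group has 22 Sylow 3-subgroups.
-/

set_option autoImplicit false
set_option maxHeartbeats 1000000

open scoped Classical
open Equiv

namespace Cfsg.Lib.PermGroup.TwentyTwo

variable {Ω : Type*} [Fintype Ω]

/-- The data: a transitive group and, for each point, its 3-subgroup. -/
structure Config (G : Subgroup (Perm Ω)) (P : Ω → Subgroup (Perm Ω)) : Prop where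
  card : Fintype.card Ω = 22
  trans : ∀ a b, ∃ g ∈ G, g a = b
  le : ∀ a, P a ≤ G
  conj : ∀ g ∈ G, ∀ a u, u ∈ P a → g * u * g⁻¹ ∈ P (g a)
  pgroup : ∀ a, IsPGroup 3 (P a)
  fixes : ∀ a, ∀ u ∈ P a, u a = a
  only : ∀ a b, (∀ u ∈ P a, u b = b) → b = a
  contains : ∀ a, ∀ u ∈ G, u a = a → (∃ k : ℕ, u ^ 3 ^ k = 1) → u ∈ P a

/-- The fixed points of a set of permutations. -/
noncomputable def fix (H : Subgroup (Perm Ω)) : Finset Ω := Finset.univ.filter fun x => ∀ u ∈ H, u x = x

/-- The fixed points of a permutation. -/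
noncomputable def fix1 (g : Perm Ω) : Finset Ω := Finset.univ.filter fun x => g x = x

/-- An orbit. -/
noncomputable def orb (H : Subgroup (Perm Ω)) (b : Ω) : Finset Ω := Finset.univ.filter fun x => ∃ u ∈ H, u b = x

theorem mem_orb {H : Subgroup (Perm Ω)} {b x : Ω} : x ∈ orb H b ↔ ∃ u ∈ H, u b = x := by simp [orb]

theorem mem_fix {H : Subgroup (Perm Ω)} {x : Ω} : x ∈ fix H ↔ ∀ u ∈ H, u x = x := by simp [fix]

theorem mem_fix1 {g : Perm Ω} {x : Ω} : x ∈ fix1 g ↔ g x = x := by simp [fix1]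

theorem mem_orb_self (H : Subgroup (Perm Ω)) (b : Ω) : b ∈ orb H b := mem_orb.2 ⟨1, one_mem _, rfl⟩

theorem orb_eq {H : Subgroup (Perm Ω)} {b x : Ω} (hx : x ∈ orb H b) : orb H x = orb H b := by
  obtain ⟨v, hv, rfl⟩ := mem_orb.1 hx
  ext y
  rw [mem_orb, mem_orb]
  constructor
  · rintro ⟨u, hu, rfl⟩
    exact ⟨u * v, mul_mem hu hv, rfl⟩
  · rintro ⟨u, hu, rfl⟩
    exact ⟨u * v⁻¹, mul_mem hu (inv_mem hv), by simp⟩

theorem orb_invariant {H : Subgroup (Perm Ω)} {b : Ω} : ∀ u ∈ H, ∀ x ∈ orb H b, u x ∈ orb H b := by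
  intro u hu x hx
  obtain ⟨v, hv, rfl⟩ := mem_orb.1 hx
  exact mem_orb.2 ⟨u * v, mul_mem hu hv, rfl⟩

theorem card_invariant (H : Subgroup (Perm Ω)) {q : ℕ} [Fact q.Prime] (hH : IsPGroup q H)
    (S : Finset Ω) (hS : ∀ u ∈ H, ∀ x ∈ S, u x ∈ S) :
    S.card ≡ (S.filter fun x => ∀ u ∈ H, u x = x).card [MOD q] := by
  letI : MulAction H S :=
    { smul := fun u x => ⟨(u : Perm Ω) x, hS u u.2 x x.2⟩
      one_smul := fun x => Subtype.ext rfl
      mul_smul := fun u v x => Subtype.ext rfl }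
  have h := hH.card_modEq_card_fixedPoints (S : Type _)
  have h1 : Nat.card (MulAction.fixedPoints H (S : Type _)) = (S.filter fun x => ∀ u ∈ H, u x = x).card := by
    rw [← Nat.card_eq_finsetCard]
    exact Nat.card_congr
      { toFun := fun x => ⟨x.1.1, Finset.mem_filter.2 ⟨x.1.2, fun u hu => congrArg Subtype.val (x.2 ⟨u, hu⟩)⟩⟩
        invFun := fun x => ⟨⟨x.1, (Finset.mem_filter.1 x.2).1⟩,
          fun u => Subtype.ext ((Finset.mem_filter.1 x.2).2 u.1 u.2)⟩
        left_inv := fun x => rfl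
        right_inv := fun x => rfl }
  rwa [Nat.card_eq_finsetCard, h1] at h

theorem card_invariant1 {q : ℕ} [Fact q.Prime] {g : Perm Ω} (hg : g ^ q = 1) (S : Finset Ω)
    (hS : ∀ x ∈ S, g x ∈ S) : S.card ≡ (S.filter fun x => g x = x).card [MOD q] := by
  have hp : IsPGroup q (Subgroup.zpowers g) := by
    rintro ⟨u, hu⟩
    obtain ⟨n, rfl⟩ := Subgroup.mem_zpowers_iff.1 hu
    refine ⟨1, Subtype.ext ?_⟩
    show (g ^ n) ^ q ^ 1 = 1
    rw [pow_one, ← zpow_natCast, ← zpow_mul, mul_comm, zpow_mul, zpow_natCast, hg, one_zpow]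
  have hpow : ∀ n : ℕ, ∀ x ∈ S, (g ^ n) x ∈ S := by
    intro n
    induction n with
    | zero => exact fun x hx => hx
    | succ n ih =>
      intro x hx
      rw [pow_succ', Perm.mul_apply]
      exact hS _ (ih x hx)
  have hS' : ∀ u ∈ Subgroup.zpowers g, ∀ x ∈ S, u x ∈ S := fun u hu x hx => by
    obtain ⟨n, rfl⟩ := (isOfFinOrder_of_finite g).mem_powers_iff_mem_zpowers.2 hu
    exact hpow n x hx
  have h := card_invariant _ hp S hS'
  rwa [Finset.filter_congr (q := fun x => g x = x)] at h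
  intro x _
  refine ⟨fun h => h g (Subgroup.mem_zpowers g), fun h u hu => ?_⟩
  obtain ⟨n, rfl⟩ := Subgroup.mem_zpowers_iff.1 hu
  exact Perm.zpow_apply_eq_self_of_apply_eq_self h n

theorem card_fix1_modEq {q : ℕ} [Fact q.Prime] {g : Perm Ω} (hg : g ^ q = 1) :
    Fintype.card Ω ≡ (fix1 g).card [MOD q] :=
  card_invariant1 hg Finset.univ fun x _ => Finset.mem_univ _

theorem card_orb_mul (H : Subgroup (Perm Ω)) (b : Ω) :
    (orb H b).card * Nat.card {u : H // (u : Perm Ω) b = b} = Nat.card H := by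
  rw [← Nat.card_congr ((MulAction.orbitProdStabilizerEquivGroup H b)), Nat.card_prod]
  congr 1
  · rw [← Nat.card_eq_finsetCard]
    exact Nat.card_congr (Equiv.subtypeEquivRight fun x => by
      rw [mem_orb, MulAction.mem_orbit_iff]
      exact ⟨fun ⟨u, hu, h⟩ => ⟨⟨u, hu⟩, h⟩, fun ⟨u, h⟩ => ⟨u, u.2, h⟩⟩)

variable {G : Subgroup (Perm Ω)} {P : Ω → Subgroup (Perm Ω)} (hC : Config G P)
include hC

theorem conj_iff {g : Perm Ω} (hg : g ∈ G) {a : Ω} {u : Perm Ω} :
    g * u * g⁻¹ ∈ P (g a) ↔ u ∈ P a := by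
  refine ⟨fun h => ?_, hC.conj g hg a u⟩
  have h1 := hC.conj g⁻¹ (inv_mem hg) _ _ h
  rwa [show g⁻¹ * (g * u * g⁻¹) * g⁻¹⁻¹ = u by group, show g⁻¹ (g a) = a by simp] at h1

theorem conj_inf {g : Perm Ω} (hg : g ∈ G) {a b : Ω} :
    Nat.card ↥(P (g a) ⊓ P (g b)) = Nat.card ↥(P a ⊓ P b) :=
  (Nat.card_congr
    { toFun := fun u : ↥(P a ⊓ P b) =>
        (⟨g * u * g⁻¹, (conj_iff hC hg).2 u.2.1, (conj_iff hC hg).2 u.2.2⟩ : ↥(P (g a) ⊓ P (g b)))
      invFun := fun u => ⟨g⁻¹ * u * g,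
        (conj_iff hC hg).1 (by rw [show g * (g⁻¹ * (u : Perm Ω) * g) * g⁻¹ = u by group]; exact u.2.1),
        (conj_iff hC hg).1 (by rw [show g * (g⁻¹ * (u : Perm Ω) * g) * g⁻¹ = u by group]; exact u.2.2)⟩
      left_inv := fun u => Subtype.ext (by simp [mul_assoc])
      right_inv := fun u => Subtype.ext (by simp [mul_assoc]) }).symm

theorem card_P (a b : Ω) : Nat.card (P a) = Nat.card (P b) := by
  obtain ⟨g, hg, rfl⟩ := hC.trans a b
  have h := conj_inf hC hg (a := a) (b := a)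
  rwa [inf_idem, inf_idem, eq_comm] at h

theorem orb_mul (a b : Ω) : (orb (P a) b).card * Nat.card ↥(P a ⊓ P b) = Nat.card (P a) := by
  rw [← card_orb_mul (P a) b]
  congr 1
  exact Nat.card_congr
    { toFun := fun u => ⟨⟨u.1, u.2.1⟩, hC.fixes b _ u.2.2⟩
      invFun := fun u => ⟨u.1.1, u.1.2, hC.contains b _ (hC.le a u.1.2) u.2
        (by obtain ⟨k, hk⟩ := hC.pgroup a u.1; exact ⟨k, congrArg Subtype.val hk⟩)⟩
      left_inv := fun u => rfl
      right_inv := fun u => rfl }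

theorem orb_comm (a b : Ω) : (orb (P a) b).card = (orb (P b) a).card := by
  have h1 := orb_mul hC a b
  have h2 := orb_mul hC b a
  rw [inf_comm, ← card_P hC a b, ← h1] at h2
  exact (Nat.eq_of_mul_eq_mul_right Nat.card_pos h2).symm

theorem fix_P (a : Ω) (S : Finset Ω) :
    (S.filter fun x => ∀ u ∈ P a, u x = x) = S.filter fun x => x = a :=
  Finset.filter_congr fun x _ => ⟨hC.only a x, fun h u hu => by rw [h]; exact hC.fixes a u hu⟩

theorem invariant_mod {a : Ω} {S : Finset Ω} (hS : ∀ u ∈ P a, ∀ x ∈ S, u x ∈ S) :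
    S.card % 3 = if a ∈ S then 1 else 0 := by
  haveI : Fact (Nat.Prime 3) := ⟨Nat.prime_three⟩
  have h := card_invariant (P a) (hC.pgroup a) S hS
  rw [fix_P hC] at h
  have h1 : (S.filter fun x => x = a).card = if a ∈ S then 1 else 0 := by
    split_ifs with ha
    · exact Finset.card_eq_one.2 ⟨a, by ext x; simp; rintro rfl; exact ha⟩
    · exact Finset.card_eq_zero.2 (by ext x; simp; rintro hx rfl; exact ha hx)
  rw [h1] at h
  split_ifs at h ⊢ <;> exact h

theorem orb_size {a b : Ω} (hab : b ≠ a) : (orb (P a) b).card = 3 ∨ (orb (P a) b).card = 9 := by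
  haveI : Fact (Nat.Prime 3) := ⟨Nat.prime_three⟩
  obtain ⟨k, hk⟩ := IsPGroup.iff_card.1 (hC.pgroup a)
  have hd : (orb (P a) b).card ∣ 3 ^ k := hk ▸ ⟨_, (orb_mul hC a b).symm⟩
  obtain ⟨i, -, hi⟩ := (Nat.dvd_prime_pow Nat.prime_three).1 hd
  have ha : a ∉ orb (P a) b := fun h => by
    obtain ⟨u, hu, hub⟩ := mem_orb.1 h
    exact hab (u.injective (hub.trans (hC.fixes a u hu).symm))
  have h0 := invariant_mod hC (a := a) (S := orb (P a) b) orb_invariant
  rw [if_neg ha] at h0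
  have hle : (orb (P a) b).card < 22 := hC.card ▸
    Finset.card_lt_univ_of_notMem ha
  have hi' : i < 3 := by
    by_contra hi3
    have : 3 ^ 3 ≤ 3 ^ i := Nat.pow_le_pow_right (by norm_num) (not_lt.1 hi3)
    omega
  interval_cases i <;> omega

/-- An invariant equivalence relation is trivial or universal. -/
theorem class_lemma {β : Type*} (f : Ω → β)
    (hf : ∀ g ∈ G, ∀ x y, f x = f y → f (g x) = f (g y)) :
    Function.Injective f ∨ ∀ x y, f x = f y := by
  obtain ⟨a⟩ : Nonempty Ω := Fintype.card_pos_iff.1 (by rw [hC.card]; norm_num)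
  let F : Ω → Finset Ω := fun x => Finset.univ.filter fun y => f y = f x
  have hF : ∀ x, (F x).card = (F a).card := fun x => by
    obtain ⟨g, hg, rfl⟩ := hC.trans a x
    refine (Finset.card_bij (fun y _ => g y) (fun y hy => ?_) (fun y _ z _ h => g.injective h)
      fun y hy => ⟨g⁻¹ y, ?_, by simp⟩).symm
    · simp only [F, Finset.mem_filter, Finset.mem_univ, true_and] at hy ⊢
      exact hf g hg _ _ hy
    · simp only [F, Finset.mem_filter, Finset.mem_univ, true_and] at hy ⊢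
      have h := hf g⁻¹ (inv_mem hg) _ _ hy
      rwa [show g⁻¹ (g a) = a by simp] at h
  have hmod := invariant_mod hC (a := a) (S := F a) fun u hu x hx => by
    simp only [F, Finset.mem_filter, Finset.mem_univ, true_and] at hx ⊢
    have h := hf u (hC.le a hu) _ _ hx
    rwa [hC.fixes a u hu] at h
  rw [if_pos (by simp [F])] at hmod
  have hdvd : (F a).card ∣ 22 := by
    rw [← hC.card, ← Finset.card_univ, Finset.card_eq_sum_card_image f Finset.univ]
    refine Finset.dvd_sum fun v hv => ?_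
    obtain ⟨x, -, rfl⟩ := Finset.mem_image.1 hv
    exact (hF x).symm.dvd
  have hcase : (F a).card = 1 ∨ (F a).card = 22 := by
    have hmem : (F a).card ∈ Nat.divisors 22 := Nat.mem_divisors.2 ⟨hdvd, by norm_num⟩
    rw [show Nat.divisors 22 = {1, 2, 11, 22} by decide] at hmem
    simp only [Finset.mem_insert, Finset.mem_singleton] at hmem
    omega
  rcases hcase with h | h
  · exact Or.inl fun x y hxy => Finset.card_le_one.1 ((hF x).trans h).le x (by simp [F]) y
      (by simp [F, hxy])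
  · refine Or.inr fun x y => ?_
    have hu := Finset.card_eq_iff_eq_univ _ |>.1 (((hF y).trans h).trans hC.card.symm)
    have : x ∈ F y := hu ▸ Finset.mem_univ x
    simpa [F] using this

theorem orb_conj {g : Perm Ω} (hg : g ∈ G) (a b : Ω) :
    (orb (P (g a)) (g b)).card = (orb (P a) b).card := by
  have h1 := orb_mul hC (g a) (g b)
  rw [conj_inf hC hg, ← card_P hC a (g a), ← orb_mul hC a b] at h1
  exact Nat.eq_of_mul_eq_mul_right Nat.card_pos h1

omit hC in
/-- Points in orbits of length three of `P a`. -/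
noncomputable def R (P : Ω → Subgroup (Perm Ω)) (a : Ω) : Finset Ω :=
  Finset.univ.filter fun b => b ≠ a ∧ (orb (P a) b).card = 3

omit hC in
/-- Points in orbits of length nine of `P a`. -/
noncomputable def O (P : Ω → Subgroup (Perm Ω)) (a : Ω) : Finset Ω :=
  Finset.univ.filter fun b => b ≠ a ∧ (orb (P a) b).card = 9

omit hC in
theorem mem_R {a b : Ω} : b ∈ R P a ↔ b ≠ a ∧ (orb (P a) b).card = 3 := by simp [R]

omit hC in
theorem mem_O {a b : Ω} : b ∈ O P a ↔ b ≠ a ∧ (orb (P a) b).card = 9 := by simp [O]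

/-- The line through `a` and `b`. -/
noncomputable def L (P : Ω → Subgroup (Perm Ω)) (a b : Ω) : Finset Ω := fix (P a ⊓ P b)

theorem R_conj {g : Perm Ω} (hg : g ∈ G) {a b : Ω} : g b ∈ R P (g a) ↔ b ∈ R P a := by
  rw [mem_R, mem_R, orb_conj hC hg, g.injective.ne_iff]

theorem O_conj {g : Perm Ω} (hg : g ∈ G) {a b : Ω} : g b ∈ O P (g a) ↔ b ∈ O P a := by
  rw [mem_O, mem_O, orb_conj hC hg, g.injective.ne_iff]

theorem L_conj {g : Perm Ω} (hg : g ∈ G) {a b x : Ω} : g x ∈ L P (g a) (g b) ↔ x ∈ L P a b := by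
  simp only [L, mem_fix]
  constructor
  · intro h u hu
    have h1 := h (g * u * g⁻¹) ⟨(conj_iff hC hg).2 hu.1, (conj_iff hC hg).2 hu.2⟩
    simpa using h1
  · intro h u hu
    have e : g * (g⁻¹ * u * g) * g⁻¹ = u := by group
    have h1 := h (g⁻¹ * u * g)
      ⟨(conj_iff hC hg).1 (by rw [e]; exact hu.1), (conj_iff hC hg).1 (by rw [e]; exact hu.2)⟩
    rw [← e]
    simp only [Perm.mul_apply, show g⁻¹ (g x) = x by simp] at h1 ⊢
    rw [h1]

theorem mem_O_orb {a b x : Ω} (hb : b ∈ O P a) (hx : x ∈ orb (P a) b) : x ∈ O P a := by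
  rw [mem_O] at hb ⊢
  obtain ⟨u, hu, rfl⟩ := mem_orb.1 hx
  refine ⟨fun h => hb.1 (u.injective (h.trans (hC.fixes a u hu).symm)), ?_⟩
  rw [orb_eq hx]
  exact hb.2

theorem nine_dvd (a : Ω) : ∀ S : Finset Ω, S ⊆ O P a → (∀ x ∈ S, orb (P a) x ⊆ S) → 9 ∣ S.card := by
  intro S
  induction S using Finset.strongInduction with
  | H S ih =>
    intro hS hinv
    rcases S.eq_empty_or_nonempty with rfl | ⟨b, hb⟩
    · simp
    have h9 : (orb (P a) b).card = 9 := (mem_O.1 (hS hb)).2
    have hss : S \ orb (P a) b ⊂ S :=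
      Finset.sdiff_ssubset (hinv b hb) ⟨b, mem_orb_self _ _⟩
    have h := ih _ hss (Finset.sdiff_subset.trans hS) fun x hx y hy => by
      rw [Finset.mem_sdiff] at hx ⊢
      exact ⟨hinv x hx.1 hy, fun h => hx.2 (by rw [← orb_eq h, orb_eq hy]; exact mem_orb_self _ _)⟩
    rw [Finset.card_sdiff_of_subset (hinv b hb), h9] at h
    have : 9 ≤ S.card := h9 ▸ Finset.card_le_card (hinv b hb)
    omega

theorem card_R_add (a : Ω) : (R P a).card + (O P a).card = 21 ∧ 9 ∣ (O P a).card := by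
  refine ⟨?_, nine_dvd hC a _ subset_rfl fun x hx y hy => mem_O_orb hC hx hy⟩
  rw [← Finset.card_union_of_disjoint (Finset.disjoint_left.2 fun x h1 h2 => by
    rw [mem_R] at h1; rw [mem_O] at h2; omega)]
  have h : R P a ∪ O P a = Finset.univ.erase a := by
    ext x
    simp only [Finset.mem_union, mem_R, mem_O, Finset.mem_erase, Finset.mem_univ, and_true]
    exact ⟨fun h => h.elim And.left And.left, fun h => (orb_size hC h).imp (⟨h, ·⟩) (⟨h, ·⟩)⟩
  rw [h, Finset.card_erase_of_mem (Finset.mem_univ _), Finset.card_univ, hC.card]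

theorem inter_card {a b : Ω} (hb : b ∈ R P a) : 3 * Nat.card ↥(P a ⊓ P b) = Nat.card (P a) := by
  rw [← orb_mul hC a b, (mem_R.1 hb).2]

theorem inter_ne_bot (hk : ∀ a, Nat.card (P a) ≠ 3) {a b : Ω} (hb : b ∈ R P a) : P a ⊓ P b ≠ ⊥ :=
  fun h => hk a (by rw [← inter_card hC hb, h, Subgroup.card_bot, mul_one])

theorem self_mem_L (a b : Ω) : a ∈ L P a b ∧ b ∈ L P a b :=
  ⟨mem_fix.2 fun u hu => hC.fixes a u hu.1, mem_fix.2 fun u hu => hC.fixes b u hu.2⟩

theorem line_pair {a b c d : Ω} (hb : b ∈ R P a) (hc : c ∈ L P a b) (hd : d ∈ L P a b) (hcd : d ≠ c) :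
    d ∈ R P c ∧ P c ⊓ P d = P a ⊓ P b := by
  have hle : ∀ e ∈ L P a b, P a ⊓ P b ≤ P e := fun e he u hu =>
    hC.contains e u (hC.le a hu.1) (mem_fix.1 he u hu) (by
      obtain ⟨k, hk⟩ := hC.pgroup a ⟨u, hu.1⟩
      exact ⟨k, congrArg Subtype.val hk⟩)
  have h1 := orb_mul hC c d
  have h2 := inter_card hC hb
  rw [← card_P hC a c, ← h2] at h1
  have hge := Subgroup.card_le_of_le (le_inf (hle c hc) (hle d hd))
  have h3 : (orb (P c) d).card = 3 := by
    rcases orb_size hC hcd with h | h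
    · exact h
    · have : 0 < Nat.card ↥(P a ⊓ P b) := Nat.card_pos
      rw [h] at h1
      omega
  exact ⟨mem_R.2 ⟨hcd, h3⟩, (Subgroup.eq_of_le_of_card_ge (le_inf (hle c hc) (hle d hd))
    (by rw [h3] at h1; omega)).symm⟩

theorem orb_subset_L {a b : Ω} (hb : b ∈ R P a) : orb (P a) b ⊆ L P a b := by
  haveI : Fact (Nat.Prime 3) := ⟨Nat.prime_three⟩
  have h := card_invariant (P a ⊓ P b) ((hC.pgroup a).to_le inf_le_left) (orb (P a) b)
    fun u hu x hx => orb_invariant u hu.1 x hx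
  rw [(mem_R.1 hb).2] at h
  have hpos : 0 < ((orb (P a) b).filter fun x => ∀ u ∈ P a ⊓ P b, u x = x).card :=
    Finset.card_pos.2 ⟨b, Finset.mem_filter.2 ⟨mem_orb_self _ _, fun u hu => hC.fixes b u hu.2⟩⟩
  have hle : ((orb (P a) b).filter fun x => ∀ u ∈ P a ⊓ P b, u x = x).card ≤ 3 :=
    (mem_R.1 hb).2 ▸ Finset.card_filter_le _ _
  have heq := Finset.eq_of_subset_of_card_le (Finset.filter_subset _ _)
    (show (orb (P a) b).card ≤ ((orb (P a) b).filter fun x => ∀ u ∈ P a ⊓ P b, u x = x).card by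
      rw [(mem_R.1 hb).2]; simp only [Nat.ModEq] at h; omega)
  intro x hx
  rw [← heq] at hx
  exact mem_fix.2 (Finset.mem_filter.1 hx).2

theorem L_subset {a b x : Ω} (hb : b ∈ R P a) (hx : x ∈ L P a b) (hxa : x ≠ a) :
    x ∈ R P a ∧ L P a x = L P a b := by
  obtain ⟨h1, h2⟩ := line_pair hC hb (self_mem_L hC a b).1 hx hxa
  exact ⟨h1, by rw [L, L, h2]⟩

theorem card_L (hk : ∀ a, Nat.card (P a) ≠ 3) {a b : Ω} (hb : b ∈ R P a) :
    4 ≤ (L P a b).card ∧ (L P a b).card % 3 = 1 ∧ (L P a b).card ≤ 21 := by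
  have hinv : ∀ u ∈ P a, ∀ x ∈ L P a b, u x ∈ L P a b := by
    intro u hu x hx
    rcases eq_or_ne x a with rfl | hxa
    · rwa [hC.fixes x u hu]
    obtain ⟨h1, h2⟩ := L_subset hC hb hx hxa
    exact h2 ▸ orb_subset_L hC h1 (mem_orb.2 ⟨u, hu, rfl⟩)
  have h1 := invariant_mod hC hinv
  rw [if_pos (self_mem_L hC a b).1] at h1
  have h2 : 3 < (L P a b).card := by
    rw [← (mem_R.1 hb).2]
    refine Finset.card_lt_card ((Finset.ssubset_iff_of_subset (orb_subset_L hC hb)).2
      ⟨a, (self_mem_L hC a b).1, fun h => ?_⟩)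
    obtain ⟨u, hu, hub⟩ := mem_orb.1 h
    exact (mem_R.1 hb).1 (u.injective (hub.trans (hC.fixes a u hu).symm))
  refine ⟨h2, h1, ?_⟩
  have h3 : L P a b ≠ Finset.univ := fun h => inter_ne_bot hC hk hb ((Subgroup.eq_bot_iff_forall _).2
    fun u hu => Equiv.ext fun x => mem_fix.1 ((Finset.ext_iff.1 h x).2 (Finset.mem_univ _)) u hu)
  have := (Finset.card_lt_iff_ne_univ _).2 h3
  rw [hC.card] at this
  omega

/-- All lines have four points. -/
theorem line_four (hk : ∀ a, Nat.card (P a) ≠ 3) {a b : Ω} (hb : b ∈ R P a) :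
    (L P a b).card = 4 ∧ (R P a).card = 12 ∧ (O P a).card = 9 := by
  let m : ℕ → Ω → Finset Ω := fun l a => (R P a).filter fun b => (L P a b).card = l
  have hm : ∀ l x, (m l x).card = (m l a).card := fun l x => by
    obtain ⟨g, hg, rfl⟩ := hC.trans a x
    refine (Finset.card_bij (fun y _ => g y) (fun y hy => ?_) (fun y _ z _ h => g.injective h)
      fun y hy => ⟨g⁻¹ y, ?_, by simp⟩).symm
    · simp only [m, Finset.mem_filter] at hy ⊢
      refine ⟨(R_conj hC hg).2 hy.1, ?_⟩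
      rw [← hy.2]
      exact (Finset.card_bij (fun z _ => g z) (fun z hz => (L_conj hC hg).2 hz)
        (fun z _ w _ h => g.injective h)
        fun z hz => ⟨g⁻¹ z, (L_conj hC hg).1 (by simpa using hz), by simp⟩).symm
    · simp only [m, Finset.mem_filter] at hy ⊢
      refine ⟨(R_conj hC hg).1 (by simpa using hy.1), ?_⟩
      rw [← hy.2]
      exact Finset.card_bij (fun z _ => g z) (fun z hz => by simpa using (L_conj hC hg).2 hz)
        (fun z _ w _ h => g.injective h)
        fun z hz => ⟨g⁻¹ z, (L_conj hC hg).1 (by simpa using hz), by simp⟩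
  have hdiv1 : ∀ l, l - 1 ∣ (m l a).card := fun l => by
    rw [Finset.card_eq_sum_card_image (L P a) (m l a)]
    refine Finset.dvd_sum fun v hv => ?_
    obtain ⟨c, hc, rfl⟩ := Finset.mem_image.1 hv
    simp only [m, Finset.mem_filter] at hc
    rw [show (m l a).filter (fun y => L P a y = L P a c) = (L P a c).erase a by
      ext y
      simp only [m, Finset.mem_filter, Finset.mem_erase]
      constructor
      · rintro ⟨⟨hy, -⟩, he⟩
        exact ⟨(mem_R.1 hy).1, he ▸ (self_mem_L hC a y).2⟩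
      · rintro ⟨hya, hy⟩
        obtain ⟨h1, h2⟩ := L_subset hC hc.1 hy hya
        exact ⟨⟨h1, h2 ▸ hc.2⟩, h2⟩,
      Finset.card_erase_of_mem (self_mem_L hC a c).1, hc.2]
  have hdiv2 : ∀ l, l * l - l ∣ 22 * (m l a).card := fun l => by
    let S : Finset (Ω × Ω) := Finset.univ.filter fun q => q.2 ∈ m l q.1
    have hS : S.card = 22 * (m l a).card := by
      rw [Finset.card_eq_sum_card_fiberwise (f := Prod.fst) (t := Finset.univ)
        (fun q _ => Finset.mem_univ _), Finset.sum_congr rfl fun x _ => ?_, Finset.sum_const,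
        Finset.card_univ, hC.card, smul_eq_mul]
      rw [← hm l x]
      refine Finset.card_bij (fun q _ => q.2) (fun q hq => ?_) (fun q hq r hr h => ?_)
        fun y hy => ⟨(x, y), by simp [S, hy], rfl⟩
      · simp only [S, Finset.mem_filter, Finset.mem_univ, true_and] at hq
        exact hq.2 ▸ hq.1
      · simp only [Finset.mem_filter] at hq hr
        exact Prod.ext (hq.2.trans hr.2.symm) h
    rw [← hS, Finset.card_eq_sum_card_image (fun q => L P q.1 q.2) S]
    refine Finset.dvd_sum fun v hv => ?_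
    obtain ⟨⟨c, d⟩, hcd, rfl⟩ := Finset.mem_image.1 hv
    simp only [S, m, Finset.mem_filter, Finset.mem_univ, true_and] at hcd
    rw [show S.filter (fun q => L P q.1 q.2 = L P c d) = (L P c d).offDiag by
      ext ⟨e, f⟩
      simp only [S, m, Finset.mem_filter, Finset.mem_univ, true_and, Finset.mem_offDiag]
      constructor
      · rintro ⟨⟨hf, -⟩, he⟩
        exact ⟨he ▸ (self_mem_L hC e f).1, he ▸ (self_mem_L hC e f).2, (mem_R.1 hf).1.symm⟩
      · rintro ⟨he, hf, hne⟩
        obtain ⟨h1, h2⟩ := line_pair hC hcd.1 he hf hne.symm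
        have h3 : L P e f = L P c d := by rw [L, L, h2]
        exact ⟨⟨h1, h3 ▸ hcd.2⟩, h3⟩,
      Finset.offDiag_card, hcd.2]
  obtain ⟨hsum, h9⟩ := card_R_add hC a
  have hall : ∀ c ∈ R P a, (L P a c).card = 4 := fun c hc => by
    obtain ⟨h4, h1, h21⟩ := card_L hC hk hc
    have hpos : 0 < (m (L P a c).card a).card := Finset.card_pos.2 ⟨c, by simp [m, hc]⟩
    have hle : (m (L P a c).card a).card ≤ (R P a).card := Finset.card_filter_le _ _
    have d1 := hdiv1 (L P a c).card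
    have d2 := hdiv2 (L P a c).card
    interval_cases h : (L P a c).card
    all_goals (first | omega | (norm_num at d1 d2 ⊢; omega))
  have hmR : m 4 a = R P a := Finset.filter_true_of_mem hall
  have d1 := hdiv1 4
  have d2 := hdiv2 4
  rw [hmR] at d1 d2
  have : 0 < (R P a).card := Finset.card_pos.2 ⟨b, hb⟩
  refine ⟨hall b hb, ?_, ?_⟩ <;> omega

theorem R_nonempty (a : Ω) : (R P a).Nonempty := by
  obtain ⟨h1, h2⟩ := card_R_add hC a
  exact Finset.card_pos.1 (by omega)

theorem O_orbit {a o : Ω} (h9 : (O P a).card = 9) (ho : o ∈ O P a) : orb (P a) o = O P a :=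
  Finset.eq_of_subset_of_card_le (fun _ hx => mem_O_orb hC ho hx) (by rw [h9, (mem_O.1 ho).2])

/-- In the case of large `P a` the group `P a` has order nine and is regular on `O a`. -/
theorem nine (hk : ∀ a, Nat.card (P a) ≠ 3) (a : Ω) :
    Nat.card (P a) = 9 ∧ (O P a).card = 9 ∧ (R P a).card = 12 ∧
      ∀ o ∈ O P a, ∀ u ∈ P a, u o = o → u = 1 := by
  obtain ⟨b₀, hb₀⟩ := R_nonempty hC a
  obtain ⟨-, hR, hO⟩ := line_four hC hk hb₀
  have hO' : ∀ x, (O P x).card = 9 := fun x => by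
    obtain ⟨c, hc⟩ := R_nonempty hC x
    exact (line_four hC hk hc).2.2
  -- the point stabilizers in `P a` of `O a` lie in every line kernel
  have hmain : ∀ o ∈ O P a, ∀ b ∈ R P a, P a ⊓ P o ≤ P a ⊓ P b := by
    intro o ho b hb
    haveI : Fact (Nat.Prime 3) := ⟨Nat.prime_three⟩
    by_cases htr : O P a ⊆ orb (P a ⊓ P b) o
    · -- then `O b = O a` for a point `b ≠ a`
      exfalso
      have hObs : O P a ⊆ O P b := fun x hx => by
        have hxb : x ≠ b := fun h => by
          subst h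
          rw [mem_R] at hb; rw [mem_O] at hx
          omega
        rcases orb_size hC hxb with h3 | h9
        · exfalso
          have hsub : O P a ⊆ orb (P b) x := fun y hy => by
            have h1 := htr hy
            rw [← orb_eq (htr hx)] at h1
            obtain ⟨u, hu, rfl⟩ := mem_orb.1 h1
            exact mem_orb.2 ⟨u, hu.2, rfl⟩
          have := Finset.card_le_card hsub
          omega
        · exact mem_O.2 ⟨hxb, h9⟩
      have heq : O P a = O P b := Finset.eq_of_subset_of_card_le hObs (by rw [hO', hO'])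
      rcases class_lemma hC (O P) (fun g hg x y hxy => Finset.ext fun z => by
        obtain ⟨w, rfl⟩ := g.surjective z
        rw [O_conj hC hg, O_conj hC hg, hxy]) with hinj | hall
      · exact (mem_R.1 hb).1 (hinj heq).symm
      · rw [hall a o] at ho
        exact (mem_O.1 ho).1 rfl
    · have hinv : ∀ u ∈ P a ⊓ P b, ∀ x ∈ O P a, u x ∈ O P a := fun u hu x hx =>
        mem_O_orb hC hx (mem_orb.2 ⟨u, hu.1, rfl⟩)
      have hsub : orb (P a ⊓ P b) o ⊆ O P a := fun x hx => by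
        obtain ⟨u, hu, rfl⟩ := mem_orb.1 hx
        exact hinv u hu o ho
      have hlt : (orb (P a ⊓ P b) o).card < 9 := by
        rw [← hO]
        exact Finset.card_lt_card ⟨hsub, htr⟩
      have h1 := card_orb_mul (P a ⊓ P b) o
      obtain ⟨k, hk'⟩ := IsPGroup.iff_card.1 ((hC.pgroup a).to_le (inf_le_left : P a ⊓ P b ≤ P a))
      obtain ⟨i, -, hi⟩ := (Nat.dvd_prime_pow Nat.prime_three).1 (hk' ▸ Dvd.intro _ h1)
      have hi2 : i < 2 := by
        by_contra h
        have : 3 ^ 2 ≤ 3 ^ i := Nat.pow_le_pow_right (by norm_num) (not_lt.1 h)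
        omega
      have h2 := inter_card hC hb
      have h3 := orb_mul hC a o
      rw [(mem_O.1 ho).2, ← h2] at h3
      have hst : Nat.card ↥(P a ⊓ P o) ≤ Nat.card ↥((P a ⊓ P b) ⊓ (P a ⊓ P o)) := by
        have he : Nat.card {u : ↥(P a ⊓ P b) // (u : Perm Ω) o = o} =
            Nat.card ↥((P a ⊓ P b) ⊓ (P a ⊓ P o)) := Nat.card_congr
          { toFun := fun u => ⟨u.1.1, u.1.2, u.1.2.1, hC.contains o _ (hC.le a u.1.2.1) u.2 (by
              obtain ⟨k, hk⟩ := hC.pgroup a ⟨u.1.1, u.1.2.1⟩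
              exact ⟨k, congrArg Subtype.val hk⟩)⟩
            invFun := fun u => ⟨⟨u.1, u.2.1⟩, hC.fixes o _ u.2.2.2⟩
            left_inv := fun u => rfl
            right_inv := fun u => rfl }
        rw [he, hi] at h1
        interval_cases i <;> omega
      exact le_trans (Subgroup.eq_of_le_of_card_ge inf_le_right hst).ge inf_le_left
  obtain ⟨b, hb, c, hc, hcb⟩ : ∃ b ∈ R P a, ∃ c ∈ R P a, c ∉ L P a b := by
    refine ⟨b₀, hb₀, ?_⟩
    by_contra h
    push Not at h
    have := Finset.card_le_card h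
    rw [(line_four hC hk hb₀).1, hR] at this
    omega
  have hne : P a ⊓ P b ≠ P a ⊓ P c := fun h => hcb (by
    rw [L, h]; exact (self_mem_L hC a c).2)
  have hD : ∀ o ∈ O P a, P a ⊓ P o = (P a ⊓ P b) ⊓ (P a ⊓ P c) := by
    intro o ho
    refine Subgroup.eq_of_le_of_card_ge (le_inf (hmain o ho b hb) (hmain o ho c hc)) ?_
    have h2 := inter_card hC hb
    have h2' := inter_card hC hc
    have h3 := orb_mul hC a o
    rw [(mem_O.1 ho).2, ← h2] at h3
    obtain ⟨k, hk'⟩ := IsPGroup.iff_card.1 ((hC.pgroup a).to_le (inf_le_left : P a ⊓ P b ≤ P a))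
    have hdvd := Subgroup.card_dvd_of_le (inf_le_left : (P a ⊓ P b) ⊓ (P a ⊓ P c) ≤ P a ⊓ P b)
    rw [hk'] at hdvd
    obtain ⟨i, hik, hi⟩ := (Nat.dvd_prime_pow Nat.prime_three).1 hdvd
    have hlt : i < k := lt_of_le_of_ne hik fun h => hne (by
      have e := Subgroup.eq_of_le_of_card_ge (inf_le_left : (P a ⊓ P b) ⊓ (P a ⊓ P c) ≤ P a ⊓ P b)
        (by rw [hi, hk', h])
      refine Subgroup.eq_of_le_of_card_ge (inf_eq_left.1 e) ?_
      omega)
    have : 3 ^ i * 3 ≤ 3 ^ k := by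
      rw [← pow_succ]; exact Nat.pow_le_pow_right (by norm_num) hlt
    omega
  obtain ⟨o, ho⟩ : (O P a).Nonempty := Finset.card_pos.1 (by omega)
  have hbot : P a ⊓ P o = ⊥ := (Subgroup.eq_bot_iff_forall _).2 fun u hu => Equiv.ext fun x => by
    rcases eq_or_ne x a with rfl | hxa
    · exact hC.fixes x u hu.1
    rcases orb_size hC hxa with h3 | h9
    · exact hC.fixes x u (hmain o ho x (mem_R.2 ⟨hxa, h3⟩) hu).2
    · have hx : x ∈ O P a := mem_O.2 ⟨hxa, h9⟩
      rw [hD o ho, ← hD x hx] at hu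
      exact hC.fixes x u hu.2
  refine ⟨?_, hO, hR, fun o' ho' u hu huo => ?_⟩
  · have h := orb_mul hC a o
    rw [(mem_O.1 ho).2, hbot, Subgroup.card_bot] at h
    omega
  · have : u ∈ P a ⊓ P o' := ⟨hu, hC.contains o' u (hC.le a hu) huo (by
      obtain ⟨k, hk⟩ := hC.pgroup a ⟨u, hu⟩
      exact ⟨k, congrArg Subtype.val hk⟩)⟩
    rwa [hD o' ho', ← hD o ho, hbot, Subgroup.mem_bot] at this

end Cfsg.Lib.PermGroup.TwentyTwo
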