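import Mathlib
import Cfsg.Agent.Lib.PermGroup.TwentyTwo

/-!
Even transitive groups of degree 22 as in `TwentyTwo.Config`: the elements of prime order that
normalize a subgroup of order 11, and the elements of order two and five fixing two points.
-/

set_option autoImplicit false
set_option maxHeartbeats 1000000

open scoped Classical
open Equiv

namespace Cfsg.Lib.PermGroup.TwentyTwo

variable {Ω : Type*} [Fintype Ω] {G : Subgroup (Perm Ω)} {P : Ω → Subgroup (Perm Ω)}
  (hC : Config G P)
include hC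

theorem involution_fix (heven : ∀ g ∈ G, Perm.sign g = 1) {g : Perm Ω} (hg : g ∈ G) (h2 : g ^ 2 = 1) :
    (fix1 g).card % 4 = 2 := by
  haveI : Fact (Nat.Prime 2) := ⟨Nat.prime_two⟩
  have hct := (Perm.pow_prime_eq_one_iff (p := 2)).1 h2
  have hrep : g.cycleType = Multiset.replicate (Multiset.card g.cycleType) 2 :=
    Multiset.eq_replicate_card.2 hct
  have hsum : g.support.card = 2 * Multiset.card g.cycleType := by
    rw [← Perm.sum_cycleType]
    conv_lhs => rw [hrep]
    rw [Multiset.sum_replicate, smul_eq_mul, mul_comm]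
  have hs := Perm.sign_of_cycleType g
  rw [heven g hg, Perm.sum_cycleType, hsum] at hs
  have hev : Even (2 * Multiset.card g.cycleType + Multiset.card g.cycleType) := by
    by_contra ho
    rw [(Nat.not_even_iff_odd.1 ho).neg_one_pow] at hs
    exact absurd hs (by decide)
  have hsplit : (fix1 g).card + g.support.card = 22 := by
    rw [← hC.card, ← Finset.card_univ, ← Finset.card_union_of_disjoint]
    · congr 1
      ext x
      simp [mem_fix1, em]
    · exact Finset.disjoint_left.2 fun x h1 h2 => (Perm.mem_support.1 h2) (mem_fix1.1 h1)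
  rw [Nat.even_iff] at hev
  omega

theorem conj_P {g : Perm Ω} (hg : g ∈ G) {a : Ω} (hga : g a = a) {u : Perm Ω} (hu : u ∈ P a) :
    g * u * g⁻¹ ∈ P a := by
  have h := hC.conj g hg a u hu
  rwa [hga] at h

/-- The part of the fixed point set of an element centralizing `P a`. -/
theorem fix_mod {g : Perm Ω} {a : Ω} (hga : g a = a)
    (hc : ∀ u ∈ P a, g * u = u * g) : (fix1 g).card % 3 = 1 := by
  have h := invariant_mod hC (a := a) (S := fix1 g) fun u hu x hx => by
    rw [mem_fix1] at hx ⊢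
    rw [← Perm.mul_apply, hc u hu, Perm.mul_apply, hx]
  rwa [if_pos (mem_fix1.2 hga)] at h

/-- An element of prime order fixing `a` centralizes `P a` if `P a` is small against that prime. -/
theorem centralizes_of_lt {q : ℕ} [Fact q.Prime] {g : Perm Ω} (hg : g ∈ G) (hgq : g ^ q = 1) {a : Ω}
    (hga : g a = a) (hq : Nat.card (P a) < q) : ∀ u ∈ P a, g * u = u * g := by
  let c : Perm (Perm Ω) := (MulAut.conj g).toEquiv
  have hcpow : ∀ n : ℕ, ∀ u, (c ^ n) u = g ^ n * u * (g ^ n)⁻¹ := fun n => by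
    induction n with
    | zero => intro u; simp
    | succ n ih =>
      intro u
      rw [pow_succ', Perm.mul_apply, ih]
      show g * (g ^ n * u * (g ^ n)⁻¹) * g⁻¹ = _
      rw [pow_succ']
      group
  let S : Finset (Perm Ω) := Finset.univ.filter fun u => u ∈ P a
  have hS : S.card = Nat.card (P a) := by
    rw [← Nat.card_eq_finsetCard]
    exact Nat.card_congr (Equiv.subtypeEquivRight fun u => by simp [S])
  have h := card_invariant1 (Ω := Perm Ω) (g := c) (q := q)
    (Equiv.ext fun u => by rw [hcpow, hgq]; simp) S fun u hu => by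
    simp only [S, Finset.mem_filter, Finset.mem_univ, true_and] at hu ⊢
    exact conj_P hC hg hga hu
  obtain ⟨T, hTS, hTc, hT⟩ : ∃ T ⊆ S, (∀ u ∈ T, c u = u) ∧ S.card ≡ T.card [MOD q] :=
    ⟨_, by intro u hu; simp at hu; exact hu.1, by intro u hu; simp at hu; exact hu.2, h⟩
  rw [hS] at hT
  have h' := Nat.ModEq.eq_of_lt_of_lt hT hq ((Finset.card_le_card hTS).trans_lt (hS.symm ▸ hq))
  have heq := Finset.eq_of_subset_of_card_le hTS (by rw [hS, h'])
  intro u hu
  have hu' : u ∈ T := by rw [heq]; simp [S, hu]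
  exact mul_inv_eq_iff_eq_mul.1 (hTc u hu')

theorem card_P_cases (a : Ω) : Nat.card (P a) = 3 ∨
    ((∀ a, Nat.card (P a) ≠ 3) ∧ Nat.card (P a) = 9) := by
  by_cases h : Nat.card (P a) = 3
  · exact Or.inl h
  · have hk : ∀ x, Nat.card (P x) ≠ 3 := fun x => card_P hC x a ▸ h
    exact Or.inr ⟨hk, (nine hC hk a).1⟩

theorem order_eleven_fixes {g : Perm Ω} (hg : g ∈ G) (h11 : g ^ 11 = 1) {a : Ω} (hga : g a = a) :
    g = 1 := by
  haveI : Fact (Nat.Prime 11) := ⟨by norm_num⟩
  have hlt : Nat.card (P a) < 11 := by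
    rcases card_P_cases hC a with h | ⟨-, h⟩ <;> omega
  have h3 := fix_mod hC hga (centralizes_of_lt hC hg h11 hga hlt)
  have hle : (fix1 g).card ≤ 22 := hC.card ▸ Finset.card_le_univ _
  have hmod := card_fix1_modEq h11
  rw [hC.card, Nat.ModEq] at hmod
  have h22 : (fix1 g).card = 22 := by omega
  have hu := (Finset.card_eq_iff_eq_univ _).1 (h22.trans hC.card.symm)
  exact Equiv.ext fun x => mem_fix1.1 (hu ▸ Finset.mem_univ x)

omit hC in
theorem eq_one_of_fix {g : Perm Ω} (h : fix1 g = Finset.univ) : g = 1 :=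
  Equiv.ext fun x => mem_fix1.1 (h ▸ Finset.mem_univ x)

/-- No element of order prime to `11` centralizes an element of order `11`. -/
theorem centralizer_eleven (heven : ∀ g ∈ G, Perm.sign g = 1) {x : Perm Ω} (hxG : x ∈ G)
    (hx1 : x ≠ 1) (hx : x ^ 11 = 1) {q : ℕ} [hq : Fact q.Prime] (hq11 : q ≠ 11) {g : Perm Ω}
    (hg : g ∈ G) (hgq : g ^ q = 1) (hc : g * x = x * g) : g = 1 := by
  haveI : Fact (Nat.Prime 11) := ⟨by norm_num⟩
  have hinv : ∀ b ∈ fix1 g, x b ∈ fix1 g := fun b hb => by
    rw [mem_fix1] at hb ⊢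
    rw [← Perm.mul_apply, hc, Perm.mul_apply, hb]
  have h := card_invariant1 hx (fix1 g) hinv
  rw [Finset.filter_false_of_mem fun b _ hb => hx1 (order_eleven_fixes hC hxG hx hb),
    Finset.card_empty, Nat.ModEq] at h
  have hmod := card_fix1_modEq hgq
  rw [hC.card] at hmod
  have hle : (fix1 g).card ≤ 22 := hC.card ▸ Finset.card_le_univ _
  obtain h0 | h1 | h2 : (fix1 g).card = 0 ∨ (fix1 g).card = 11 ∨ (fix1 g).card = 22 := by omega
  · rw [h0] at hmod
    have hd : q ∣ 2 * 11 := Nat.modEq_zero_iff_dvd.1 hmod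
    rcases hq.out.dvd_mul.1 hd with h | h
    · obtain rfl := (Nat.prime_dvd_prime_iff_eq hq.out Nat.prime_two).1 h
      have := involution_fix hC heven hg hgq
      omega
    · exact absurd ((Nat.prime_dvd_prime_iff_eq hq.out (by norm_num)).1 h) hq11
  · rw [h1] at hmod
    have hd : q ∣ 11 := by
      have := (Nat.modEq_iff_dvd' (by norm_num)).1 hmod.symm
      simpa using this
    exact absurd ((Nat.prime_dvd_prime_iff_eq hq.out (by norm_num)).1 hd) hq11
  · exact eq_one_of_fix ((Finset.card_eq_iff_eq_univ _).1 (h2.trans hC.card.symm))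

/-- An element normalizing but not centralizing an element of order `11` fixes at most two points. -/
theorem fix_le_two {x : Perm Ω} (hxG : x ∈ G) (hx1 : x ≠ 1) (hx : x ^ 11 = 1) {g : Perm Ω}
    (hn : g * x * g⁻¹ ∈ Subgroup.zpowers x) (hc : g * x ≠ x * g) : (fix1 g).card ≤ 2 := by
  haveI : Fact (Nat.Prime 11) := ⟨by norm_num⟩
  have hord : orderOf x = 11 := orderOf_eq_prime hx hx1
  have hpow : ∀ n : ℤ, ∀ b, (x ^ n) b = b → x ^ n = 1 := fun n b h =>
    order_eleven_fixes hC (zpow_mem hxG n)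
      (by rw [← zpow_natCast, ← zpow_mul, mul_comm, zpow_mul, zpow_natCast, hx, one_zpow]) h
  obtain ⟨i, hi⟩ := Subgroup.mem_zpowers_iff.1 hn
  have hsep : ∀ b ∈ fix1 g, ∀ c ∈ fix1 g, c ∈ orb (Subgroup.zpowers x) b → c = b := by
    intro b hb c hc' hm
    obtain ⟨u, hu, rfl⟩ := mem_orb.1 hm
    obtain ⟨n, rfl⟩ := Subgroup.mem_zpowers_iff.1 hu
    rw [mem_fix1] at hb hc'
    have h1 : g * x ^ n * g⁻¹ = x ^ (i * n) := by rw [← conj_zpow, ← hi, ← zpow_mul]
    have h2 : (x ^ (i * n)) b = (x ^ n) b := by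
      rw [← h1, Perm.mul_apply, Perm.mul_apply, show g⁻¹ b = b by
        conv_lhs => rw [← hb]
        simp, hc']
    have h3 := hpow (i * n - n) b (by
      rw [sub_eq_add_neg, add_comm, zpow_add, Perm.mul_apply, h2]
      simp)
    have h4 : (11 : ℤ) ∣ (i - 1) * n := by
      rw [sub_mul, one_mul, show (11 : ℤ) = ((orderOf x : ℕ) : ℤ) by rw [hord]; rfl]
      exact orderOf_dvd_iff_zpow_eq_one.2 h3
    rcases (Int.prime_iff_natAbs_prime.2 (by norm_num : Nat.Prime (11 : ℤ).natAbs)).dvd_mul.1 h4 with h | h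
    · refine absurd ?_ hc
      have : x ^ (i - 1) = 1 := orderOf_dvd_iff_zpow_eq_one.1 (by rw [hord]; exact_mod_cast h)
      rw [zpow_sub, zpow_one, mul_inv_eq_one, hi] at this
      exact mul_inv_eq_iff_eq_mul.1 this
    · have : x ^ n = 1 := orderOf_dvd_iff_zpow_eq_one.1 (by rw [hord]; exact_mod_cast h)
      rw [this]; rfl
  have horb : ∀ b, (orb (Subgroup.zpowers x) b).card = 11 := fun b => by
    have h := card_orb_mul (Subgroup.zpowers x) b
    rw [Nat.card_zpowers, hord] at h
    rcases (Nat.dvd_prime (by norm_num)).1 (Dvd.intro _ h) with h1 | h1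
    · exfalso
      refine hx1 (order_eleven_fixes hC hxG hx (a := b) ?_)
      exact Finset.card_le_one.1 h1.le _ (mem_orb.2 ⟨x, Subgroup.mem_zpowers x, rfl⟩) _ (mem_orb_self _ _)
    · exact h1
  by_contra h
  obtain ⟨b, hb, c, hc', d, hd, hbc, hbd, hcd⟩ := Finset.two_lt_card.1 (not_le.1 h)
  have hdisj : ∀ {b c}, b ∈ fix1 g → c ∈ fix1 g → b ≠ c →
      Disjoint (orb (Subgroup.zpowers x) b) (orb (Subgroup.zpowers x) c) := fun {b c} hb hc hne => by
    refine Finset.disjoint_left.2 fun y h1 h2 => hne (hsep c hc b hb ?_)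
    rw [← orb_eq h2, orb_eq h1]
    exact mem_orb_self _ _
  have hcard := Finset.card_le_univ
    (orb (Subgroup.zpowers x) b ∪ orb (Subgroup.zpowers x) c ∪ orb (Subgroup.zpowers x) d)
  rw [Finset.card_union_of_disjoint (Finset.disjoint_union_left.2 ⟨hdisj hb hd hbd, hdisj hc' hd hcd⟩),
    Finset.card_union_of_disjoint (hdisj hb hc' hbc), horb, horb, horb, hC.card] at hcard
  omega

/-- No element of order five fixes exactly two points. -/
theorem five_fix {g : Perm Ω} (hg : g ∈ G) (h5 : g ^ 5 = 1) : (fix1 g).card ≠ 2 := by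
  haveI : Fact (Nat.Prime 5) := ⟨by norm_num⟩
  intro h2
  obtain ⟨a, ha⟩ : (fix1 g).Nonempty := Finset.card_pos.1 (by omega)
  have hga := mem_fix1.1 ha
  rcases card_P_cases hC a with h3 | ⟨hk, h9⟩
  · have := fix_mod hC hga (centralizes_of_lt hC hg h5 hga (by omega))
    omega
  · obtain ⟨-, -, hR, -⟩ := nine hC hk a
    have hinv : ∀ x ∈ R P a, g x ∈ R P a := fun x hx => by
      have := (R_conj hC hg).2 hx
      rwa [hga] at this
    have h := card_invariant1 h5 (R P a) hinv
    rw [hR, Nat.ModEq] at h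
    have hsub : insert a ((R P a).filter fun x => g x = x) ⊆ fix1 g := by
      intro x hx
      rw [Finset.mem_insert] at hx
      rcases hx with rfl | hx
      · exact ha
      · exact mem_fix1.2 (Finset.mem_filter.1 hx).2
    have := Finset.card_le_card hsub
    rw [Finset.card_insert_of_notMem fun hm => (mem_R.1 (Finset.mem_filter.1 hm).1).1 rfl] at this
    omega

/-- When `|P a| = 9`, no element of order two fixes exactly two points. -/
theorem two_fix_nine (hk : ∀ a, Nat.card (P a) ≠ 3) {g : Perm Ω} (hg : g ∈ G) (h2 : g ^ 2 = 1) :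
    (fix1 g).card ≠ 2 := by
  haveI : Fact (Nat.Prime 2) := ⟨Nat.prime_two⟩
  haveI : Fact (Nat.Prime 3) := ⟨Nat.prime_three⟩
  intro hf
  obtain ⟨a, ha⟩ : (fix1 g).Nonempty := Finset.card_pos.1 (by omega)
  have hga := mem_fix1.1 ha
  obtain ⟨h9, hO, hR, hreg⟩ := nine hC hk a
  have hinvO : ∀ x ∈ O P a, g x ∈ O P a := fun x hx => by
    have := (O_conj hC hg).2 hx
    rwa [hga] at this
  have h := card_invariant1 h2 (O P a) hinvO
  rw [hO, Nat.ModEq] at h
  obtain ⟨o, ho⟩ : ((O P a).filter fun x => g x = x).Nonempty := Finset.card_pos.1 (by omega)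
  rw [Finset.mem_filter] at ho
  have hab : ∀ u ∈ P a, ∀ v ∈ P a, u * v = v * u := fun u hu v hv =>
    congrArg Subtype.val (IsPGroup.commutative_of_card_eq_prime_sq (p := 3) (G := P a) h9 ⟨u, hu⟩ ⟨v, hv⟩)
  have hgg : g * g = 1 := by rw [← pow_two, h2]
  -- `g` inverts `P a`
  have hinvert : ∀ u ∈ P a, g * u * g⁻¹ = u⁻¹ := by
    intro u hu
    have hv := conj_P hC hg hga hu
    set v := g * u * g⁻¹ with hvdef
    have hgv : g * v * g⁻¹ = u := by
      rw [hvdef, show g * (g * u * g⁻¹) * g⁻¹ = (g * g) * u * (g * g)⁻¹ by group, hgg]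
      group
    have hfix : g * (u * v) * g⁻¹ = u * v := by
      rw [show g * (u * v) * g⁻¹ = (g * u * g⁻¹) * (g * v * g⁻¹) by group, hgv, ← hvdef, hab v hv u hu]
    have hco : g ((u * v) o) = (u * v) o := by
      have h1 := congrArg (fun w : Perm Ω => w o) (mul_inv_eq_iff_eq_mul.1 hfix)
      simp only [Perm.mul_apply] at h1 ⊢
      rw [ho.2] at h1
      exact h1
    have huv : (u * v) o = o := by
      by_contra hne
      have hsub : {a, o, (u * v) o} ⊆ fix1 g := by
        intro x hx
        simp only [Finset.mem_insert, Finset.mem_singleton] at hx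
        rcases hx with rfl | rfl | rfl
        · exact ha
        · exact mem_fix1.2 ho.2
        · exact mem_fix1.2 hco
      have hca : (u * v) o ≠ a := fun h => (mem_O.1 ho.1).1
        ((u * v).injective (h.trans (hC.fixes a _ (mul_mem hu hv)).symm))
      have := Finset.card_le_card hsub
      rw [Finset.card_eq_three.2 ⟨a, o, (u * v) o, fun h => (mem_O.1 ho.1).1 h.symm, hca.symm,
        Ne.symm hne, rfl⟩, hf] at this
      omega
    exact eq_inv_of_mul_eq_one_right (hreg o ho.1 _ (mul_mem hu hv) huv)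
  obtain ⟨b, hb⟩ := R_nonempty hC a
  have hL : ∀ x ∈ L P a b, g x ∈ L P a b := by
    intro x hx
    refine mem_fix.2 fun u hu => ?_
    have h1 := mem_fix.1 hx u⁻¹ (inv_mem hu)
    rw [← hinvert u hu.1] at h1
    simp only [Perm.mul_apply] at h1
    have h3 : g⁻¹ = g := inv_eq_of_mul_eq_one_right hgg
    rw [h3] at h1
    exact g.injective (h1.trans (by rw [← Perm.mul_apply, hgg]; rfl))
  have h4 := card_invariant1 h2 (L P a b) hL
  rw [(line_four hC hk hb).1, Nat.ModEq] at h4
  have hmem : a ∈ (L P a b).filter fun x => g x = x :=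
    Finset.mem_filter.2 ⟨(self_mem_L hC a b).1, hga⟩
  have hpos : 0 < ((L P a b).filter fun x => g x = x).card := Finset.card_pos.2 ⟨a, hmem⟩
  obtain ⟨c, hc, hca⟩ := Finset.exists_mem_ne
    (show 1 < ((L P a b).filter fun x => g x = x).card by omega) a
  rw [Finset.mem_filter] at hc
  have hcR := (L_subset hC hb hc.1 hca).1
  have hco : c ≠ o := fun h => by
    subst h
    have := (mem_R.1 hcR).2
    have := (mem_O.1 ho.1).2
    omega
  have hsub : {a, o, c} ⊆ fix1 g := by
    intro x hx
    simp only [Finset.mem_insert, Finset.mem_singleton] at hx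
    rcases hx with rfl | rfl | rfl
    · exact ha
    · exact mem_fix1.2 ho.2
    · exact mem_fix1.2 hc.2
  have := Finset.card_le_card hsub
  rw [Finset.card_eq_three.2 ⟨a, o, c, fun h => (mem_O.1 ho.1).1 h.symm, hca.symm, hco.symm, rfl⟩,
    hf] at this
  omega

end Cfsg.Lib.PermGroup.TwentyTwo
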