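import Mathlib
import Cfsg.Agent.Lib.PermGroup.TwentyTwoEven

/-!
There is no transitive group of degree 22 as in `TwentyTwo.Config`.
-/

set_option autoImplicit false
set_option maxHeartbeats 1000000
set_option maxRecDepth 8000

open scoped Classical
open Equiv

namespace Cfsg.Lib.PermGroup.TwentyTwo

variable {Ω : Type*} [Fintype Ω] {G : Subgroup (Perm Ω)} {P : Ω → Subgroup (Perm Ω)}
  (hC : Config G P)
include hC

theorem card_stab (a : Ω) : 22 * Nat.card {g : G // (g : Perm Ω) a = a} = Nat.card G := by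
  rw [← card_orb_mul G a]
  congr 1
  rw [show orb G a = Finset.univ from Finset.eq_univ_of_forall fun b => mem_orb.2 (hC.trans a b),
    Finset.card_univ, hC.card]

theorem free_three (h3 : ∀ a, Nat.card (P a) = 3) {a b : Ω} (hba : b ≠ a) :
    (orb (P a) b).card = 3 ∧ ∀ u ∈ P a, u b = b → u = 1 := by
  have h := orb_mul hC a b
  rw [h3] at h
  have hpos : 0 < Nat.card ↥(P a ⊓ P b) := Nat.card_pos
  have h1 : (orb (P a) b).card = 3 := by
    rcases orb_size hC hba with h9 | h9
    · exact h9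
    · rw [h9] at h; omega
  rw [h1] at h
  refine ⟨h1, fun u hu hub => ?_⟩
  have hbot : P a ⊓ P b = ⊥ := Subgroup.card_eq_one.1 (by omega)
  have hm : u ∈ P a ⊓ P b := ⟨hu, hC.contains b u (hC.le a hu) hub (by
    obtain ⟨k, hk⟩ := hC.pgroup a ⟨u, hu⟩
    exact ⟨k, congrArg Subtype.val hk⟩)⟩
  rwa [hbot, Subgroup.mem_bot] at hm

/-- The case of cyclic `P a`: the order of a point stabilizer is not `1` mod `11` if some involution
fixes exactly two points. -/
theorem three_stab (heven : ∀ g ∈ G, Perm.sign g = 1) (h3 : ∀ a, Nat.card (P a) = 3) {t : Perm Ω}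
    (ht : t ∈ G) (ht2 : t ^ 2 = 1) (htf : (fix1 t).card = 2) {a : Ω} (hta : t a = a) :
    Nat.card {g : G // (g : Perm Ω) a = a} % 11 ≠ 1 := by
  haveI : Fact (Nat.Prime 3) := ⟨Nat.prime_three⟩
  haveI : Fact (Nat.Prime 2) := ⟨Nat.prime_two⟩
  haveI : Fact (Nat.Prime 5) := ⟨by norm_num⟩
  haveI : Fact (Nat.Prime 7) := ⟨by norm_num⟩
  intro hmod
  have hpow3 : ∀ u ∈ P a, u ^ 3 = 1 := fun u hu => by
    have h := pow_card_eq_one' (x := (⟨u, hu⟩ : P a))
    rw [h3 a] at h
    exact congrArg Subtype.val h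
  obtain ⟨u, huP, hu1⟩ : ∃ u ∈ P a, u ≠ 1 :=
    (Subgroup.bot_or_exists_ne_one (P a)).resolve_left fun h => by
      have := h3 a
      rw [h, Subgroup.card_bot] at this
      omega
  have hgen : ∀ v ∈ P a, v ∈ Subgroup.zpowers u := fun v hv => by
    have := (Subgroup.eq_of_le_of_card_ge (Subgroup.zpowers_le.2 huP) (by
      rw [h3 a, Nat.card_zpowers, orderOf_eq_prime (hpow3 u huP) hu1])).ge hv
    exact this
  let H : Subgroup (Perm Ω) := G ⊓ MulAction.stabilizer (Perm Ω) a
  have hH : ∀ g, g ∈ H ↔ g ∈ G ∧ g a = a := fun g => Iff.rfl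
  have hcardH : Nat.card H = Nat.card {g : G // (g : Perm Ω) a = a} := Nat.card_congr
    { toFun := fun g => ⟨⟨g.1, g.2.1⟩, g.2.2⟩
      invFun := fun g => ⟨g.1.1, g.1.2, g.2⟩
      left_inv := fun g => rfl
      right_inv := fun g => rfl }
  let C : Subgroup (Perm Ω) := H ⊓ Subgroup.centralizer (P a : Set (Perm Ω))
  have hCmem : ∀ g, g ∈ C ↔ g ∈ G ∧ g a = a ∧ ∀ v ∈ P a, g * v = v * g := fun g =>
    ⟨fun h => ⟨h.1.1, h.1.2, fun v hv => (Subgroup.mem_centralizer_iff.1 h.2 v hv).symm⟩,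
      fun h => ⟨⟨h.1, h.2.1⟩, Subgroup.mem_centralizer_iff.2 fun v hv => (h.2.2 v hv).symm⟩⟩
  have hcase : ∀ g ∈ H, g ∈ C ∨ g * u * g⁻¹ = u⁻¹ := by
    intro g hg
    have h := conj_P hC hg.1 hg.2 huP
    have hsub : ({1, u, u⁻¹} : Finset (Perm Ω)) = Finset.univ.filter (· ∈ P a) := by
      refine Finset.eq_of_subset_of_card_le ?_ ?_
      · intro v hv
        simp only [Finset.mem_insert, Finset.mem_singleton] at hv
        rcases hv with rfl | rfl | rfl <;> simp [huP, one_mem]
      · rw [Finset.card_eq_three.2 ⟨1, u, u⁻¹, Ne.symm hu1, fun h => hu1 (inv_eq_one.1 h.symm), fun h => hu1 ?_, rfl⟩,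
          show (Finset.univ.filter (· ∈ P a)).card = 3 by
            rw [← h3 a, ← Nat.card_eq_finsetCard]
            exact Nat.card_congr (Equiv.subtypeEquivRight fun v => by simp)]
        have h2 : u * u = 1 := by nth_rewrite 1 [h]; exact inv_mul_cancel u
        calc u = u * (u * u) := by rw [h2, mul_one]
          _ = u ^ 3 := (pow_three u).symm
          _ = 1 := hpow3 u huP
    have hm : g * u * g⁻¹ ∈ ({1, u, u⁻¹} : Finset (Perm Ω)) := hsub ▸ by simp [h]
    simp only [Finset.mem_insert, Finset.mem_singleton] at hm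
    rcases hm with h1 | h1 | h1
    · exact absurd (by simpa using mul_inv_eq_one.1 h1) hu1
    · refine Or.inl ((hCmem g).2 ⟨hg.1, hg.2, fun v hv => ?_⟩)
      obtain ⟨n, rfl⟩ := Subgroup.mem_zpowers_iff.1 (hgen v hv)
      exact (Commute.zpow_right (show Commute g u from mul_inv_eq_iff_eq_mul.1 h1) n).eq
    · exact Or.inr h1
  have htH : t ∈ H := ⟨ht, hta⟩
  have htC : t ∉ C := fun h => by
    have := fix_mod hC hta ((hCmem t).1 h).2.2
    omega
  have htu : t * u * t⁻¹ = u⁻¹ := (hcase t htH).resolve_left htC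
  have hCH : C ≤ H := inf_le_left
  have hidx : (C.subgroupOf H).index = 2 := by
    refine Subgroup.index_eq_two_iff.2 ⟨⟨t, htH⟩, fun g => ?_⟩
    rcases hcase g g.2 with h | h
    · refine Or.inr ⟨h, fun h' => htC ?_⟩
      have := mul_mem (inv_mem h) h'
      simpa using this
    · refine Or.inl ⟨(hCmem ((g : Perm Ω) * t)).2 ⟨mul_mem g.2.1 ht,
        (by rw [Perm.mul_apply, hta]; exact g.2.2), fun v hv => ?_⟩, fun h' => ?_⟩
      · obtain ⟨n, rfl⟩ := Subgroup.mem_zpowers_iff.1 (hgen v hv)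
        refine (Commute.zpow_right ?_ n).eq
        show ((g : Perm Ω) * t) * u = u * ((g : Perm Ω) * t)
        refine mul_inv_eq_iff_eq_mul.1 ?_
        rw [show (g : Perm Ω) * t * u * ((g : Perm Ω) * t)⁻¹ = g * (t * u * t⁻¹) * (g : Perm Ω)⁻¹ by group,
          htu, show (g : Perm Ω) * u⁻¹ * (g : Perm Ω)⁻¹ = ((g : Perm Ω) * u * (g : Perm Ω)⁻¹)⁻¹ by group, h, inv_inv]
      · have h1 : (g : Perm Ω) * u * (g : Perm Ω)⁻¹ = u :=
          mul_inv_eq_iff_eq_mul.2 (((hCmem _).1 h').2.2 u huP)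
        rw [h1] at h
        have h2 : u * u = 1 := by nth_rewrite 1 [h]; exact inv_mul_cancel u
        refine hu1 ?_
        calc u = u * (u * u) := by rw [h2, mul_one]
          _ = u ^ 3 := (pow_three u).symm
          _ = 1 := hpow3 u huP
  -- the seven orbits
  let T := {S : Finset Ω // ∃ b, b ≠ a ∧ orb (P a) b = S}
  let orbT : {b : Ω // b ≠ a} → T := fun b => ⟨orb (P a) b, b, b.2, rfl⟩
  have hT : Nat.card T = 7 := by
    have h := Finset.card_eq_sum_card_fiberwise (s := (Finset.univ : Finset {b : Ω // b ≠ a}))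
      (t := (Finset.univ : Finset T)) (f := orbT) fun b _ => Finset.mem_univ _
    have hfib : ∀ S : T, ((Finset.univ : Finset {b : Ω // b ≠ a}).filter fun b => orbT b = S).card = 3 := by
      rintro ⟨S, b, hb, rfl⟩
      rw [← (free_three hC h3 hb).1]
      refine Finset.card_bij (fun x _ => x.1) (fun x hx => ?_) (fun x _ y _ h => Subtype.ext h)
        fun y hy => ?_
      · simp only [Finset.mem_filter, Finset.mem_univ, true_and, orbT, Subtype.mk.injEq] at hx
        rw [← (show orb (P a) (x : Ω) = orb (P a) b from congrArg Subtype.val hx)]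
        exact mem_orb_self _ _
      · obtain ⟨v, hv, rfl⟩ := mem_orb.1 hy
        exact ⟨⟨v b, fun h => hb (v.injective (h.trans (hC.fixes a v hv).symm))⟩,
          by simp [orbT, orb_eq hy], rfl⟩
    rw [Finset.sum_congr rfl fun S _ => hfib S, Finset.sum_const, Finset.card_univ, Finset.card_univ,
      smul_eq_mul, Fintype.card_subtype_compl, Fintype.card_subtype_eq, hC.card] at h
    rw [Nat.card_eq_fintype_card]
    omega
  have himg : ∀ g ∈ C, ∀ b, (orb (P a) b).image g = orb (P a) (g b) := by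
    intro g hg b
    have hc := ((hCmem g).1 hg).2.2
    ext y
    rw [Finset.mem_image, mem_orb]
    constructor
    · rintro ⟨x, hx, rfl⟩
      obtain ⟨v, hv, rfl⟩ := mem_orb.1 hx
      exact ⟨v, hv, by rw [← Perm.mul_apply, ← hc v hv, Perm.mul_apply]⟩
    · rintro ⟨v, hv, rfl⟩
      exact ⟨v b, mem_orb.2 ⟨v, hv, rfl⟩, by rw [← Perm.mul_apply, hc v hv, Perm.mul_apply]⟩
  letI : MulAction C T :=
    { smul := fun g S => ⟨S.1.image (g : Perm Ω), by
        obtain ⟨b, hb, hS⟩ := S.2
        refine ⟨(g : Perm Ω) b, fun h => hb ((g : Perm Ω).injective (h.trans ((hCmem g).1 g.2).2.1.symm)), ?_⟩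
        rw [← hS, himg g g.2]⟩
      one_smul := fun S => Subtype.ext (by
        show S.1.image ((1 : C) : Perm Ω) = S.1
        simp)
      mul_smul := fun g h S => Subtype.ext (by
        show S.1.image ((g * h : C) : Perm Ω) = (S.1.image (h : Perm Ω)).image (g : Perm Ω)
        rw [Finset.image_image]
        rfl) }
  let σ : C →* Perm T := MulAction.toPermHom C T
  have hker : ∀ g : C, g ∈ σ.ker ↔ (g : Perm Ω) ∈ P a := by
    intro g
    obtain ⟨hgG, hga, hgc⟩ := (hCmem g).1 g.2
    constructor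
    · intro h
      refine hC.contains a _ hgG hga ⟨1, Equiv.ext fun b => ?_⟩
      rcases eq_or_ne b a with rfl | hb
      · exact Perm.pow_apply_eq_self_of_apply_eq_self hga _
      have h1 := congrArg Subtype.val (Equiv.ext_iff.1 (MonoidHom.mem_ker.1 h) ⟨orb (P a) b, b, hb, rfl⟩)
      change (orb (P a) b).image (g : Perm Ω) = orb (P a) b at h1
      have h2 : (g : Perm Ω) b ∈ orb (P a) b := h1 ▸ Finset.mem_image.2 ⟨b, mem_orb_self _ _, rfl⟩
      obtain ⟨v, hv, hvb⟩ := mem_orb.1 h2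
      have h3' : ∀ w ∈ P a, (g : Perm Ω) (w b) = w (v b) := fun w hw => by
        rw [← Perm.mul_apply, hgc w hw, Perm.mul_apply, hvb]
      show ((g : Perm Ω) ^ 3) b = b
      simp only [pow_succ, pow_zero, one_mul, Perm.mul_apply]
      rw [← hvb, h3' v hv, ← Perm.mul_apply v v, h3' _ (mul_mem hv hv)]
      rw [← Perm.mul_apply, show v * v * v = 1 by rw [mul_assoc, ← pow_three, hpow3 v hv]]
      rfl
    · intro h
      refine MonoidHom.mem_ker.2 (Equiv.ext fun S => Subtype.ext ?_)
      obtain ⟨b, hb, hS⟩ := S.2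
      show S.1.image (g : Perm Ω) = S.1
      rw [← hS, himg g g.2]
      exact orb_eq (mem_orb.2 ⟨_, h, rfl⟩)
  have hPC : ∀ v ∈ P a, v ∈ C := fun v hv => (hCmem v).2 ⟨hC.le a hv, hC.fixes a v hv, fun w hw => by
    obtain ⟨m, rfl⟩ := Subgroup.mem_zpowers_iff.1 (hgen v hv)
    obtain ⟨n, rfl⟩ := Subgroup.mem_zpowers_iff.1 (hgen w hw)
    rw [← zpow_add, ← zpow_add, add_comm]⟩
  have hkcard : Nat.card σ.ker = 3 := by
    rw [← h3 a]
    exact Nat.card_congr
      { toFun := fun g => ⟨_, (hker g.1).1 g.2⟩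
        invFun := fun v => ⟨⟨v.1, hPC v v.2⟩, (hker _).2 v.2⟩
        left_inv := fun g => rfl
        right_inv := fun g => rfl }
  have hcardC : Nat.card C = 3 * Nat.card σ.range := by
    rw [← hkcard, ← Subgroup.index_ker, Subgroup.card_mul_index]
  have hh : Nat.card H = 6 * Nat.card σ.range := by
    rw [← (C.subgroupOf H).card_mul_index, hidx, Nat.card_congr (Subgroup.subgroupOfEquivOfLe hCH).toEquiv,
      hcardC]
    ring
  have h560 : Nat.card σ.range ∣ 560 := by
    have h1 : Nat.card σ.range ∣ 5040 := by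
      have := σ.range.card_subgroup_dvd_card
      rwa [Nat.card_perm, hT] at this
    have h2 : ¬ 3 ∣ Nat.card σ.range := by
      intro hd
      obtain ⟨⟨g, g', hg⟩, hord⟩ := exists_prime_orderOf_dvd_card' 3 hd
      have hg3 : (g' : Perm Ω) ^ 3 ∈ P a := (hker (g' ^ 3)).1 (by
        rw [MonoidHom.mem_ker, map_pow, hg]
        have := pow_orderOf_eq_one (⟨g, g', hg⟩ : σ.range)
        rw [hord] at this
        exact congrArg Subtype.val this)
      have hgP : (g' : Perm Ω) ∈ P a := hC.contains a _ ((hCmem g').1 g'.2).1 ((hCmem g').1 g'.2).2.1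
        ⟨2, by rw [show 3 ^ 2 = 3 * 3 by norm_num, pow_mul]; exact hpow3 _ hg3⟩
      have hg1 : g = 1 := by rw [← hg]; exact MonoidHom.mem_ker.1 ((hker g').2 hgP)
      subst hg1
      rw [show (⟨1, g', hg⟩ : σ.range) = 1 from rfl, orderOf_one] at hord
      omega
    have hco : Nat.Coprime (Nat.card σ.range) 9 := by
      rw [show (9 : ℕ) = 3 ^ 2 by norm_num]
      exact Nat.Coprime.pow_right _ ((Nat.prime_three.coprime_iff_not_dvd.2 h2).symm)
    exact hco.dvd_of_dvd_mul_right (show Nat.card σ.range ∣ 560 * 9 from h1)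
  rw [← hcardH, hh] at hmod
  have hinvC : ∀ s : C, s ^ 2 = 1 → (s : Perm Ω) ≠ 1 → (fix1 (s : Perm Ω)).card = 10 := by
    intro s hs hs1
    obtain ⟨hsG, hsa, hsc⟩ := (hCmem s).1 s.2
    have h1 := fix_mod hC hsa hsc
    have h2 := involution_fix hC heven hsG (congrArg Subtype.val hs)
    have hle : (fix1 (s : Perm Ω)).card ≤ 22 := hC.card ▸ Finset.card_le_univ _
    have hne : (fix1 (s : Perm Ω)).card ≠ 22 := fun h =>
      hs1 (eq_one_of_fix ((Finset.card_eq_iff_eq_univ _).1 (h.trans hC.card.symm)))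
    omega
  have hmem : Nat.card σ.range ∈ Nat.divisors 560 := Nat.mem_divisors.2 ⟨h560, by norm_num⟩
  have hdiv : ∀ c ∈ Nat.divisors 560, 6 * c % 11 = 1 → c = 2 ∨ c = 35 ∨ c = 112 := by decide +kernel
  rcases hdiv _ hmem hmod with hc | hc | hc
  · -- each point is fixed by exactly one involution with ten fixed points
    let I : Finset (Perm Ω) := Finset.univ.filter fun s => s ∈ G ∧ s ^ 2 = 1 ∧ (fix1 s).card = 10
    have hIC : ∀ s ∈ I, s a = a → s ∈ C := by
      intro s hs hsa
      simp only [I, Finset.mem_filter, Finset.mem_univ, true_and] at hs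
      refine (hcase s ⟨hs.1, hsa⟩).resolve_right fun hinv => ?_
      let f : {x // x ∈ (fix1 s).erase a} → T := fun x => orbT ⟨x.1, (Finset.mem_erase.1 x.2).1⟩
      have hf : Function.Injective f := by
        rintro ⟨x, hx⟩ ⟨y, hy⟩ h
        have h1 : y ∈ orb (P a) x := by
          have e : orb (P a) x = orb (P a) y := congrArg Subtype.val h
          rw [e]
          exact mem_orb_self _ _
        obtain ⟨v, hv, rfl⟩ := mem_orb.1 h1
        obtain ⟨hxa, hx⟩ := Finset.mem_erase.1 hx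
        obtain ⟨-, hy⟩ := Finset.mem_erase.1 hy
        rw [mem_fix1] at hx hy
        obtain ⟨n, rfl⟩ := Subgroup.mem_zpowers_iff.1 (hgen v hv)
        have h2 : s * u ^ n * s⁻¹ = (u ^ n)⁻¹ := by rw [← conj_zpow, hinv, inv_zpow]
        have h4 : ((u ^ n)⁻¹) x = (u ^ n) x := by
          rw [← h2, Perm.mul_apply, Perm.mul_apply, show s⁻¹ x = x by
            conv_lhs => rw [← hx]
            simp, hy]
        have h5 : (u ^ n * u ^ n) x = x := by
          rw [Perm.mul_apply, ← h4]
          simp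
        have h6 := (free_three hC h3 hxa).2 _ (mul_mem hv hv) h5
        have h7 : u ^ n = 1 := by
          calc u ^ n = u ^ n * (u ^ n * u ^ n) := by rw [h6, mul_one]
            _ = (u ^ n) ^ 3 := by group
            _ = 1 := hpow3 _ hv
        exact Subtype.ext (by simp [h7])
      have h := Nat.card_le_card_of_injective f hf
      rw [hT, Nat.card_eq_finsetCard, Finset.card_erase_of_mem (mem_fix1.2 hsa), hs.2.2] at h
      omega
    have hrange2 : ∀ s : C, s ^ 2 = 1 → (s : Perm Ω) ≠ 1 → σ s ≠ 1 := fun s hs hs1 h => hs1 (by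
      have h1 := hpow3 _ ((hker s).1 (MonoidHom.mem_ker.2 h))
      have h2 : (s : Perm Ω) ^ 2 = 1 := congrArg Subtype.val hs
      rwa [pow_succ, h2, one_mul] at h1)
    have hone : (I.filter fun s => s a = a).card = 1 := by
      obtain ⟨s₀, hs₀⟩ := exists_prime_orderOf_dvd_card' (G := C) 2 (by rw [hcardC, hc]; norm_num)
      have hs₀2 : s₀ ^ 2 = 1 := hs₀ ▸ pow_orderOf_eq_one s₀
      have hs₀1 : (s₀ : Perm Ω) ≠ 1 := fun h => by
        rw [show s₀ = 1 from Subtype.ext h, orderOf_one] at hs₀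
        omega
      refine Finset.card_eq_one.2 ⟨s₀, Finset.eq_singleton_iff_unique_mem.2 ⟨?_, fun s hs => ?_⟩⟩
      · simp only [I, Finset.mem_filter, Finset.mem_univ, true_and]
        exact ⟨⟨((hCmem _).1 s₀.2).1, congrArg Subtype.val hs₀2, hinvC s₀ hs₀2 hs₀1⟩, ((hCmem _).1 s₀.2).2.1⟩
      · rw [Finset.mem_filter] at hs
        have hsC := hIC s hs.1 hs.2
        simp only [I, Finset.mem_filter, Finset.mem_univ, true_and] at hs
        have hs1 : s ≠ 1 := fun h => by
          subst h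
          have hu : fix1 (1 : Perm Ω) = Finset.univ := Finset.eq_univ_of_forall fun x => mem_fix1.2 rfl
          rw [hu, Finset.card_univ, hC.card] at hs
          omega
        have hσ : σ ⟨s, hsC⟩ = σ s₀ := by
          have ha1 := hrange2 ⟨s, hsC⟩ (Subtype.ext hs.1.2.1) hs1
          have hb1 := hrange2 s₀ hs₀2 hs₀1
          obtain ⟨y, -, hy⟩ := (Nat.card_eq_two_iff' (1 : σ.range)).1 hc
          have e1 : (⟨σ ⟨s, hsC⟩, _, rfl⟩ : σ.range) = y := hy _ fun h => ha1 (congrArg Subtype.val h)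
          have e2 : (⟨σ s₀, _, rfl⟩ : σ.range) = y := hy _ fun h => hb1 (congrArg Subtype.val h)
          exact congrArg Subtype.val (e1.trans e2.symm)
        have hv : (s₀ : Perm Ω)⁻¹ * s ∈ P a := (hker (s₀⁻¹ * ⟨s, hsC⟩)).1 (by
          rw [MonoidHom.mem_ker, map_mul, map_inv, hσ, inv_mul_cancel])
        have hcm : (s₀ : Perm Ω) * ((s₀ : Perm Ω)⁻¹ * s) = ((s₀ : Perm Ω)⁻¹ * s) * s₀ :=
          ((hCmem _).1 s₀.2).2.2 _ hv
        have hsq : ((s₀ : Perm Ω)⁻¹ * s) ^ 2 = 1 := by
          have e : s = (s₀ : Perm Ω) * ((s₀ : Perm Ω)⁻¹ * s) := by group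
          have h2 : s ^ 2 = 1 := hs.1.2.1
          rw [e, Commute.mul_pow hcm, show (s₀ : Perm Ω) ^ 2 = 1 from congrArg Subtype.val hs₀2, one_mul] at h2
          exact h2
        have h1 := hpow3 _ hv
        rw [pow_succ, hsq, one_mul] at h1
        exact (inv_mul_eq_one.1 h1).symm
    have hall : ∀ b : Ω, (I.filter fun s => s b = b).card = 1 := fun b => by
      obtain ⟨g, hg, rfl⟩ := hC.trans a b
      rw [← hone]
      refine (Finset.card_bij (fun s _ => g * s * g⁻¹) (fun s hs => ?_) (fun s _ r _ h => by simpa using h)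
        fun s hs => ⟨g⁻¹ * s * g, ?_, by group⟩).symm
      · simp only [I, Finset.mem_filter, Finset.mem_univ, true_and] at hs ⊢
        obtain ⟨⟨hsG, hs2, hsf⟩, hsa⟩ := hs
        refine ⟨⟨mul_mem (mul_mem hg hsG) (inv_mem hg), by rw [conj_pow, hs2]; group, ?_⟩, by simp [hsa]⟩
        rw [← hsf]
        refine (Finset.card_bij (fun x _ => g x) (fun x hx => ?_) (fun x _ y _ h => g.injective h)
          fun y hy => ⟨g⁻¹ y, ?_, by simp⟩).symm
        · rw [mem_fix1] at hx ⊢
          simp [hx]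
        · rw [mem_fix1] at hy ⊢
          apply g.injective
          simpa using hy
      · simp only [I, Finset.mem_filter, Finset.mem_univ, true_and] at hs ⊢
        obtain ⟨⟨hsG, hs2, hsf⟩, hsa⟩ := hs
        refine ⟨⟨mul_mem (mul_mem (inv_mem hg) hsG) hg, ?_, ?_⟩, by simp [hsa]⟩
        · rw [show g⁻¹ * s * g = g⁻¹ * s * g⁻¹⁻¹ by simp, conj_pow, hs2]
          group
        rw [← hsf]
        refine Finset.card_bij (fun x _ => g x) (fun x hx => ?_) (fun x _ y _ h => g.injective h)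
          fun y hy => ⟨g⁻¹ y, ?_, by simp⟩
        · rw [mem_fix1] at hx ⊢
          simpa using congrArg g hx
        · rw [mem_fix1] at hy ⊢
          simp [hy]
    have hcount := Finset.card_mul_eq_card_mul (fun (s : Perm Ω) (x : Ω) => s x = x) (s := I)
      (t := Finset.univ) (m := 10) (n := 1) (fun s hs => by
        simp only [I, Finset.mem_filter, Finset.mem_univ, true_and] at hs
        rw [← hs.2.2]
        exact congrArg Finset.card (by ext x; simp [Finset.bipartiteAbove, mem_fix1]))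
      (fun b _ => by
        rw [← hall b]
        exact congrArg Finset.card (by ext x; simp [Finset.bipartiteBelow]))
    rw [Finset.card_univ, hC.card] at hcount
    omega
  · -- a permutation group of degree seven has no subgroup of order 35
    obtain ⟨v, hv⟩ := exists_prime_orderOf_dvd_card' (G := σ.range) 7 (by rw [hc]; norm_num)
    obtain ⟨w, hw⟩ := exists_prime_orderOf_dvd_card' (G := σ.range) 5 (by rw [hc]; norm_num)
    have hn : ∀ (q : ℕ) [Fact q.Prime] (Q : Sylow q σ.range), Nat.card (Sylow q σ.range) = 1 →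
        (Q : Subgroup σ.range).Normal := fun q _ Q h => by
      have := (Nat.card_eq_one_iff_unique.1 h).1
      exact Sylow.normal_of_subsingleton Q
    have hsy : ∀ (q r : ℕ) [Fact q.Prime], q * r = 35 → ¬ q ∣ r → (∀ m, m ∣ r → m % q = 1 → m = 1) →
        Nat.card (Sylow q σ.range) = 1 := fun q r _ hqr hnd hm => by
      obtain ⟨Q⟩ : Nonempty (Sylow q σ.range) := inferInstance
      have h1 : (Q : Subgroup σ.range).index ∣ r := by
        have h2 := (Q : Subgroup σ.range).index_dvd_card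
        rw [hc, ← hqr] at h2
        exact ((Nat.Prime.coprime_iff_not_dvd Fact.out).2 Q.not_dvd_index).symm.dvd_of_dvd_mul_left h2
      refine hm _ (Q.card_dvd_index.trans h1) ?_
      have h3 := card_sylow_modEq_one q σ.range
      rwa [Nat.ModEq, Nat.one_mod_eq_one.2 (Nat.Prime.ne_one Fact.out)] at h3
    have h7 := hsy 7 5 (by norm_num) (by norm_num) fun m hm h => by
      rcases (Nat.dvd_prime (by norm_num)).1 hm with rfl | rfl <;> omega
    have h5 := hsy 5 7 (by norm_num) (by norm_num) fun m hm h => by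
      rcases (Nat.dvd_prime (by norm_num)).1 hm with rfl | rfl <;> omega
    obtain ⟨Q7, hQ7⟩ := (IsPGroup.of_card (p := 7) (n := 1)
      (show Nat.card (Subgroup.zpowers v) = 7 ^ 1 by rw [Nat.card_zpowers, hv, pow_one])).exists_le_sylow
    obtain ⟨Q5, hQ5⟩ := (IsPGroup.of_card (p := 5) (n := 1)
      (show Nat.card (Subgroup.zpowers w) = 5 ^ 1 by rw [Nat.card_zpowers, hw, pow_one])).exists_le_sylow
    have hcomm : Commute v w := Subgroup.commute_of_normal_of_disjoint _ _ (hn 7 Q7 h7) (hn 5 Q5 h5)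
      (IsPGroup.disjoint_of_ne 7 5 (by norm_num) _ _ Q7.isPGroup' Q5.isPGroup') v w
      (hQ7 (Subgroup.mem_zpowers v)) (hQ5 (Subgroup.mem_zpowers w))
    have hv7 : (v : Perm T) ^ 7 = 1 := congrArg Subtype.val (hv ▸ pow_orderOf_eq_one v : v ^ 7 = 1)
    have hw5 : (w : Perm T) ^ 5 = 1 := congrArg Subtype.val (hw ▸ pow_orderOf_eq_one w : w ^ 5 = 1)
    have hv0 : ∀ S, (v : Perm T) S ≠ S := by
      intro S hS
      have h := card_fix1_modEq hv7
      rw [← Nat.card_eq_fintype_card, hT, Nat.ModEq] at h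
      have hle : (fix1 (v : Perm T)).card ≤ 7 :=
        (Finset.card_le_univ _).trans (by rw [← Nat.card_eq_fintype_card, hT])
      have hpos : 0 < (fix1 (v : Perm T)).card := Finset.card_pos.2 ⟨S, mem_fix1.2 hS⟩
      have he := eq_one_of_fix ((Finset.card_eq_iff_eq_univ _).1
        (show (fix1 (v : Perm T)).card = Fintype.card T by rw [← Nat.card_eq_fintype_card, hT]; omega))
      rw [show v = 1 from Subtype.ext he, orderOf_one] at hv
      omega
    have h := card_invariant1 hv7 (fix1 (w : Perm T)) fun S hS => by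
      rw [mem_fix1] at hS ⊢
      rw [← Perm.mul_apply, ← (show (v : Perm T) * w = w * v from congrArg Subtype.val hcomm.eq),
        Perm.mul_apply, hS]
    simp only [hv0, Finset.filter_false, Finset.card_empty, Nat.ModEq] at h
    have h' := card_fix1_modEq hw5
    rw [← Nat.card_eq_fintype_card, hT, Nat.ModEq] at h'
    have hle : (fix1 (w : Perm T)).card ≤ 7 :=
      (Finset.card_le_univ _).trans (by rw [← Nat.card_eq_fintype_card, hT])
    have he := eq_one_of_fix ((Finset.card_eq_iff_eq_univ _).1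
      (show (fix1 (w : Perm T)).card = Fintype.card T by rw [← Nat.card_eq_fintype_card, hT]; omega))
    rw [show w = 1 from Subtype.ext he, orderOf_one] at hw
    omega
  · -- order 112: the range contains a transposition
    obtain ⟨S₂⟩ : Nonempty (Sylow 2 σ.range) := inferInstance
    have hS₂ : Nat.card (S₂ : Subgroup σ.range) = 16 := by
      obtain ⟨n, hn⟩ := IsPGroup.iff_card.1 S₂.isPGroup'
      have hnd := S₂.not_dvd_index
      have hmul := (S₂ : Subgroup σ.range).card_mul_index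
      rw [hn, hc] at hmul
      have hn7 : n < 7 := by
        by_contra h
        have h1 : 2 ^ 7 ≤ 2 ^ n := Nat.pow_le_pow_right (by norm_num) (not_lt.1 h)
        have h2 : 2 ^ n ∣ 112 := Dvd.intro _ hmul
        have := Nat.le_of_dvd (by norm_num) h2
        omega
      rw [hn]
      interval_cases n <;> omega
    have hf16 : (Nat.factorial 7).factorization 2 = 4 := by
      rw [show Nat.factorial 7 = 2 ^ 4 * 315 by decide, Nat.factorization_mul (by norm_num) (by norm_num),
        Finsupp.add_apply, Nat.prime_two.factorization_pow, Finsupp.single_eq_same,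
        Nat.factorization_eq_zero_of_not_dvd (by norm_num)]
    let S' : Sylow 2 (Perm T) := Sylow.ofCard ((S₂ : Subgroup σ.range).map σ.range.subtype) (by
      rw [Subgroup.card_map_of_injective Subtype.val_injective, hS₂, Nat.card_perm, hT, hf16]
      rfl)
    obtain ⟨i, j, hij⟩ : ∃ i j : T, i ≠ j := by
      haveI : Nontrivial T := Fintype.one_lt_card_iff_nontrivial.1 (by rw [← Nat.card_eq_fintype_card, hT]; norm_num)
      exact exists_pair_ne T
    obtain ⟨S0, hS0⟩ := (IsPGroup.of_card (p := 2) (n := 1)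
      (show Nat.card (Subgroup.zpowers (swap i j)) = 2 ^ 1 by
        rw [Nat.card_zpowers, pow_one]
        exact orderOf_eq_prime (by rw [pow_two]; exact swap_mul_self i j)
          (fun h => hij (by simpa using congrArg (fun e : Perm T => e j) h)))).exists_le_sylow
    obtain ⟨g, hg⟩ := MulAction.exists_smul_eq (Perm T) S0 S'
    have hm : g * swap i j * g⁻¹ ∈ (S' : Subgroup (Perm T)) := by
      rw [← hg, Sylow.smul_def, Sylow.pointwise_smul_def]
      exact ⟨_, hS0 (Subgroup.mem_zpowers _), rfl⟩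
    obtain ⟨⟨_, s, rfl⟩, -, hs⟩ := hm
    change σ s = g * swap i j * g⁻¹ at hs
    have hswap : g * swap i j * g⁻¹ = swap (g i) (g j) := by rw [swap_apply_apply]
    rw [hswap] at hs
    have hsne : σ s ≠ 1 := fun h => by
      rw [h] at hs
      exact hij (g.injective (by simpa using congrArg (fun e : Perm T => e (g j)) hs.symm))
    have hσ2 : σ (s ^ 2) = 1 := by rw [map_pow, hs, pow_two]; exact swap_mul_self _ _
    let r : C := s ^ 3
    have hr2 : r ^ 2 = 1 := by
      refine Subtype.ext ?_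
      have h := hpow3 _ ((hker (s ^ 2)).1 (MonoidHom.mem_ker.2 hσ2))
      show (((s : Perm Ω) ^ 3) ^ 2) = 1
      rw [← pow_mul, show 3 * 2 = 2 * 3 by norm_num, pow_mul]
      exact h
    have hσr : σ r = σ s := by rw [show r = s ^ 2 * s from pow_succ s 2, map_mul, hσ2, one_mul]
    have hr1 : (r : Perm Ω) ≠ 1 := fun h => hsne (by
      rw [← hσr, show r = 1 from Subtype.ext h, map_one])
    have hsub : (Finset.univ.erase a) \ ((g i).1 ∪ (g j).1) ⊆ fix1 (r : Perm Ω) := by
      intro b hb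
      simp only [Finset.mem_sdiff, Finset.mem_erase, Finset.mem_univ, and_true, Finset.mem_union, not_or] at hb
      obtain ⟨hba, hbi, hbj⟩ := hb
      have hfixT : σ r (orbT ⟨b, hba⟩) = orbT ⟨b, hba⟩ := by
        rw [hσr, hs]
        refine swap_apply_of_ne_of_ne (fun h => hbi ?_) fun h => hbj ?_ <;>
          (rw [← h]; exact mem_orb_self _ _)
      have h1 : (orb (P a) b).image (r : Perm Ω) = orb (P a) b := congrArg Subtype.val hfixT
      have hcnt := card_invariant1 (q := 2) (congrArg Subtype.val hr2) (orb (P a) b) fun x hx =>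
        h1 ▸ Finset.mem_image.2 ⟨x, hx, rfl⟩
      rw [(free_three hC h3 hba).1, Nat.ModEq] at hcnt
      obtain ⟨y, hy⟩ : ((orb (P a) b).filter fun x => (r : Perm Ω) x = x).Nonempty :=
        Finset.card_pos.1 (by omega)
      rw [Finset.mem_filter] at hy
      rw [← orb_eq hy.1] at h1
      obtain ⟨v, hv, rfl⟩ := mem_orb.1 (show b ∈ orb (P a) y by rw [orb_eq hy.1]; exact mem_orb_self _ _)
      rw [mem_fix1, ← Perm.mul_apply, ((hCmem _).1 r.2).2.2 v hv, Perm.mul_apply, hy.2]
    have hcard3 : ∀ S : T, S.1.card = 3 := by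
      rintro ⟨S, b, hb, rfl⟩
      exact (free_three hC h3 hb).1
    have h := Finset.card_le_card hsub
    rw [hinvC r hr2 hr1] at h
    have h' := Finset.le_card_sdiff ((g i).1 ∪ (g j).1) (Finset.univ.erase a)
    rw [Finset.card_erase_of_mem (Finset.mem_univ _), Finset.card_univ, hC.card] at h'
    have h'' := Finset.card_union_le (g i).1 (g j).1
    rw [hcard3, hcard3] at h''
    omega

/-- There is no even configuration. -/
theorem none_even (heven : ∀ g ∈ G, Perm.sign g = 1) : False := by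
  haveI : Fact (Nat.Prime 11) := ⟨by norm_num⟩
  haveI : Fact (Nat.Prime 2) := ⟨Nat.prime_two⟩
  haveI : Fact (Nat.Prime 5) := ⟨by norm_num⟩
  obtain ⟨a⟩ : Nonempty Ω := Fintype.card_pos_iff.1 (by rw [hC.card]; norm_num)
  obtain ⟨Q⟩ : Nonempty (Sylow 11 G) := inferInstance
  have h11 : 11 ∣ Nat.card G := ⟨2 * Nat.card {g : G // (g : Perm Ω) a = a}, by
    rw [← card_stab hC a]; ring⟩
  obtain ⟨k, hk⟩ := IsPGroup.iff_card.1 Q.isPGroup'
  have hfree : ∀ q : (Q : Subgroup G), ((q : G) : Perm Ω) a = a → q = 1 := by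
    intro q hq
    by_contra hne
    obtain ⟨n, hn⟩ := Q.isPGroup' q
    induction n generalizing q with
    | zero => exact hne (by simpa using hn)
    | succ n ih =>
      by_cases h : q ^ 11 ^ n = 1
      · exact ih q hq hne h
      refine h (Subtype.ext (Subtype.ext ?_))
      refine order_eleven_fixes hC (q ^ 11 ^ n : (Q : Subgroup G)).1.2 ?_
        (a := a) (Perm.pow_apply_eq_self_of_apply_eq_self hq _)
      show (((q : G) : Perm Ω) ^ 11 ^ n) ^ 11 = 1
      rw [← pow_mul, ← pow_succ]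
      exact congrArg (fun z : (Q : Subgroup G) => ((z : G) : Perm Ω)) hn
  have hQ22 : Nat.card (Q : Subgroup G) ≤ 22 := by
    refine (Nat.card_le_card_of_injective (fun q : (Q : Subgroup G) => ((q : G) : Perm Ω) a) fun q r h => ?_).trans_eq
      (by rw [Nat.card_eq_fintype_card, hC.card])
    refine (inv_mul_eq_one.1 (hfree (q⁻¹ * r) ?_))
    show (((q : G) : Perm Ω)⁻¹ * ((r : G) : Perm Ω)) a = a
    rw [Perm.mul_apply, show ((r : G) : Perm Ω) a = ((q : G) : Perm Ω) a from h.symm]
    simp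
  have hQ11 : Nat.card (Q : Subgroup G) = 11 := by
    have hd : 11 ∣ Nat.card (Q : Subgroup G) := Q.dvd_card_of_dvd_card h11
    rcases k with _ | _ | k
    · rw [hk] at hd; norm_num at hd
    · simpa using hk
    · rw [hk] at hQ22
      have : 11 ^ 2 ≤ 11 ^ (k + 1 + 1) := Nat.pow_le_pow_right (by norm_num) (by omega)
      omega
  haveI : IsCyclic (Q : Subgroup G) := isCyclic_of_prime_card hQ11
  obtain ⟨x, hxQ, hx1⟩ : ∃ x ∈ (Q : Subgroup G), x ≠ 1 :=
    (Subgroup.bot_or_exists_ne_one (Q : Subgroup G)).resolve_left fun h => by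
      rw [h, Subgroup.card_bot] at hQ11
      omega
  have hx11 : (x : Perm Ω) ^ 11 = 1 := by
    have h := pow_card_eq_one' (x := (⟨x, hxQ⟩ : (Q : Subgroup G)))
    rw [hQ11] at h
    exact congrArg (fun z : (Q : Subgroup G) => ((z : G) : Perm Ω)) h
  have hx1' : (x : Perm Ω) ≠ 1 := fun h => hx1 (Subtype.ext h)
  have hQx : ∀ y ∈ (Q : Subgroup G), (y : Perm Ω) ∈ Subgroup.zpowers (x : Perm Ω) := by
    intro y hy
    have he : Subgroup.zpowers x = (Q : Subgroup G) := Subgroup.eq_of_le_of_card_ge (Subgroup.zpowers_le.2 hxQ)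
      (by rw [hQ11, Nat.card_zpowers, orderOf_eq_prime (Subtype.ext hx11) hx1])
    obtain ⟨n, rfl⟩ := Subgroup.mem_zpowers_iff.1 (he.ge hy)
    exact ⟨n, by simp⟩
  set N := Subgroup.normalizer ((Q : Subgroup G) : Set G) with hN
  let φ := Subgroup.normalizerMonoidHom (Q : Subgroup G)
  have hcomm : ∀ n : N, n ∈ φ.ker → ((n : G) : Perm Ω) * x = x * ((n : G) : Perm Ω) := by
    intro n hn
    rw [Subgroup.normalizerMonoidHom_ker, Subgroup.mem_subgroupOf] at hn
    exact (congrArg Subtype.val (Subgroup.mem_centralizer_iff.1 hn x hxQ)).symm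
  have hprime : ∀ q : ℕ, [Fact q.Prime] → q ∣ Nat.card φ.ker → q = 11 := by
    intro q _ hq
    by_contra hne
    obtain ⟨⟨n, hn⟩, hord⟩ := exists_prime_orderOf_dvd_card' q hq
    have h1 := centralizer_eleven hC heven x.2 hx1' hx11 hne (g := ((n : G) : Perm Ω)) (n : G).2
      (by
        have h := pow_orderOf_eq_one (⟨n, hn⟩ : φ.ker)
        rw [hord] at h
        exact congrArg (fun z : φ.ker => (((z : N) : G) : Perm Ω)) h) (hcomm n hn)
    rw [show (⟨n, hn⟩ : φ.ker) = 1 from Subtype.ext (Subtype.ext (Subtype.ext h1)), orderOf_one] at hord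
    exact (Fact.out : q.Prime).ne_one hord.symm
  have hK : Nat.card φ.ker = 11 := by
    obtain ⟨m, hm⟩ : ∃ m, Nat.card φ.ker = 11 ^ m :=
      ⟨_, Nat.eq_prime_pow_of_unique_prime_dvd Nat.card_pos.ne' fun {q} hq hd => @hprime q ⟨hq⟩ hd⟩
    have hp : IsPGroup 11 (φ.ker.map N.subtype) :=
      IsPGroup.of_card (n := m) (by rw [Subgroup.card_map_of_injective Subtype.val_injective, hm])
    have hQle : (Q : Subgroup G) ≤ φ.ker.map N.subtype := fun y hy =>
      ⟨⟨y, Subgroup.le_normalizer hy⟩, by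
        show _ ∈ φ.ker
        rw [Subgroup.normalizerMonoidHom_ker, Subgroup.mem_subgroupOf, Subgroup.mem_centralizer_iff]
        exact fun z hz => congrArg Subtype.val (IsCyclic.commGroup.mul_comm
          (⟨z, hz⟩ : (Q : Subgroup G)) ⟨y, hy⟩), rfl⟩
    rw [← show Nat.card (φ.ker.map N.subtype) = Nat.card φ.ker from Subgroup.card_map_of_injective N.subtype_injective,
      Q.is_maximal' hp hQle, hQ11]
  have hr : Nat.card φ.range ∣ 10 := by
    have h := φ.range.card_subgroup_dvd_card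
    rwa [IsCyclic.card_mulAut, hQ11, Nat.totient_prime (by norm_num)] at h
  have hNcard : Nat.card N = 11 * Nat.card φ.range := by
    calc Nat.card N = Nat.card φ.ker * φ.ker.index := (Subgroup.card_mul_index _).symm
      _ = _ := by rw [hK, Subgroup.index_ker]
  have helt : ∀ q : ℕ, [Fact q.Prime] → q ≠ 11 → q ∣ Nat.card N →
      ∃ g ∈ G, g ^ q = 1 ∧ (fix1 g).card ≤ 2 := by
    intro q _ hne hq
    obtain ⟨n, hord⟩ := exists_prime_orderOf_dvd_card' q hq
    have hnq : ((n : G) : Perm Ω) ^ q = 1 := by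
      have h := pow_orderOf_eq_one n
      rw [hord] at h
      exact congrArg (fun z : N => ((z : G) : Perm Ω)) h
    refine ⟨_, (n : G).2, hnq, fix_le_two hC x.2 hx1' hx11 (hQx _ ((Subgroup.mem_normalizer_iff.1 n.2 x).1 hxQ)) fun hc => ?_⟩
    have h1 := centralizer_eleven hC heven x.2 hx1' hx11 hne (n : G).2 hnq hc
    rw [show n = 1 from Subtype.ext (Subtype.ext h1), orderOf_one] at hord
    exact (Fact.out : q.Prime).ne_one hord.symm
  have h5 : ¬ 5 ∣ Nat.card φ.range := fun h => by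
    obtain ⟨g, hg, hg5, hle⟩ := helt 5 (by norm_num) (hNcard ▸ h.mul_left 11)
    have hmod := card_fix1_modEq hg5
    rw [hC.card, Nat.ModEq] at hmod
    exact five_fix hC hg hg5 (by omega)
  have hr2 : Nat.card φ.range = 1 ∨ Nat.card φ.range = 2 := by
    have hmem : Nat.card φ.range ∈ Nat.divisors 10 := Nat.mem_divisors.2 ⟨hr, by norm_num⟩
    rw [show Nat.divisors 10 = {1, 2, 5, 10} by decide] at hmem
    simp only [Finset.mem_insert, Finset.mem_singleton] at hmem
    omega
  rcases hr2 with hr1 | hr2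
  · -- transfer
    have hNC : N ≤ Subgroup.centralizer ((Q : Subgroup G) : Set G) := fun n hn => by
      have hbot : φ.range = ⊥ := Subgroup.card_eq_one.1 hr1
      have h : (⟨n, hn⟩ : N) ∈ φ.ker := MonoidHom.mem_ker.2 (by
        have : φ ⟨n, hn⟩ ∈ φ.range := ⟨_, rfl⟩
        rwa [hbot, Subgroup.mem_bot] at this)
      rwa [Subgroup.normalizerMonoidHom_ker, Subgroup.mem_subgroupOf] at h
    set f := MonoidHom.transferSylow Q hNC with hf
    have hcompl := MonoidHom.ker_transferSylow_isComplement' Q hNC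
    have hM : ∀ b, ∀ u ∈ P b, ∃ h : u ∈ G, (⟨u, h⟩ : G) ∈ f.ker := by
      intro b u hu
      refine ⟨hC.le b hu, MonoidHom.mem_ker.2 (orderOf_eq_one_iff.1 ?_)⟩
      obtain ⟨m, hm⟩ := hC.pgroup b ⟨u, hu⟩
      refine Nat.eq_one_of_dvd_coprimes (Nat.Coprime.pow_left m (by norm_num : Nat.Coprime 3 11))
        (orderOf_dvd_of_pow_eq_one ?_) ((orderOf_dvd_natCard _).trans (dvd_of_eq hQ11))
      rw [← map_pow, show (⟨u, hC.le b hu⟩ : G) ^ 3 ^ m = 1 from
        Subtype.ext (congrArg (fun z : P b => (z : Perm Ω)) hm), map_one]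
    obtain ⟨M0, hM0n, hM0c, hM0⟩ : ∃ M0 : Subgroup G, M0.Normal ∧ Nat.card M0 = (Q : Subgroup G).index ∧
        ∀ b, ∀ u ∈ P b, ∃ h : u ∈ G, (⟨u, h⟩ : G) ∈ M0 :=
      ⟨f.ker, MonoidHom.normal_ker f, hcompl.index_eq_card.symm, hM⟩
    let M : Subgroup (Perm Ω) := M0.map G.subtype
    have hMn : ∀ g ∈ G, ∀ u ∈ M, g * u * g⁻¹ ∈ M := by
      rintro g hg _ ⟨m, hm, rfl⟩
      exact ⟨⟨g, hg⟩ * m * ⟨g, hg⟩⁻¹, hM0n.conj_mem m hm _, by simp⟩
    have hfM : ∀ g ∈ G, ∀ y z, orb M y = orb M z → orb M (g y) = orb M (g z) := by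
      intro g hg y z hyz
      obtain ⟨m, hm, hmy⟩ := mem_orb.1 (hyz ▸ mem_orb_self M y : y ∈ orb M z)
      exact orb_eq (mem_orb.2 ⟨g * m * g⁻¹, hMn g hg m hm, by simp [hmy]⟩)
    rcases class_lemma hC (orb M) hfM with hinj | hall
    · obtain ⟨b, hb⟩ := Fintype.exists_ne_of_one_lt_card (show 1 < Fintype.card Ω by rw [hC.card]; norm_num) a
      refine hb (hC.only a b fun u hu => (hinj ?_))
      obtain ⟨h, hk⟩ := hM0 a u hu
      exact orb_eq (mem_orb.2 ⟨u, ⟨_, hk, rfl⟩, rfl⟩)
    · have horb : orb M a = Finset.univ := Finset.eq_univ_of_forall fun b => by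
        rw [hall a b]; exact mem_orb_self _ _
      have h22 := card_orb_mul M a
      rw [horb, Finset.card_univ, hC.card, Subgroup.card_map_of_injective Subtype.val_injective,
        hM0c] at h22
      exact Q.not_dvd_index ⟨2 * _, h22.symm.trans (by ring)⟩
  · obtain ⟨t, ht, ht2, hle⟩ := helt 2 (by norm_num) (hNcard ▸ (Dvd.intro 11 (by rw [hr2]; norm_num)))
    have hf4 := involution_fix hC heven ht ht2
    have htf : (fix1 t).card = 2 := by omega
    obtain ⟨c, hc⟩ : (fix1 t).Nonempty := Finset.card_pos.1 (by omega)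
    rcases card_P_cases hC c with h3 | ⟨hk9, -⟩
    · refine three_stab hC heven (fun b => card_P hC b c ▸ h3) ht ht2 htf (mem_fix1.1 hc) ?_
      have hidx : N.index = Nat.card {g : G // (g : Perm Ω) c = c} := by
        have h := N.card_mul_index
        rw [hNcard, hr2, ← card_stab hC c] at h
        omega
      have hs := card_sylow_modEq_one 11 G
      rw [Q.card_eq_index_normalizer] at hs
      have hs' : N.index % 11 = 1 := hs
      rwa [hidx] at hs'
    · exact two_fix_nine hC hk9 ht ht2 htf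

/-- There is no configuration. -/
theorem none : False := by
  haveI : Fact (Nat.Prime 3) := ⟨Nat.prime_three⟩
  let G' : Subgroup (Perm Ω) := G ⊓ (Perm.sign : Perm Ω →* ℤˣ).ker
  have hP : ∀ a, P a ≤ G' := fun a u hu => ⟨hC.le a hu, MonoidHom.mem_ker.2 (by
    obtain ⟨k, hk⟩ := hC.pgroup a ⟨u, hu⟩
    have hk' : u ^ 3 ^ k = 1 := congrArg Subtype.val hk
    rcases Int.units_eq_one_or (Perm.sign u) with h | h
    · exact h
    · have h2 := congrArg Perm.sign hk'
      rw [map_pow, h, map_one, ((show Odd 3 by decide).pow).neg_one_pow] at h2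
      exact absurd h2 (by decide))⟩
  obtain ⟨a⟩ : Nonempty Ω := Fintype.card_pos_iff.1 (by rw [hC.card]; norm_num)
  have hn : ∀ g ∈ G, ∀ u ∈ G', g * u * g⁻¹ ∈ G' := fun g hg u hu =>
    ⟨G.mul_mem (G.mul_mem hg hu.1) (G.inv_mem hg), (MonoidHom.normal_ker _).conj_mem u hu.2 g⟩
  have hC' : Config G' P := by
    refine ⟨hC.card, fun y z => ?_, hP, fun g hg => hC.conj g hg.1, hC.pgroup, hC.fixes, hC.only,
      fun b u hu => hC.contains b u hu.1⟩
    have hf : ∀ g ∈ G, ∀ y z, orb G' y = orb G' z → orb G' (g y) = orb G' (g z) := by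
      intro g hg y z hyz
      obtain ⟨m, hm, hmy⟩ := mem_orb.1 (hyz ▸ mem_orb_self G' y : y ∈ orb G' z)
      exact orb_eq (mem_orb.2 ⟨g * m * g⁻¹, hn g hg m hm, by simp [hmy]⟩)
    rcases class_lemma hC (orb G') hf with hinj | hall
    · obtain ⟨b, hb⟩ := Fintype.exists_ne_of_one_lt_card (show 1 < Fintype.card Ω by rw [hC.card]; norm_num) a
      exact absurd (hC.only a b fun u hu => hinj (orb_eq (mem_orb.2 ⟨u, hP a hu, rfl⟩))) hb
    · exact mem_orb.1 (hall y z ▸ mem_orb_self G' z)
  exact none_even hC' fun g hg => hg.2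

omit hC in
/-- No finite group has exactly 22 Sylow 3-subgroups. -/
theorem card_sylow_three_ne {K : Type*} [Group K] [Finite K] : Nat.card (Sylow 3 K) ≠ 22 := by
  haveI : Fact (Nat.Prime 3) := ⟨Nat.prime_three⟩
  intro h22
  haveI : Fintype (Sylow 3 K) := Fintype.ofFinite _
  let φ : K →* Perm (Sylow 3 K) := MulAction.toPermHom K (Sylow 3 K)
  refine none (G := φ.range) (P := fun Q => (Q : Subgroup K).map φ) ?_
  refine ⟨by rw [← Nat.card_eq_fintype_card, h22], fun A B => ?_, fun A => ?_, ?_,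
    fun A => A.isPGroup'.map φ, fun A => ?_, fun A B hAB => ?_, fun A => ?_⟩
  · obtain ⟨g, hg⟩ := MulAction.exists_smul_eq K A B
    exact ⟨φ g, ⟨g, rfl⟩, hg⟩
  · rintro _ ⟨g, -, rfl⟩
    exact ⟨g, rfl⟩
  · rintro _ ⟨g, rfl⟩ A _ ⟨u, hu, rfl⟩
    refine ⟨g * u * g⁻¹, ?_, by simp⟩
    show g * u * g⁻¹ ∈ ((g • A : Sylow 3 K) : Subgroup K)
    rw [Sylow.smul_def, Sylow.pointwise_smul_def]
    exact ⟨u, hu, rfl⟩
  · rintro _ ⟨u, hu, rfl⟩
    exact Sylow.smul_eq_iff_mem_normalizer.2 (Subgroup.le_normalizer hu)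
  · have hle : (A : Subgroup K) ≤ Subgroup.normalizer ((B : Subgroup K) : Set K) := fun u hu =>
      Sylow.smul_eq_iff_mem_normalizer.1 (hAB _ ⟨u, hu, rfl⟩)
    have h := A.isPGroup'.inf_normalizer_sylow B
    exact (Sylow.ext (A.is_maximal' B.isPGroup' fun u hu => (h.le ⟨hu, hle hu⟩).2) : B = A)
  · rintro _ ⟨g, rfl⟩ hfix ⟨k, hk⟩
    -- the 3-part of `g` has the same image
    obtain ⟨l, m, hm3, hl⟩ := Nat.exists_eq_pow_mul_and_not_dvd (orderOf_pos g).ne' 3 (by norm_num)
    obtain ⟨i, j, hij⟩ : IsCoprime ((3 : ℤ) ^ k) (m : ℤ) :=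
      IsCoprime.pow_left (Int.isCoprime_iff_nat_coprime.2 (by simpa using (Nat.prime_three.coprime_iff_not_dvd.2 hm3)))
    set v := g ^ ((m : ℤ) * j) with hv
    have hφv : φ v = φ g := by
      rw [hv, map_zpow, show (m : ℤ) * j = 1 + ((3 : ℤ) ^ k) * (-i) by linarith, zpow_add, zpow_one,
        zpow_mul, show (φ g) ^ ((3 : ℤ) ^ k) = 1 by rw [← hk, ← zpow_natCast]; push_cast; rfl,
        one_zpow, mul_one]
    refine ⟨v, ?_, hφv⟩
    have hvN : v ∈ Subgroup.normalizer ((A : Subgroup K) : Set K) :=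
      Sylow.smul_eq_iff_mem_normalizer.1 (show φ v A = A by rw [hφv]; exact hfix)
    have hp : IsPGroup 3 (Subgroup.zpowers v) := IsPGroup.iff_card.2 (by
      rw [Nat.card_zpowers]
      have hd : orderOf v ∣ 3 ^ l := orderOf_dvd_of_pow_eq_one (by
        rw [hv, ← zpow_natCast, ← zpow_mul, show (m : ℤ) * j * ((3 ^ l : ℕ) : ℤ) = ((orderOf g : ℕ) : ℤ) * j by
          rw [hl]; push_cast; ring, zpow_mul, zpow_natCast, pow_orderOf_eq_one, one_zpow])
      obtain ⟨e, -, he⟩ := (Nat.dvd_prime_pow Nat.prime_three).1 hd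
      exact ⟨e, he⟩)
    have h := hp.inf_normalizer_sylow A
    exact (h.le ⟨Subgroup.mem_zpowers v, hvN⟩).2

end Cfsg.Lib.PermGroup.TwentyTwo
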